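import Cfsg.Agent.H42.FvDefs

/-! A rational torus element centralising the root subgroups of a small subsystem. -/

set_option autoImplicit false

namespace Cfsg.Agent.H85.FvCent

open Equiv Cfsg.Lie H37 H40 H34 H29 Module H50.E83 Cfsg.Agent.H42.Fv
open scoped Matrix

theorem conj_cube {D : ChevalleyDatum} {C : Cert D} {k : Type} [Field k] {ζ : kˣ} {s : ℕ}
    (hζ : IsPrimitiveRoot ζ s) {t n : D.group k} {f : Fin D.nroots → ℤ} (hl : Lab C ζ t f)
    (hn : n ∈ (C.split k).N) (h3 : ∀ r, (f ((C.split k).ν n r) : ZMod s) = 3 * f r) :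
    n⁻¹ * t * n = t ^ 3 :=
  ((hl.conj hn).eq_iff (hl.pow 3)).2 fun r => (zpow_eq_iff hζ).2 ((h3 r).trans (by push_cast; rfl))

theorem cent (la : LattStmt) : CentStmt := by
  intro n hn Ψ h1 h2 h3
  obtain ⟨s, f, hs, hf, f0, f3, fn⟩ := la _ (P8.ν_mem n hn) Ψ h1 h2 h3
  obtain ⟨ζ, hζ, -⟩ := exists_prim_unit K (N := s) (fun e => by
    have := (CharP.cast_eq_zero_iff K 3 s).1 e
    exact absurd (Nat.Coprime.eq_one_of_dvd hs.symm this) (by decide))
  obtain ⟨t, hl⟩ := exists_lab8 (C := C8) hζ hf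
  refine ⟨t, hl.mem_H, fun e => fn ((hl.eq_one_iff hζ).1 e), ?_, fun r hr x hx => ?_⟩
  · have e1 : Ph t = t ^ 3 := by
      obtain ⟨-, c, rfl, -⟩ := hl
      exact (H73.Phi_tg (C := C8) (k := K) (r := 3) 1 c).trans (by rw [pow_one])
    have e2 : n⁻¹ * t * n = t ^ 3 := conj_cube hζ hl hn (by with_reducible exact f3)
    rw [sg_apply, e1, ← e2]; group
  · obtain ⟨u, rfl⟩ := Cert.mem_X.1 hx
    have := hl.conj_xg r u
    rw [f0 r hr, zpow_zero, Units.val_one, one_mul, mul_inv_eq_iff_eq_mul] at this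
    exact this

end Cfsg.Agent.H85.FvCent
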