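import Mathlib
import Cfsg.Agent.H79.R3Defs

/-!
Rank three actions of `PSL_n(q)`: the flag characters of `SL` form a family.
-/

set_option autoImplicit false

namespace Cfsg.Agent.H85.R3F

open Cfsg Matrix
open Cfsg.Agent.H79.R3
open scoped MatrixGroups

universe u

theorem card_orb_eq {S G X : Type*} [Group S] [Group G] [MulAction S X] [MulAction G X]
    (f : S → G) (hf : ∀ (s : S) (x : X), s • x = f s • x)
    (h : ∀ (x : X) (g : G), ∃ s : S, f s • x = g • x) :
    Nat.card (MulAction.orbitRel.Quotient S X) = Nat.card (MulAction.orbitRel.Quotient G X) := by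
  refine Nat.card_congr (Quotient.congr (Equiv.refl X) fun a b => ?_)
  change a ∈ MulAction.orbit S b ↔ a ∈ MulAction.orbit G b
  constructor
  · rintro ⟨s, rfl⟩
    exact ⟨f s, (hf s b).symm⟩
  · rintro ⟨g, rfl⟩
    obtain ⟨s, hs⟩ := h b g
    exact ⟨s, (hf s b).trans hs⟩

theorem qfac_mod {q p : ℕ} (h : p ∣ q) (m : ℕ) : H75.qfac q m ≡ 1 [MOD p] := by
  unfold H75.qfac
  induction m with
  | zero => rfl
  | succ m ih =>
    rw [Finset.prod_range_succ, Finset.sum_range_succ']
    have h1 : ∑ k ∈ Finset.range m, q ^ (k + 1) + q ^ 0 ≡ 0 + 1 [MOD p] :=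
      Nat.ModEq.add ((Nat.modEq_zero_iff_dvd).2
        (Finset.dvd_sum fun k _ => h.trans (dvd_pow_self q (Nat.succ_ne_zero k)))) rfl
    exact ih.mul h1

theorem prod_mod {ι : Type*} {p : ℕ} (s : Finset ι) (f : ι → ℕ) (h : ∀ i, f i ≡ 1 [MOD p]) :
    ∏ i ∈ s, f i ≡ 1 [MOD p] := by
  classical
  induction s using Finset.induction_on with
  | empty => rfl
  | insert a s ha ih =>
    rw [Finset.prod_insert ha]
    exact (h a).mul ih

variable {n : ℕ} {F : Type u} [Field F]

theorem exists_diag (hn : 1 ≤ n) (c : Fˣ) : ∃ t : GL (Fin n) F, GeneralLinearGroup.det t = c ∧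
    ∀ i j, i ≠ j → (t : Matrix (Fin n) (Fin n) F) i j = 0 := by
  let z : Fin n := ⟨0, hn⟩
  have hd : (diagonal fun i : Fin n => if i = z then (c : F) else 1).det = c := by
    rw [det_diagonal, Finset.prod_ite_eq']
    simp
  refine ⟨GeneralLinearGroup.mkOfDetNeZero (diagonal fun i : Fin n => if i = z then (c : F) else 1)
    (hd.trans_ne c.ne_zero), Units.ext hd, fun i j hij => ?_⟩
  exact diagonal_apply_ne _ hij

theorem exists_fix (hn : 1 ≤ n) {α β : Fin n → ℕ} (hα : ∑ i, α i = n) (hβ : ∑ i, β i = n)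
    (x : (GL (Fin n) F ⧸ parabolicGL n F α) × (GL (Fin n) F ⧸ parabolicGL n F β))
    (k : GL (Fin n) F) :
    ∃ s : SpecialLinearGroup (Fin n) F, SpecialLinearGroup.toGL s • x = k • x := by
  obtain ⟨x, y⟩ := x
  induction x using QuotientGroup.induction_on with | H g =>
  induction y using QuotientGroup.induction_on with | H g' =>
  obtain ⟨p, r, hp, hr, w, e⟩ := H75.exists_dc_permGL (H75.finLabel_mono hα)
    (H75.finLabel_mono hβ) (g⁻¹ * g')
  obtain ⟨t, ht, htd⟩ := exists_diag (F := F) hn (GeneralLinearGroup.det k)⁻¹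
  have hp' := (H75.mem_parabolicGL hα p).2 hp
  have hr' := (H75.mem_parabolicGL hβ r).2 hr
  have ht1 : t ∈ parabolicGL n F α :=
    (H75.mem_parabolicGL hα t).2 fun i j hij => htd i j fun e => by
      rw [e] at hij
      exact lt_irrefl _ hij
  have ht2 : (H75.permGL F n w)⁻¹ * t * H75.permGL F n w ∈ parabolicGL n F β := by
    refine (H75.mem_parabolicGL hβ _).2 fun i j hij => ?_
    rw [← map_inv, Units.val_mul, Units.val_mul, H75.mul_permGL_apply, H75.permGL_mul_apply]
    refine htd _ _ fun e => ?_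
    rw [inv_inv, w.injective.eq_iff] at e
    rw [e] at hij
    exact lt_irrefl _ hij
  have hdet : GeneralLinearGroup.det (k * (g * p * t * p⁻¹ * g⁻¹)) = 1 := by
    simp only [map_mul, map_inv, ht]
    rw [mul_comm (GeneralLinearGroup.det g * GeneralLinearGroup.det p)]
    group
  refine ⟨⟨(k * (g * p * t * p⁻¹ * g⁻¹) : GL (Fin n) F), congrArg Units.val hdet⟩, ?_⟩
  have e1 : SpecialLinearGroup.toGL (⟨(k * (g * p * t * p⁻¹ * g⁻¹) : GL (Fin n) F),
      congrArg Units.val hdet⟩ : SpecialLinearGroup (Fin n) F) = k * (g * p * t * p⁻¹ * g⁻¹) :=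
    Units.ext rfl
  rw [e1, mul_smul]
  congr 1
  refine Prod.ext ?_ ?_
  · simp only [Prod.smul_fst, MulAction.Quotient.smul_coe, smul_eq_mul]
    rw [eq_comm, QuotientGroup.eq]
    have : g⁻¹ * (g * p * t * p⁻¹ * g⁻¹ * g) = p * t * p⁻¹ := by group
    rw [this]
    exact mul_mem (mul_mem hp' ht1) (inv_mem hp')
  · simp only [Prod.smul_snd, MulAction.Quotient.smul_coe, smul_eq_mul]
    rw [eq_comm, QuotientGroup.eq]
    have e2 : g' = g * (p * H75.permGL F n w * r) := by rw [← e]; group
    have : g'⁻¹ * (g * p * t * p⁻¹ * g⁻¹ * g') =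
        r⁻¹ * ((H75.permGL F n w)⁻¹ * t * H75.permGL F n w) * r := by
      rw [e2]; group
    rw [this]
    exact mul_mem (mul_mem (inv_mem hr') ht2) hr'

theorem fam : FamStmt.{u} := by
  intro n F _ _ _ hn
  classical
  haveI : Finite (GL (Fin n) F) := Finite.of_injective _ Units.val_injective
  haveI := Fintype.ofFinite (GL (Fin n) F)
  letI act : ∀ α : Fin n → ℕ, MulAction (SpecialLinearGroup (Fin n) F)
      (GL (Fin n) F ⧸ parabolicGL n F α) := fun α =>
    MulAction.compHom _ (SpecialLinearGroup.toGL : SpecialLinearGroup (Fin n) F →* GL (Fin n) F)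
  have e : ∀ α, piS n F α =
      H11.permChar (SpecialLinearGroup (Fin n) F) (GL (Fin n) F ⧸ parabolicGL n F α) :=
    fun α => rfl
  refine ⟨fun α => ?_, fun α β hα hβ => ?_, fun α hα => ?_, fun α hα => ?_⟩
  · rw [e]
    exact H11.isCharacter_permChar _
  · rw [e, e, H11.classInner_permChar_permChar, ← H75.classInner_parabolicGL (F := F) hα hβ,
      H75.fixedPointCharacter_eq_permChar, H75.fixedPointCharacter_eq_permChar,
      H11.classInner_permChar_permChar,
      card_orb_eq (G := GL (Fin n) F) SpecialLinearGroup.toGL (fun _ _ => rfl)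
        (exists_fix hn hα hβ)]
  · rw [e]
    refine (H11.classInner_permChar_one _).trans ?_
    rw [card_orb_eq (G := GL (Fin n) F) SpecialLinearGroup.toGL (fun _ _ => rfl) fun x k => by
        obtain ⟨s, hs⟩ := exists_fix hn hα hα (x, x) k
        exact ⟨s, congrArg Prod.fst hs⟩,
      H11.card_orbits_of_isPretransitive, Nat.cast_one]
  · haveI := Fintype.ofFinite F
    have hp : ringChar F ∣ Nat.card F := by
      rw [← ringChar.spec, Nat.card_eq_fintype_card]
      exact FiniteField.cast_card_eq_zero F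
    have h1 := H75.index_parabolicGL (F := F) hα
    have h2 : Nat.card (GL (Fin n) F ⧸ parabolicGL n F α) * 1 ≡ 1 [MOD ringChar F] :=
      ((Nat.ModEq.mul_left _ (prod_mod _ _ fun s => qfac_mod hp (α s))).symm.trans
        (by rw [h1])).trans (qfac_mod hp n)
    rw [mul_one] at h2
    have h3 : 1 ≤ Nat.card (GL (Fin n) F ⧸ parabolicGL n F α) := Nat.card_pos
    obtain ⟨k, hk⟩ := (Nat.modEq_iff_dvd' h3).1 h2.symm
    refine ⟨k, ?_⟩
    rw [e, H11.permChar_one]
    congr 1
    rw [mul_comm]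
    omega

end Cfsg.Agent.H85.R3F
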