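import Mathlib
import Cfsg.Agent.H79.R3Defs

/-!
Rank three actions of `PSL_n(q)`: permutation invariance of the flag characters and degrees of
their constituents.
-/

set_option autoImplicit false

namespace Cfsg.Agent.H85.R3U

open Cfsg Module
open Cfsg.Agent.H79.R3

universe w

theorem card_left {n : ℕ} (α β : Fin n → ℕ) (σ : Equiv.Perm (Fin n)) :
    Nat.card (H75.ContTab (α ∘ σ) β) = Nat.card (H75.ContTab α β) := by
  refine Nat.card_congr ⟨fun N => ⟨fun s t => N.1 (σ.symm s) t, fun s => ?_, fun t => ?_⟩,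
    fun N => ⟨fun s t => N.1 (σ s) t, fun s => N.2.1 (σ s), fun t => ?_⟩, ?_, ?_⟩
  · have := N.2.1 (σ.symm s)
    simpa using this
  · rw [← N.2.2 t]
    exact Equiv.sum_comp σ.symm (fun s => N.1 s t)
  · rw [← N.2.2 t]
    exact Equiv.sum_comp σ (fun s => N.1 s t)
  · intro N
    ext s t
    simp
  · intro N
    ext s t
    simp

theorem card_right {n : ℕ} (α β : Fin n → ℕ) (σ : Equiv.Perm (Fin n)) :
    Nat.card (H75.ContTab α (β ∘ σ)) = Nat.card (H75.ContTab α β) := by
  refine Nat.card_congr ⟨fun N => ⟨fun s t => N.1 s (σ.symm t), fun s => ?_, fun t => ?_⟩,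
    fun N => ⟨fun s t => N.1 s (σ t), fun s => ?_, fun t => N.2.2 (σ t)⟩, ?_, ?_⟩
  · rw [← N.2.1 s]
    exact Equiv.sum_comp σ.symm (fun t => N.1 s t)
  · have := N.2.2 (σ.symm t)
    simpa using this
  · rw [← N.2.1 s]
    exact Equiv.sum_comp σ (fun t => N.1 s t)
  · intro N
    ext s t
    simp
  · intro N
    ext s t
    simp

theorem perm : PermStmt.{w} := by
  intro G _ _ n p π h α σ hα
  have hσ : ∑ i, (α ∘ σ) i = n := (Equiv.sum_comp σ α).trans hα
  rw [← sub_eq_zero, ← H11.classInner_self_eq_zero, H11.classInner_sub_left,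
    H11.classInner_sub_right, H11.classInner_sub_right, h.inner _ _ hσ hσ, h.inner _ _ hσ hα,
    h.inner _ _ hα hσ, h.inner _ _ hα hα, card_left, card_left, card_right]
  ring

theorem uni : UniStmt.{w} := by
  intro G _ _ n p π h χ α hχ hχ1 hα hne
  classical
  let I := {ν : Fin n → ℕ // Monotone ν ∧ ∑ i, ν i = n}
  haveI : Finite I := by
    refine Finite.of_injective (fun ν : I => fun i => (⟨ν.1 i, ?_⟩ : Fin (n + 1))) ?_
    · have := Finset.single_le_sum (f := ν.1) (fun j _ => Nat.zero_le _) (Finset.mem_univ i)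
      have h2 := ν.2.2
      omega
    · intro a b e
      exact Subtype.ext (funext fun i => congrArg Fin.val (congrFun e i))
  haveI := Fintype.ofFinite I
  let b : I → G → ℂ := fun ν => π ν.1
  let J : I → G → ℂ := fun ν => H75.jtSum π ν.1
  have hS : ∀ β : Fin n → ℕ, ∑ i, β i = n → π β ∈ Submodule.span ℂ (Set.range b) := by
    intro β hβ
    rw [← perm G n p π h β (Tuple.sort β) hβ]
    exact Submodule.subset_span ⟨⟨β ∘ Tuple.sort β, Tuple.monotone_sort β,
      (Equiv.sum_comp (Tuple.sort β) β).trans hβ⟩, rfl⟩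
  have hJJ : ∀ ν μ : I, classInner (J ν) (J μ) = if ν = μ then 1 else 0 := by
    intro ν μ
    rw [H75.classInner_jtSum π h.inner ν.2.1 ν.2.2 μ.2.1 μ.2.2]
    by_cases e : ν = μ
    · rw [if_pos e, if_pos (congrArg Subtype.val e)]
    · rw [if_neg e, if_neg fun e' => e (Subtype.ext e')]
  have hli : LinearIndependent ℂ J := by
    rw [Fintype.linearIndependent_iff]
    intro g hg i
    have := congrArg (fun f => classInner f (J i)) hg
    simp only [H11.classInner_sum_left, H11.classInner_smul_left, hJJ,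
      H11.classInner_zero_left] at this
    rw [Finset.sum_eq_single i (fun j _ hj => by rw [if_neg hj, mul_zero])
      (fun hi => absurd (Finset.mem_univ i) hi), if_pos rfl, mul_one] at this
    exact this
  have hle : Submodule.span ℂ (Set.range J) ≤ Submodule.span ℂ (Set.range b) := by
    rw [Submodule.span_le]
    rintro _ ⟨ν, rfl⟩
    refine Submodule.sum_mem _ fun κ _ => ?_
    split_ifs with hκ
    · exact Submodule.smul_mem _ _ (hS _ ((H75.sum_shift hκ).trans ν.2.2))
    · exact Submodule.zero_mem _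
  have heq : Submodule.span ℂ (Set.range J) = Submodule.span ℂ (Set.range b) := by
    refine Submodule.eq_of_le_of_finrank_le hle ?_
    rw [finrank_span_eq_card hli]
    exact finrank_range_le_card b
  obtain ⟨ν, hν⟩ : ∃ ν, classInner χ (J ν) ≠ 0 := by
    by_contra hc
    push Not at hc
    refine hne ?_
    have hm := hS α hα
    rw [← heq] at hm
    generalize π α = f at hm
    induction hm using Submodule.span_induction with
    | mem x hx =>
      obtain ⟨ν, rfl⟩ := hx
      exact hc ν
    | zero => exact H11.classInner_zero_right _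
    | add x y _ _ hx hy => rw [H11.classInner_add_right, hx, hy, add_zero]
    | smul c x _ hx => rw [H11.classInner_smul_right, hx, mul_zero]
  obtain ⟨ε, ψ, hε, hψ, e⟩ := H11.exists_sign_irr_of_classInner_self
    (H75.isGen_jtSum π h.ch ν.1) ((hJJ ν ν).trans (if_pos rfl))
  have e' : J ν = ε • ψ := e
  have hψχ : χ = ψ := by
    by_contra hc
    rw [e', H11.classInner_smul_right, H11.classInner_irr_of_ne hχ hψ hc, mul_zero] at hν
    exact hν rfl
  subst hψχ
  have h0 : classInner (J ν) 1 = 0 := by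
    rw [e', H11.classInner_smul_left, H11.classInner_irr_of_ne hχ H11.isIrrCharacter_one' hχ1,
      mul_zero]
  obtain ⟨K, hK⟩ : ∃ K : ℤ, J ν 1 = K * p + classInner (J ν) 1 := by
    have key : ∀ κ : Equiv.Perm (Fin n), ∃ K : ℤ,
        (if ∀ i : Fin n, (κ i).val ≤ ν.1 i + i.val then
          ((Equiv.Perm.sign κ : ℤ) : ℂ) • π (fun i => ν.1 i + i.val - (κ i).val) else 0) 1 =
        K * p + classInner (if ∀ i : Fin n, (κ i).val ≤ ν.1 i + i.val then
          ((Equiv.Perm.sign κ : ℤ) : ℂ) • π (fun i => ν.1 i + i.val - (κ i).val) else 0) 1 := by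
      intro κ
      split_ifs with hκ
      · have hs := (H75.sum_shift hκ).trans ν.2.2
        obtain ⟨k, hk⟩ := h.deg _ hs
        refine ⟨Equiv.Perm.sign κ * k, ?_⟩
        rw [H11.classInner_smul_left, h.one _ hs, Pi.smul_apply, hk, smul_eq_mul]
        push_cast
        ring
      · exact ⟨0, by rw [H11.classInner_zero_left]; simp⟩
    choose K hK using key
    refine ⟨∑ κ, K κ, ?_⟩
    simp only [J, H75.jtSum]
    rw [H11.classInner_sum_left, Finset.sum_apply, Finset.sum_congr rfl fun κ _ => hK κ,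
      Finset.sum_add_distrib, ← Finset.sum_mul]
    push_cast
    rfl
  obtain ⟨m, hm⟩ := H11.exists_nat_degree (H11.isCharacter_of_irr hχ)
  rw [h0, add_zero, e', Pi.smul_apply, hm, smul_eq_mul] at hK
  have hd : (p : ℤ) ∣ m := by
    rcases hε with rfl | rfl
    · have : (m : ℤ) = K * p := by
        rw [one_mul] at hK
        exact_mod_cast hK
      exact this ▸ Dvd.intro_left K rfl
    · have : -(m : ℤ) = K * p := by
        rw [neg_one_mul] at hK
        exact_mod_cast hK
      exact dvd_neg.1 (this ▸ Dvd.intro_left K rfl)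
  obtain ⟨k, hk⟩ := Int.natCast_dvd_natCast.1 hd
  exact ⟨k, by rw [hm, hk, mul_comm]⟩

end Cfsg.Agent.H85.R3U
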