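import Mathlib
import Cfsg.Agent.H53.AhDefs

/-! Project AH, piece CORE. -/

set_option autoImplicit false

namespace Cfsg.Agent.H85.AhC

open Cfsg.Agent.H12.RO Cfsg.Agent.H53.MW Cfsg.Agent.H53.AH

universe u

section aux

variable {p r : ℕ} [Fact p.Prime] [Fact r.Prime] {W X : Type*} [AddCommGroup W] [Finite W]
  [Module (ZMod p) W] [AddCommGroup X] [Finite X] (ρ : W → X →+ X) (ρ0 : ∀ x, ρ 0 x = x)
  (ρa : ∀ w w' x, ρ (w + w') x = ρ w (ρ w' x))

/-- the stabilizer -/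
def fx (p : ℕ) [Module (ZMod p) W] (ρ0 : ∀ x, ρ 0 x = x)
    (ρa : ∀ w w' x, ρ (w + w') x = ρ w (ρ w' x)) (x : X) : Submodule (ZMod p) W :=
  AddSubgroup.toZModSubmodule p
    { carrier := {w | ρ w x = x}
      zero_mem' := ρ0 x
      add_mem' := fun {a b} ha hb => by
        rw [Set.mem_setOf_eq] at ha hb ⊢
        rw [ρa, hb, ha]
      neg_mem' := fun {a} ha => by
        rw [Set.mem_setOf_eq] at ha ⊢
        conv_lhs => rw [← ha, ← ρa, neg_add_cancel, ρ0] }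

omit [Finite W] [Finite X] in
theorem mem_fx {x : X} {w : W} : w ∈ fx ρ p ρ0 ρa x ↔ ρ w x = x := Iff.rfl

include ρa in
omit [Finite W] [Finite X] in
theorem norm_fix (w : W) (y : X) : ρ w (∑ t : ZMod p, ρ (t • w) y) = ∑ t : ZMod p, ρ (t • w) y := by
  rw [map_sum]
  refine Fintype.sum_equiv (Equiv.addRight 1) _ _ fun t => ?_
  rw [Equiv.coe_addRight, add_smul, one_smul, add_comm, ρa]

include ρa in
omit [Finite W] [Finite X] [Module (ZMod p) W] in
theorem comm_fix {b : W} {y : X} (h : ρ b y = y) (w : W) : ρ b (ρ w y) = ρ w y := by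
  rw [← ρa, add_comm, ρa, h]

include ρ0 ρa in
theorem step1 [Nontrivial X] (hX : ∀ y : X, p • y = 0 → y = 0)
    (nf : ∀ x : X, (∀ w, ρ w x = x) → x = 0) (βW : W →+ W →+ ZMod p)
    (nd : ∀ v, (∀ w, βW v w = 0) → v = 0) : ∃ (a : W) (f : Module.Dual (ZMod p) W), f ≠ 0 ∧
      (∀ w, f w = βW a w) ∧ ∃ y : X, y ≠ 0 ∧ ∀ w, f w = 0 → ρ w y = y := by
  let β : W →ₗ[ZMod p] Module.Dual (ZMod p) W :=
    LinearMap.mk₂ (ZMod p) (fun a w => βW a w) (fun a b w => by simp)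
      (fun c a w => ((βW.flip w).toZModLinearMap p).map_smul c a) (fun a b w => by simp)
      (fun c a w => ((βW a).toZModLinearMap p).map_smul c w)
  have βe : ∀ a w, β a w = βW a w := fun _ _ => rfl
  have hβ : Function.Injective β := (injective_iff_map_eq_zero β).2 fun a ha =>
    nd a fun w => by rw [← βe, ha, LinearMap.zero_apply]
  obtain ⟨y0, h0⟩ := exists_ne (0 : X)
  obtain ⟨y, hy, hm⟩ := Set.Finite.exists_maximalFor (fx ρ p ρ0 ρa) {y : X | y ≠ 0}
    (Set.toFinite _) ⟨y0, h0⟩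
  have hN : ∀ w, w ∉ fx ρ p ρ0 ρa y → ∑ t : ZMod p, ρ (t • w) y = 0 := fun w hw => by
    by_contra h
    refine hw (hm h (fun b hb => ?_) (norm_fix ρ ρa w y))
    rw [mem_fx, map_sum]
    exact Finset.sum_congr rfl fun t _ => comm_fix ρ ρa hb _
  obtain ⟨f, f0, hf⟩ := Submodule.exists_le_ker_of_lt_top (fx ρ p ρ0 ρa y)
    (lt_top_iff_ne_top.2 fun h => hy (nf y fun w => (mem_fx ρ ρ0 ρa).1 (h ▸ Submodule.mem_top)))
  obtain ⟨a, rfl⟩ := (LinearMap.injective_iff_surjective_of_finrank_eq_finrank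
    Subspace.dual_finrank_eq.symm).1 hβ f
  refine ⟨a, _, f0, βe a, y, hy, fun w hw => ?_⟩
  by_contra h
  obtain ⟨w1, h1⟩ : ∃ w1, β a w1 ≠ 0 := by
    by_contra hh
    push Not at hh
    exact f0 (LinearMap.ext hh)
  have h2 : ∑ j : ZMod p, ∑ i : ZMod p, ρ (i • (w1 + j • w)) y = 0 :=
    Finset.sum_eq_zero fun j _ => hN _ fun hh => h1 (by simpa [hw] using hf hh)
  rw [Finset.sum_comm, Finset.sum_eq_single (0 : ZMod p)] at h2
  · simp only [zero_smul, ρ0, Finset.sum_const, Finset.card_univ, ZMod.card] at h2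
    exact hy (hX y h2)
  · intro i _ hi
    have h3 := congrArg (ρ (i • w1)) (hN w h)
    rw [map_zero, map_sum] at h3
    rw [← h3]
    refine Fintype.sum_equiv (Equiv.mulLeft₀ i hi) _ _ fun j => ?_
    rw [Equiv.mulLeft₀_apply, smul_add, smul_smul, ρa]
  · simp

include ρ0 ρa in
theorem step2 (hp : 5 ≤ p) (hr : r ≠ p) (nf : ∀ x : X, (∀ w, ρ w x = x) → x = 0)
    (f : Module.Dual (ZMod p) W) (f0 : f ≠ 0) (β : X →+ X →+ ZMod r)
    (nd : ∀ v, (∀ w, β v w = 0) → v = 0) (inv : ∀ w x y, β (ρ w x) (ρ w y) = β x y)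
    (H : ∀ x, (∀ w, f w = 0 → ρ w x = x) → ∀ k : ZMod p, k ≠ 0 → ∀ w, ∃ w', k * f w' = f w ∧
      β (ρ w' x) x = β (ρ w x) x) (y : X) (hy : ∀ w, f w = 0 → ρ w y = y) : y = 0 := by
  classical
  have pr : (p : ZMod r) ≠ 0 := fun h => hr (((Nat.prime_dvd_prime_iff_eq Fact.out Fact.out).1
    ((ZMod.natCast_eq_zero_iff p r).1 h)))
  have n2 : (2 : ZMod p) ≠ 0 := fun h => by
    have := Nat.le_of_dvd two_pos ((ZMod.natCast_eq_zero_iff 2 p).1 h); omega
  have n3 : (3 : ZMod p) ≠ 0 := fun h => by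
    have := Nat.le_of_dvd three_pos ((ZMod.natCast_eq_zero_iff 3 p).1 h); omega
  obtain ⟨w1, h1⟩ : ∃ w1, f w1 = 1 := by
    obtain ⟨w, hw⟩ : ∃ w, f w ≠ 0 := by
      by_contra hh
      push Not at hh
      exact f0 (LinearMap.ext hh)
    exact ⟨(f w)⁻¹ • w, by rw [map_smul, smul_eq_mul, inv_mul_cancel₀ hw]⟩
  let Y : X → Prop := fun x => ∀ w, f w = 0 → ρ w x = x
  have Ya : ∀ x x', Y x → Y x' → Y (x + x') := fun x x' a b w hw => by rw [map_add, a w hw, b w hw]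
  have Yρ : ∀ x w, Y x → Y (ρ w x) := fun x w a b hb => comm_fix ρ ρa (a b hb) w
  have red : ∀ x, Y x → ∀ w, ρ w x = ρ (f w • w1) x := fun x hx w => by
    conv_lhs => rw [← add_sub_cancel (f w • w1) w, ρa, hx _ (by simp [h1])]
  have fix : ∀ x, Y x → ρ w1 x = x → x = 0 := fun x hx h => nf x fun w => by
    rw [red x hx]; exact (fx ρ p ρ0 ρa x).smul_mem _ h
  have c1 : ∀ x, Y x → ∀ t : ZMod p, t ≠ 0 → β (ρ (t • w1) x) x = β (ρ w1 x) x := fun x hx t ht => by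
    obtain ⟨w', a, b⟩ := H x hx t⁻¹ (inv_ne_zero ht) w1
    rw [h1, inv_mul_eq_one₀ ht] at a
    rw [← b, red x hx w', a]
  have c2 : ∀ x, Y x → β x x = β (ρ w1 x) x := fun x hx => by
    have e := c1 _ (Ya _ _ hx (Yρ _ w1 hx)) 2 n2
    have a2 := c1 x hx 2 n2
    have a3 := c1 x hx 3 n3
    have s2 : (2 : ZMod p) • w1 = w1 + w1 := two_smul _ _
    have s3 : (3 : ZMod p) • w1 = w1 + w1 + w1 := by rw [← s2, ← two_add_one_eq_three, add_smul, one_smul]
    simp only [s2, s3, ρa, map_add, AddMonoidHom.add_apply, inv] at e a2 a3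
    linear_combination -e + a2 + a3
  have c3 : ∀ x, Y x → β x x = 0 := fun x hx => by
    have h0 := fix _ (fun w hw => by
      rw [map_sum]; exact Finset.sum_congr rfl fun t _ => comm_fix ρ ρa (hx w hw) _)
      (norm_fix (p := p) ρ ρa w1 x)
    have h2 := congrArg (β · x) h0
    simp only [map_sum, AddMonoidHom.finset_sum_apply, map_zero, AddMonoidHom.zero_apply] at h2
    rw [Finset.sum_congr rfl (g := fun _ => β x x) fun t _ => by
      by_cases ht : t = 0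
      · rw [ht, zero_smul, ρ0]
      · rw [c1 x hx t ht, c2 x hx]] at h2
    simpa [pr] using h2
  have c4 : ∀ x x', Y x → Y x' → β x x' = -β x' x := fun x x' a b => by
    have := c3 _ (Ya _ _ a b)
    simp only [map_add, AddMonoidHom.add_apply, c3 x a, c3 x' b] at this
    linear_combination this
  have c5 : ∀ x x', Y x → Y x' → β (ρ w1 x) x' = -β (ρ w1 x') x := fun x x' a b => by
    have := (c2 _ (Ya _ _ a b)).symm.trans (c3 _ (Ya _ _ a b))
    simp only [map_add, AddMonoidHom.add_apply, ← c2 x a, ← c2 x' b, c3 x a, c3 x' b] at this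
    linear_combination this
  have c6 : ∀ x', Y x' → β (ρ w1 (ρ w1 y) - y) x' = 0 := fun x' b => by
    rw [map_sub, AddMonoidHom.sub_apply, c5 _ _ (Yρ _ _ hy) b, inv, c4 _ _ hy b, sub_self]
  have hu : Y (ρ w1 (ρ w1 y) - y) := fun w hw => by
    rw [map_sub, Yρ _ _ (Yρ _ _ hy) w hw, hy w hw]
  have u0 : ρ w1 (ρ w1 y) - y = 0 := nd _ fun z => by
    have := Fintype.ofFinite (LinearMap.ker f)
    have h2 := c6 (∑ b : LinearMap.ker f, ρ b z) fun w hw => by
      rw [map_sum]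
      exact Fintype.sum_equiv (Equiv.addLeft ⟨w, hw⟩) _ _ fun b => (ρa _ _ _).symm
    rw [map_sum, Finset.sum_congr rfl (g := fun _ => β (ρ w1 (ρ w1 y) - y) z) fun b _ => by
      conv_lhs => rw [← hu b b.2, inv]] at h2
    rw [Finset.sum_const, Finset.card_univ, Module.card_eq_pow_finrank (K := ZMod p), ZMod.card,
      nsmul_eq_mul, Nat.cast_pow] at h2
    exact (mul_eq_zero.1 h2).resolve_left (pow_ne_zero _ pr)
  refine fix y hy ?_
  have h2 : (2 : ZMod p) • w1 ∈ fx ρ p ρ0 ρa y := by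
    rw [mem_fx, two_smul, ρa]; exact sub_eq_zero.1 u0
  have := (fx ρ p ρ0 ρa y).smul_mem (2 : ZMod p)⁻¹ h2
  rwa [smul_smul, inv_mul_cancel₀ n2, one_smul] at this

end aux

/-- Piece CORE. -/
theorem core : CoreStmt.{u} := by
  intro G W X _ _ _ _ _ _ _ _ _ K M π p r βW βX hp h5 hr hrp hM hs hK nf fW alt fX H
  have := Fact.mk hp
  have := Fact.mk hr
  have hW : ∀ w : W, p • w = 0 := fun w => fW.nd _ fun v => by simp
  letI : Module (ZMod p) W := AddCommGroup.zmodModule hW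
  choose s sM sπ using hs.surj
  have π1 : π 1 = 0 := by simpa using hs.mul 1 (one_mem _) 1 (one_mem _)
  have key : ∀ t ∈ M, ∀ x : X, s (π t) • x = t • x := fun t ht x => by
    have h1 := mul_mem (inv_mem ht) (sM (π t))
    have h2 := hs.mul _ ht _ h1
    rw [mul_inv_cancel_left, sπ, left_eq_add] at h2
    have := hK _ ((hs.ker _ h1).1 h2) x
    rwa [mul_smul, inv_smul_eq_iff] at this
  let ρ : W → X →+ X := fun w => DistribSMul.toAddMonoidHom X (s w)
  have ρe : ∀ w x, ρ w x = s w • x := fun _ _ => rfl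
  have ρ0 : ∀ x, ρ 0 x = x := fun x => by rw [ρe, ← π1, key 1 (one_mem _), one_smul]
  have ρa : ∀ w w' x, ρ (w + w') x = ρ w (ρ w' x) := fun w w' x => by
    rw [ρe, ρe, ρe, ← mul_smul, ← key _ (mul_mem (sM w) (sM w')), hs.mul _ (sM w) _ (sM w'), sπ, sπ]
  have nf' : ∀ x : X, (∀ w, ρ w x = x) → x = 0 := fun x h =>
    nf x fun t ht => by rw [← key t ht]; exact h _
  obtain ⟨a, f, f0, βe, y, y0, hy⟩ := step1 (p := p) ρ ρ0 ρa (fun y hy => fX.nd y fun z => by
    have h1 := congrArg (βX · z) hy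
    simp only [map_nsmul, AddMonoidHom.nsmul_apply, nsmul_eq_mul, map_zero,
      AddMonoidHom.zero_apply] at h1
    exact (mul_eq_zero.1 h1).resolve_left fun h => hrp
      ((Nat.prime_dvd_prime_iff_eq hr hp).1 ((ZMod.natCast_eq_zero_iff p r).1 h))) nf' βW fW.nd
  refine y0 (step2 ρ ρ0 ρa h5 hrp nf' f f0 βX fX.nd
    (fun w x z => fX.inv _ x z) (fun x hx k hk w => ?_) y hy)
  obtain ⟨g, g1, g2⟩ := H x (s a) (sM a) (hx a ((βe a).trans (alt a))) k.val fun h =>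
    hk (by rw [← ZMod.natCast_zmod_val k, (ZMod.natCast_eq_zero_iff _ _).2 h])
  rw [sπ] at g2
  refine ⟨g • w, ?_, ?_⟩
  · rw [βe, βe, ← fW.inv g a w, g2, map_nsmul, AddMonoidHom.nsmul_apply, nsmul_eq_mul,
      ZMod.natCast_zmod_val]
  · rw [ρe, ρe, ← fX.inv g (s w • x) x, g1, ← sπ w, ← hs.conj g _ (sM w),
      key _ (hM.conj_mem _ (sM w) g), sπ, mul_smul, mul_smul, inv_smul_eq_iff.2 g1.symm]

end Cfsg.Agent.H85.AhC
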