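import Mathlib
import Cfsg.Agent.H50.E72Defs

/-! Fixed spaces of elements of order three and five on the module of dimension 56. -/

set_option autoImplicit false
set_option maxRecDepth 100000

namespace Cfsg.Agent.H85.E72C

open Cfsg.Lie H37 H40 H34 H29 Module Cfsg.Agent.H50.E72
open scoped Matrix

theorem chk3 : allAlc [2, 2, 3, 4, 3, 2, 1] 3 (fun a =>
    decide ((cV 3 a 0, cL 3 a 0) ∈ [(2, 79), (14, 49), (20, 43), (20, 49), (32, 67)]) ||
      cV 3 a 0 == 56) = true := by decide +kernel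

theorem chk5 : allAlc [2, 2, 3, 4, 3, 2, 1] 5 (fun a =>
    !(cV 5 a 1 == cV 5 a 2 && cV 5 a 2 == cV 5 a 4 && cV 5 a 4 == cV 5 a 3) ||
      cV 5 a 0 == 16 || cV 5 a 0 == 56) = true := by decide +kernel

theorem eq_one_of_fx {π : G0 →* M56 (ZMod 2)} (hπ : Function.Injective π) {g : G0}
    (h : fx π g = 56) : g = 1 := by
  have htop : eig π g 1 = ⊤ := by
    apply Submodule.eq_top_of_finrank_eq
    have : finrank K (eig π g 1) = 56 := h
    rw [this]; simp
  have hv : ∀ v : Fin 56 → K, (π g).map (algebraMap (ZMod 2) K) *ᵥ v = v := by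
    intro v
    have : v ∈ eig π g 1 := htop ▸ Submodule.mem_top
    rw [mem_eig, act_apply, one_smul] at this
    exact this
  have h1 : (π g).map (algebraMap (ZMod 2) K) = (1 : M56 (ZMod 2)).map (algebraMap (ZMod 2) K) := by
    rw [Matrix.map_one _ (map_zero _) (map_one _)]
    apply Matrix.toLin'.injective
    ext1 v
    simp only [Matrix.toLin'_one]
    exact LinearMap.ext fun c => by
      simp only [LinearMap.coe_comp, Function.comp_apply, Matrix.toLin'_apply, LinearMap.id_coe, id]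
      exact hv _
  have h2 : π g = 1 := Matrix.map_injective (algebraMap (ZMod 2) K).injective h1
  exact hπ (h2.trans (map_one π).symm)

theorem mu_sq (hF : FrobStmt) {n : Type} [Fintype n] [DecidableEq n] (π : G0 →* Matrix n n (ZMod 2))
    (g : G0) (η : K) : mu π g η = mu π g (η ^ 2) := by
  have := hF n π Unit (fun _ => g) (fun _ => η)
  rw [iInf_const, iInf_const] at this
  exact this

theorem c3 : C3Stmt := by
  intro π hπ g hg hne
  obtain ⟨ζ, hζ, -⟩ := exists_prim_unit K (N := 3) (by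
    have : ((3 : ℕ) : K) = 1 := by
      have h2 : ((2 : ℕ) : K) = 0 := CharP.cast_eq_zero K 2
      rw [show (3 : ℕ) = 2 + 1 from rfl, Nat.cast_add, h2]; simp
    rw [this]; exact one_ne_zero)
  obtain ⟨a, hl, hs, h⟩ := hπ.tor g 3 ζ (by decide) hζ hg
  have hk := allAlc_spec chk3 (by decide) (a := a) hl hs
  obtain ⟨h1, h2⟩ := h 0
  rw [pow_zero, Units.val_one] at h1 h2
  have e1 : fx π g = cV 3 a 0 := h1
  have e2 : fx ad g = cL 3 a 0 := h2
  rw [Bool.or_eq_true, decide_eq_true_eq, beq_iff_eq, ← e1, ← e2] at hk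
  rcases hk with hk | hk
  · exact hk
  · exact absurd (eq_one_of_fx hπ.inj hk) hne

theorem c5 (hF : FrobStmt) : C5Stmt := by
  intro π hπ g hg hne
  obtain ⟨ζ, hζ, -⟩ := exists_prim_unit K (N := 5) (by
    have : ((5 : ℕ) : K) = 1 := by
      have h2 : ((2 : ℕ) : K) = 0 := CharP.cast_eq_zero K 2
      rw [show (5 : ℕ) = 2 + 2 + 1 from rfl, Nat.cast_add, Nat.cast_add, h2]; simp
    rw [this]; exact one_ne_zero)
  obtain ⟨a, hl, hs, h⟩ := hπ.tor g 5 ζ (by decide) hζ hg
  have hk := allAlc_spec chk5 (by decide) (a := a) hl hs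
  have e : ∀ k l : ℕ, (ζ ^ k) ^ 2 = ζ ^ l → cV 5 a k = cV 5 a l := by
    intro k l hkl
    rw [← (h k).1, ← (h l).1, ← hkl, Units.val_pow_eq_pow_val _ 2]
    exact mu_sq hF π g _
  have e12 := e 1 2 (by rw [← pow_mul])
  have e24 := e 2 4 (by rw [← pow_mul])
  have e43 := e 4 3 (by
    rw [← pow_mul, show 4 * 2 = 5 + 3 from rfl, pow_add, hζ.pow_eq_one, one_mul])
  have h1 := (h 0).1
  rw [pow_zero, Units.val_one] at h1
  have e1 : fx π g = cV 5 a 0 := h1
  rw [e12, e24, e43, ← e1] at hk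
  simp only [beq_self_eq_true, Bool.and_self, Bool.not_true, Bool.false_or, Bool.or_eq_true,
    beq_iff_eq] at hk
  rcases hk with hk | hk
  · exact hk
  · exact absurd (eq_one_of_fx hπ.inj hk) hne

end Cfsg.Agent.H85.E72C
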