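import Mathlib
import Cfsg.Agent.H72.HNTy

/-! Project HN3, piece MOD: the finite computations. -/

set_option autoImplicit false

namespace Cfsg.Agent.H85.HnM

open Cfsg Subgroup H99.HN H99.HN.M4 H72.HN
open Cfsg.Agent.H4.J2S (F4)
open Cfsg.Agent.H91 (SL25 slX slY)
open Cfsg.Agent.H67.T3 (slF)

instance (priority := high) decEx4 (p : F4 → Prop) [DecidablePred p] : Decidable (∃ x, p x) :=
  decidable_of_iff (∃ x ∈ F4.all, p x) ⟨fun ⟨x, _, h⟩ => ⟨x, h⟩, fun ⟨x, h⟩ => ⟨x, F4.mem_all x, h⟩⟩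

/-! ### matrices -/

/-- diagonal matrices -/
def dg (l : F4) : M4 := ⟨l, 0, 0, l.bar⟩
/-- the antidiagonal matrix -/
def jj (t : F4) : M4 := ⟨0, t, t.bar, 0⟩
/-- upper unitriangular -/
def up (l : F4) : M4 := ⟨1, l, 0, 1⟩
/-- lower unitriangular -/
def lo (l : F4) : M4 := ⟨1, 0, l, 1⟩
/-- antidiagonal entries -/
def an (b c : F4) : M4 := ⟨0, b, c, 0⟩
/-- scaling the entries -/
def sc (l m : F4) (X : M4) : M4 := ⟨m.bar * X.a, l * X.b, l.bar * X.c, m * X.d⟩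
/-- a map given by the images of the matrix units -/
def tm (A1 A2 A3 A4 X : M4) : M4 :=
  A1 * dg X.a + A2 * dg X.b.bar + (A3 * dg X.c + A4 * dg X.d.bar)

theorem madd_comm (X Y : M4) : X + Y = Y + X := by
  ext <;> exact add_comm (G := F4) _ _
theorem madd_assoc (X Y Z : M4) : X + Y + Z = X + (Y + Z) := by
  ext <;> exact add_assoc (G := F4) _ _ _
theorem madd_zero : ∀ X : M4, X + 0 = X := by decide +kernel
theorem zero_madd : ∀ X : M4, 0 + X = X := by decide +kernel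
theorem mul_madd (X Y Z : M4) : X * (Y + Z) = X * Y + X * Z := by
  ext <;> (change _ * (_ + _) + _ * (_ + _) = _ * _ + _ * _ + (_ * _ + _ * _); ring)
theorem madd_mul (X Y Z : M4) : (X + Y) * Z = X * Z + Y * Z := by
  ext <;> (change (_ + _) * _ + (_ + _) * _ = _ * _ + _ * _ + (_ * _ + _ * _); ring)
theorem tw_add (X Y : M4) : tw true (X + Y) = tw true X + tw true Y := by
  ext <;> exact F4.bar_add _ _
theorem sc_add (l m : F4) (X Y : M4) : sc l m (X + Y) = sc l m X + sc l m Y := by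
  ext <;> exact mul_add (R := F4) _ _ _
theorem sc_sc (l m l' m' : F4) (X : M4) : sc l m (sc l' m' X) = sc (l * l') (m * m') X := by
  ext <;> simp only [sc, F4.bar_mul] <;> ring
theorem sc_one : ∀ X : M4, sc 1 1 X = X := by decide +kernel
theorem add4 (X Y Z W : M4) : X + Y + (Z + W) = X + Z + (Y + W) := by
  ext <;> exact add_add_add_comm (G := F4) _ _ _ _
theorem an_add (b c b' c' : F4) : an b c + an b' c' = an (b + b') (c + c') := rfl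
theorem add_cancel {X Y Z : M4} (h : X + Y + Z = 0) : X = Z + Y := by
  apply eq_of_add
  rw [← h, madd_comm Z, madd_assoc]

theorem unit_dec : ∀ X : M4, X = (⟨1, 0, 0, 0⟩ : M4) * dg X.a + (⟨0, 1, 0, 0⟩ : M4) * dg X.b.bar +
    ((⟨0, 0, 1, 0⟩ : M4) * dg X.c + (⟨0, 0, 0, 1⟩ : M4) * dg X.d.bar) := by decide +kernel

theorem dec_an : ∀ t : F4, t ≠ 0 → ∀ X : M4,
    X = an X.b X.c + jj t * an (t * X.d) (t.bar * X.a) := by decide +kernel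

theorem jj_facts : ∀ t : F4, t ≠ 0 → jj t * jj t = 1 ∧ (jj t).det = 1 ∧ jj t ≠ 1 ∧
    jj t * an t t.bar = 1 ∧ jj t * (⟨0, 1, 0, 0⟩ : M4) = (⟨0, 0, 0, 1⟩ : M4) * dg t ∧
    jj t * (⟨0, 0, 1, 0⟩ : M4) = (⟨1, 0, 0, 0⟩ : M4) * dg t ∧ dg t * dg t.bar = 1 ∧
    tw true (jj t) = jj t.bar := by decide +kernel

theorem q_dec : ∀ t : F4, t ≠ 0 → ∀ b c b' c' : F4, ((an b c + jj t * an b' c').q = 0 ↔
    (((an b c).q = 0 ∧ (an b' c').q = 0) ∨ ((an b c).q ≠ 0 ∧ (an b' c').q ≠ 0))) ∧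
    (an b c + jj t * an b' c' = 0 → b = 0 ∧ c = 0 ∧ b' = 0 ∧ c' = 0) := by decide +kernel

theorem fin0 : ∀ t : F4, t ≠ 0 → ∀ A2 : M4, A2 * dg .v = ⟨0, 1, 0, 0⟩ + dg .v * A2 →
    ∀ A3 : M4, A3 * dg .v = ⟨0, 0, 1, 0⟩ + dg .v * A3 → ∀ T : M4 → M4,
    T = tm ((⟨0, 0, 1, 0⟩ + jj t * A3) * dg t.bar) A2 A3 ((⟨0, 1, 0, 0⟩ + jj t * A2) * dg t.bar) →
    (∀ X, (T X).q = 0 ↔ X.q = 0) →
    (∃ l : F4, l ≠ 0 ∧ ((∀ X, T (X * jj t.bar) * jj t.bar = dg l * T (dg l.bar * X)) ∨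
      (∀ X, T (X * jj t.bar) * jj t.bar = jj t * (dg l * T (dg l.bar * (jj t * X)))))) →
    (∀ X, T X = up t * X) ∨ (∀ X, T X = lo t.bar * X) := by
  have h : ∀ t : F4, t ≠ 0 → ∀ A2 : M4, A2 * dg .v = ⟨0, 1, 0, 0⟩ + dg .v * A2 →
      ∀ A3 : M4, A3 * dg .v = ⟨0, 0, 1, 0⟩ + dg .v * A3 →
      let T := tm ((⟨0, 0, 1, 0⟩ + jj t * A3) * dg t.bar) A2 A3
        ((⟨0, 1, 0, 0⟩ + jj t * A2) * dg t.bar)
      (∀ X, (T X).q = 0 ↔ X.q = 0) →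
      (∃ l : F4, l ≠ 0 ∧ ((∀ X, T (X * jj t.bar) * jj t.bar = dg l * T (dg l.bar * X)) ∨
        (∀ X, T (X * jj t.bar) * jj t.bar = jj t * (dg l * T (dg l.bar * (jj t * X)))))) →
      (∀ X, T X = up t * X) ∨ (∀ X, T X = lo t.bar * X) := by
    intro t; cases t <;> decide +kernel
  rintro t ht A2 h2 A3 h3 T rfl
  exact h t ht A2 h2 A3 h3

theorem dg_v : ∀ X : M4, X * dg .v = sc .w .w X ∧ dg .w * X = sc .w .v X ∧ X * dg 0 = 0 ∧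
    X * dg 1 = X ∧ X * dg .w = X * dg .v * dg .v ∧ dg .v * (dg .w * X) = X ∧
    dg .w * (dg .w * X) + dg .w * X + X = 0 := by decide +kernel

/-- The action of the third generator. -/
theorem fin1 {t : F4} (ht : t ≠ 0) {T : M4 → M4} (hadd : ∀ X Y, T (X + Y) = T X + T Y)
    (hz : ∀ X, T (X * dg .v) = T X * dg .v) (h2 : ∀ X, T (T X) = X)
    (hx : ∀ X, dg .w * T (dg .w * T X) + dg .w * T X + X = 0)
    (hd : ∀ X, T (jj t * T (jj t * X)) + T (jj t * X) + X = 0)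
    (hq : ∀ X, (T X).q = 0 ↔ X.q = 0)
    (hi : ∃ l : F4, l ≠ 0 ∧ ((∀ X, T (X * jj t.bar) * jj t.bar = dg l * T (dg l.bar * X)) ∨
      (∀ X, T (X * jj t.bar) * jj t.bar = jj t * (dg l * T (dg l.bar * (jj t * X)))))) :
    (∀ X, T X = up t * X) ∨ (∀ X, T X = lo t.bar * X) := by
  have h0 : T 0 = 0 := by
    have := hadd 0 0
    rw [add_self, add_self] at this
    exact this
  have hl : ∀ l X, T (X * dg l) = T X * dg l := by
    intro l X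
    cases l
    · exact ((congrArg T (dg_v X).2.2.1).trans h0).trans (dg_v _).2.2.1.symm
    · exact (congrArg T (dg_v X).2.2.2.1).trans (dg_v _).2.2.2.1.symm
    · rw [(dg_v X).2.2.2.2.1, hz, hz, (dg_v (T X)).2.2.2.2.1]
    · exact hz X
  have hx' : ∀ Y, T (dg .w * Y) = Y + dg .v * T Y := by
    intro Y
    have a := hx (T Y)
    rw [h2] at a
    have b := congrArg (fun W => dg .v * W) (add_cancel a)
    simp only [mul_madd, (dg_v _).2.2.2.2.2.1] at b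
    rw [b, madd_comm]
  obtain ⟨j1, -, -, -, j5, j6, j7, -⟩ := jj_facts t ht
  have jj2 : ∀ X, jj t * (jj t * X) = X := fun X => by rw [← massoc, j1, onem]
  have hd' : ∀ Y, T (jj t * Y) = Y + jj t * T Y := by
    intro Y
    have a := congrArg (fun W => jj t * T W) (add_cancel (hd Y))
    simp only [h2, hadd, mul_madd, jj2] at a
    rw [a, madd_comm]
  refine fin0 t ht (T ⟨0, 1, 0, 0⟩) ?_ (T ⟨0, 0, 1, 0⟩) ?_ T ?_ hq hi
  · rw [← hz, ← hx']; rfl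
  · rw [← hz, ← hx']; rfl
  · funext X
    rw [tm, ← hd', ← hd', j5, j6, hl, hl, massoc _ (dg t), massoc _ (dg t), j7, mone, mone,
      ← hl, ← hl, ← hl, ← hl, ← hadd, ← hadd, ← hadd, ← unit_dec]

theorem gen_up : ∀ t : F4, t ≠ 0 → ∀ a : F4, (up a = 1 ∨ ∃ l, l ≠ 0 ∧ up a = dg l * up t * dg l.bar) ∧
    lo a = jj t * up (t * t * a) * jj t ∧ up t = jj t * lo t.bar * jj t := by decide +kernel

theorem gen_dg : ∀ l : F4, l ≠ 0 → dg l = dg .w ∨ dg l = dg .w * dg .w ∨ dg l = 1 := by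
  decide +kernel

theorem gen_all : ∀ A : M4, A.det = 1 → ∃ a b c e : F4, A = up a * lo b * (up c * lo e) := by
  decide +kernel

theorem det_gen : ∀ t : F4, (up t).det = 1 ∧ (lo t).det = 1 ∧ (dg .w).det = 1 := by decide +kernel

theorem sc_fix : ∀ t : F4, t ≠ 0 → ∀ l m : F4, jj t * sc l m (an t t.bar) = 1 → l = 1 := by
  decide +kernel

theorem tw_jj : ∀ t : F4, t ≠ 0 → ∀ m b c : F4,
    jj t * sc 1 m (an c.bar b.bar) = tw true (jj t * an b c) := by decide +kernel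

theorem sc_jj : ∀ t : F4, t ≠ 0 → ∀ b c : F4,
    sc .w 1 (jj t * an b c) = jj t * an b c ∧ sc 1 .w (an b c) = an b c ∧
    sc .w 1 (an b c) = an (.w * b) (.v * c) ∧
    sc 1 .w (jj t * an b c) = jj t * an (.w * b) (.v * c) := by decide +kernel

theorem sc_s : ∀ X : M4, sc 1 .w X = 1 → X = ⟨.w, 0, 0, .v⟩ := by decide +kernel

/-! ### `SL₂(5)` -/

/-- the third generator -/
def slV : SL25 := ⟨!![2, 2; 0, 3], by decide⟩
/-- a conjugating element -/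
def slM1 : SL25 := ⟨!![1, 1; 3, 4], by decide⟩
/-- a conjugating element -/
def slM2 : SL25 := ⟨!![0, 1; 4, 0], by decide⟩

theorem slV_facts : slV * slV = -1 ∧ slX * slV * slM1 = slM1 * slX ∧
    slV * slF * slM2 = slM2 * slX ∧ slY = slV * slF * slX * (slV * slF * slX) ∧
    slX * slV * (slX * slV) * (slX * slV) = 1 ∧ slX⁻¹ = slX * slX ∧
    slY⁻¹ = slY * slY * (slY * slY) := by decide +kernel

theorem slV_six : ∀ k : SL25, k * k = -1 → slX * k * (slX * k) * (slX * k) = 1 →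
    ∃ a ∈ [1, slX, slX * slX], k * a = a * slV ∨ k * (slF * a) = slF * a * slV * -1 := by
  decide +kernel

/-! ### the alternating group -/

/-- `(6 7)(8 9)` -/
def r0 : A12 := dd 6 7 8 9
/-- first plane -/
def fa : F4 → A12
  | .o => 1
  | .i => x2
  | .w => dd 0 6 1 7 * dd 2 4 3 5
  | .v => x4
/-- second plane -/
def fb : F4 → A12
  | .o => 1
  | .i => dd 0 2 1 3 * dd 4 7 5 6
  | .v => dd 0 7 1 6 * dd 2 4 3 5
  | .w => dd 0 4 1 5 * dd 2 7 3 6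
/-- coset representatives -/
def fp (b c : F4) : A12 := fa b * fb c
/-- congruence -/
def Md (a b : A12) : Prop := a = b ∨ a = b * u0

instance (a b : A12) : Decidable (Md a b) := inferInstanceAs (Decidable (_ ∨ _))

theorem fp_mul : ∀ b c b' c' : F4, Md (fp b c * fp b' c') (fp (b + b') (c + c')) := by
  intro b c; cases b <;> cases c <;> decide +kernel

theorem fp_facts : ∀ b c : F4, fp b c * u0 = u0 * fp b c ∧
    (Md (fp b c) 1 → b = 0 ∧ c = 0) ∧ ((an b c).q = 0 → fp b c * fp b c = 1) ∧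
    ((an b c).q ≠ 0 → fp b c * fp b c = u0) ∧ c4 * fp b c = fp b c * c4 ∧
    Md (c1 * c2 * fp b c * (c1 * c2)⁻¹) (fp (.w * b) (.v * c)) ∧
    Md (σ0 * fp b c * σ0⁻¹) (fp b.bar c.bar) ∧
    Md (r0 * fp b c * r0⁻¹) (fp c.bar b.bar) := by decide +kernel

theorem fp_gen : fp 0 0 = 1 ∧ Md (dd 0 1 2 3) (fp 1 1) ∧ (∃ b, Md (dd 2 3 4 5) (fp b b.bar)) ∧
    Md (dd 4 5 6 7) (fp 1 1) ∧ x2 = fp 1 0 ∧ x4 = fp .v 0 ∧ u0 = dd 0 1 2 3 * dd 4 5 6 7 ∧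
    fa .w = x2 * x4 ∧ fb 1 = x2 * dd 4 5 6 7 ∧ fb .w = x4 * dd 2 3 6 7 ∧
    (dd 2 3 6 7 : A12) = dd 2 3 4 5 * dd 4 5 6 7 ∧ fb .v = fb 1 * fb .w := by decide +kernel

theorem a12_facts : u0 * u0 = 1 ∧ u0 ≠ 1 ∧ t0 ≠ 1 ∧ t0 ≠ u0 ∧ c4 * s0 * c4⁻¹ = t0 ∧
    σ0 * t0 * σ0⁻¹ = t0 ∧ σ0 * u0 = u0 * σ0 ∧ r0 * u0 = u0 * r0 ∧ c4 * u0 = u0 * c4 ∧
    c1 * c2 * u0 = u0 * (c1 * c2) ∧ σ0 * σ0 = 1 ∧
    c4 = c1 * c2 * c4⁻¹ * (c1 * c2 * c4)⁻¹ ∧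
    c1 * c2 = (c1 * c2 * c4⁻¹)⁻¹ * (c1 * c2 * c4)⁻¹ ∧
    c1 * c2 * c4⁻¹ = c1 * c2 * (c4 * c4) ∧
    σ0 * (c1 * c2 * c4) * σ0⁻¹ = (c1 * c2 * c4⁻¹)⁻¹ ∧
    σ0 * (c1 * c2 * c4⁻¹) * σ0⁻¹ = (c1 * c2 * c4)⁻¹ ∧
    r0 * (c1 * c2 * c4) * r0⁻¹ = c1 * c2 * c4⁻¹ ∧
    r0 * (c1 * c2 * c4⁻¹) * r0⁻¹ = c1 * c2 * c4 ∧
    (c1 * c2 * c4) ^ 3 = 1 ∧ r0 * r0 = 1 := by
  refine ⟨?_, ?_, ?_, ?_, ?_, ?_, ?_, ?_, ?_, ?_, ?_, ?_, ?_, ?_, ?_, ?_, ?_, ?_, ?_, ?_⟩ <;>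
    decide +kernel

end Cfsg.Agent.H85.HnM
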