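import Mathlib
import Cfsg.Agent.H85.HnModA

/-! Project HN3, piece MOD: the coordinate map. -/

set_option autoImplicit false

namespace Cfsg.Agent.H85.HnM

open Cfsg Subgroup H99.HN H99.HN.M4 H72.HN
open Cfsg.Agent.H4.J2S (F4)
open Cfsg.Agent.H91 (SL25 slX slY)
open Cfsg.Agent.H67.T3 (slF)
open scoped Pointwise

universe u

section gen

variable {H : Type*} [Group H]

/-- congruence modulo an involution -/
def MG (u a b : H) : Prop := a = b ∨ a = b * u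

theorem MG.trans {u a b c : H} (hu : u * u = 1) (h1 : MG u a b) (h2 : MG u b c) : MG u a c := by
  rcases h1 with rfl | rfl <;> rcases h2 with rfl | rfl
  · exact Or.inl rfl
  · exact Or.inr rfl
  · exact Or.inr rfl
  · exact Or.inl (by rw [mul_assoc, hu, mul_one])

theorem MG.mul {u a b x y : H} (hu : u * u = 1) (hy : y * u = u * y) (h1 : MG u a x)
    (h2 : MG u b y) : MG u (a * b) (x * y) := by
  rcases h1 with rfl | rfl <;> rcases h2 with rfl | rfl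
  · exact Or.inl rfl
  · exact Or.inr (mul_assoc _ _ _).symm
  · exact Or.inr (by rw [mul_assoc, ← hy, mul_assoc])
  · exact Or.inl (by rw [hy, mul_assoc, ← mul_assoc u, hu, one_mul])

theorem MG.conj {u a x g : H} (hg : g * u = u * g) (h : MG u a x) :
    MG u (g * a * g⁻¹) (g * x * g⁻¹) := by
  rcases h with rfl | rfl
  · exact Or.inl rfl
  · refine Or.inr ?_
    have : u * g⁻¹ = g⁻¹ * u := by rw [mul_inv_eq_iff_eq_mul, mul_assoc, ← hg]; group
    rw [mul_assoc, mul_assoc, this]; group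

theorem zp {u a : H} (hu : u * u = 1) : a ∈ zpowers u ↔ MG u a 1 := by
  constructor
  · rintro ⟨n, rfl⟩
    have h2 : u ^ (2 : ℤ) = 1 := by rw [zpow_two, hu]
    rcases Int.even_or_odd' n with ⟨k, rfl | rfl⟩
    · left; simp only [zpow_mul, h2, one_zpow]
    · right; simp only [zpow_add, zpow_mul, h2, one_zpow, zpow_one]
  · rintro (rfl | rfl)
    · exact one_mem _
    · rw [one_mul]; exact mem_zpowers _

theorem cl_ind [Finite H] {s : Set H} {P : H → Prop} (h1 : P 1)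
    (hm : ∀ a b, P a → P b → P (a * b)) (hs : ∀ a ∈ s, P a) : ∀ a ∈ closure s, P a := by
  intro a ha
  have hp : ∀ x, P x → ∀ n : ℕ, P (x ^ n) := fun x hx n => by
    induction n with
    | zero => rwa [pow_zero]
    | succ n ih => rw [pow_succ]; exact hm _ _ ih hx
  induction ha using closure_induction with
  | mem x hx => exact hs x hx
  | one => exact h1
  | mul x y _ _ hx hy => exact hm _ _ hx hy
  | inv x _ hx =>
    have : x⁻¹ = x ^ (orderOf x - 1) := by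
      rw [inv_eq_iff_mul_eq_one, ← pow_succ', Nat.sub_add_cancel (orderOf_pos x), pow_orderOf_eq_one]
    rw [this]; exact hp x hx _

end gen

theorem cl_fp {s : Set A12} {S : F4 → F4 → Prop} (h0 : S 0 0)
    (ha : ∀ b c b' c', S b c → S b' c' → S (b + b') (c + c'))
    (hs : ∀ a ∈ s, ∃ b c, S b c ∧ MG u0 a (fp b c)) :
    ∀ a ∈ closure s, ∃ b c, S b c ∧ MG u0 a (fp b c) := by
  refine cl_ind ⟨0, 0, h0, Or.inl fp_gen.1.symm⟩ ?_ hs
  rintro x y ⟨b, c, h1, h2⟩ ⟨b', c', h3, h4⟩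
  exact ⟨_, _, ha _ _ _ _ h1 h3, (h2.mul a12_facts.1 (fp_facts _ _).1 h4).trans a12_facts.1
    (fp_mul _ _ _ _)⟩

theorem ep_fp : ∀ a ∈ Ep0, ∃ b c, True ∧ MG u0 a (fp b c) := by
  obtain ⟨-, g1, ⟨b, g2⟩, g3, g4, g5, -⟩ := fp_gen
  refine cl_fp trivial (fun _ _ _ _ _ _ => trivial) ?_
  rintro a (rfl | rfl | rfl | rfl | rfl)
  exacts [⟨_, _, trivial, g1⟩, ⟨_, _, trivial, g2⟩, ⟨_, _, trivial, g3⟩,
    ⟨_, _, trivial, Or.inl g4⟩, ⟨_, _, trivial, Or.inl g5⟩]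

theorem vp_fp : ∀ a ∈ Vp0, ∃ b c, c = b.bar ∧ MG u0 a (fp b c) := by
  obtain ⟨-, g1, ⟨b, g2⟩, -⟩ := fp_gen
  refine cl_fp rfl (fun b c b' c' h h' => by rw [h, h', F4.bar_add]) ?_
  rintro a (rfl | rfl)
  exacts [⟨_, _, rfl, g1⟩, ⟨_, _, rfl, g2⟩]

theorem af_fp : ∀ a ∈ Af0, ∃ b c, c = 0 ∧ MG u0 a (fp b c) := by
  obtain ⟨g0, -, -, -, g4, g5, -⟩ := fp_gen
  refine cl_fp rfl (fun b c b' c' h h' => by rw [h, h', add_zero]) ?_
  rintro a (rfl | rfl | rfl)
  exacts [⟨0, 0, rfl, Or.inr (by rw [g0, one_mul])⟩, ⟨_, _, rfl, Or.inl g4⟩,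
    ⟨_, _, rfl, Or.inl g5⟩]

theorem fp_mem (b c : F4) : fp b c ∈ Ep0 ∧ u0 ∈ Ep0 := by
  obtain ⟨-, -, -, -, -, -, e0, e1, e2, e3, e4, e5⟩ := fp_gen
  have g1 : (dd 0 1 2 3 : A12) ∈ Ep0 := subset_closure (by simp)
  have g2 : (dd 2 3 4 5 : A12) ∈ Ep0 := subset_closure (by simp)
  have g3 : (dd 4 5 6 7 : A12) ∈ Ep0 := subset_closure (by simp)
  have g4 : x2 ∈ Ep0 := subset_closure (by simp)
  have g5 : x4 ∈ Ep0 := subset_closure (by simp)
  have b1 : fb 1 ∈ Ep0 := e2 ▸ mul_mem g4 g3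
  have b2 : fb .w ∈ Ep0 := e3 ▸ mul_mem g5 (e4 ▸ mul_mem g2 g3)
  refine ⟨mul_mem ?_ ?_, e0 ▸ mul_mem g1 g3⟩
  · cases b
    exacts [one_mem _, g4, e1 ▸ mul_mem g4 g5, g5]
  · cases c
    exacts [one_mem _, b1, b2, e5 ▸ mul_mem b1 b2]

variable {G : Type u} [Group G] {U : HB G}

/-- representatives in the first factor -/
def f (U : HB G) (b c : F4) : G := U.ψ (fp b c)
/-- representatives in the second factor -/
def f' (U : HB G) (b c : F4) : G := U.d * f U b c * U.d⁻¹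

theorem mg_map {a b : A12} (h : MG u0 a b) : MG U.u (U.ψ a) (U.ψ b) := by
  rcases h with rfl | rfl
  · exact Or.inl rfl
  · exact Or.inr (map_mul _ _ _)

theorem mg_comap {a b : A12} (h : MG U.u (U.ψ a) (U.ψ b)) : MG u0 a b := by
  rcases h with h | h
  · exact Or.inl (U.inj h)
  · exact Or.inr (U.inj (by rw [map_mul]; exact h))

theorem uu : U.u * U.u = 1 := by rw [HB.u, ← map_mul, a12_facts.1, map_one]
theorem u_ne : U.u ≠ 1 := fun h => a12_facts.2.1 (U.inj (by rw [map_one]; exact h))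
theorem dd_u : U.d * U.d = U.u := by rw [HB.d, ← map_mul, H67.T3.slF_sq, U.ιu, HB.u]
theorem du : U.d * U.u = U.u * U.d := by rw [← dd_u, mul_assoc]
theorem dud : U.d * U.u * U.d⁻¹ = U.u := by rw [du, mul_inv_cancel_right]
theorem ψu {γ : A12} (h : γ * u0 = u0 * γ) : U.ψ γ * U.u = U.u * U.ψ γ := by
  rw [HB.u, ← map_mul, h, map_mul]
theorem fu (b c : F4) : f U b c * U.u = U.u * f U b c := ψu (fp_facts b c).1
theorem f'u (b c : F4) : f' U b c * U.u = U.u * f' U b c := by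
  calc f' U b c * U.u = U.d * (f U b c * U.u) * U.d⁻¹ := by
        conv_lhs => rw [← dud]
        rw [f']; group
    _ = _ := by
        conv_rhs => rw [← dud]
        rw [fu, f']; group
theorem f0 : f U 0 0 = 1 := by rw [f, fp_gen.1, map_one]
theorem f'0 : f' U 0 0 = 1 := by rw [f', f0, mul_one, mul_inv_cancel]
theorem f_mem (b c : F4) : f U b c ∈ U.Ep := mem_map_of_mem _ (fp_mem b c).1
theorem u_mem : U.u ∈ U.Ep := mem_map_of_mem _ (fp_mem 0 0).2
theorem em_mem {a : G} (h : a ∈ U.Ep) : U.d * a * U.d⁻¹ ∈ U.Em := smul_mem_pointwise_smul _ _ _ h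
theorem f'_mem (b c : F4) : f' U b c ∈ U.Em := em_mem (f_mem b c)
theorem u_mem' : U.u ∈ U.Em := dud (U := U) ▸ em_mem u_mem
theorem f_mul (b c b' c' : F4) : MG U.u (f U b c * f U b' c') (f U (b + b') (c + c')) := by
  rw [f, f, ← map_mul]; exact mg_map (fp_mul _ _ _ _)
theorem f'_mul (b c b' c' : F4) : MG U.u (f' U b c * f' U b' c') (f' U (b + b') (c + c')) := by
  have := (f_mul (U := U) b c b' c').conj du
  rwa [show U.d * (f U b c * f U b' c') * U.d⁻¹ = f' U b c * f' U b' c' by rw [f', f']; group]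
    at this
theorem ff'u (b c b' c' : F4) : f U b c * f' U b' c' * U.u = U.u * (f U b c * f' U b' c') := by
  rw [mul_assoc, f'u, ← mul_assoc, fu, mul_assoc]

/-- the coordinates of an element -/
def Rel (U : HB G) (t : F4) (g : G) (X : M4) : Prop :=
  ∃ b c b' c', X = an b c + jj t * an b' c' ∧ MG U.u g (f U b c * f' U b' c')

variable {t : F4}

theorem rel_mul (ef : U.EF) {g h : G} {X Y : M4} (h1 : Rel U t g X) (h2 : Rel U t h Y) :
    Rel U t (g * h) (X + Y) := by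
  obtain ⟨b, c, b', c', rfl, h1⟩ := h1
  obtain ⟨e, k, e', k', rfl, h2⟩ := h2
  refine ⟨b + e, c + k, b' + e', c' + k', by rw [add4, ← mul_madd, an_add, an_add], ?_⟩
  refine (h1.mul uu (ff'u _ _ _ _) h2).trans uu ?_
  have := ef.cm _ (f_mem e k) _ (f'_mem b' c')
  rw [show f U b c * f' U b' c' * (f U e k * f' U e' k') =
    f U b c * f U e k * (f' U b' c' * f' U e' k') by
      rw [mul_assoc, ← mul_assoc (f' U b' c'), ← this]; group]
  exact (f_mul _ _ _ _).mul uu (f'u _ _) (f'_mul _ _ _ _)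

theorem f_triv {b c : F4} (h : MG U.u (f U b c) 1) : b = 0 ∧ c = 0 :=
  (fp_facts b c).2.1 (mg_comap (U := U) (by rw [map_one]; exact h))

theorem rel_one (ef : U.EF) {g : G} {X : M4} (h1 : Rel U t g X) (hg : MG U.u g 1) : X = 0 := by
  obtain ⟨b, c, b', c', rfl, h1⟩ := h1
  have h2 : f U b c * f' U b' c' ∈ zpowers U.u := by
    have h3 := (zp uu).2 hg
    rcases h1 with rfl | rfl
    · exact h3
    · exact (mul_mem_cancel_right (mem_zpowers _)).1 h3
  have h3 : f U b c ∈ U.Em :=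
    (mul_mem_cancel_right (f'_mem b' c')).1 ((zpowers_le_of_mem u_mem') h2)
  obtain ⟨rfl, rfl⟩ := f_triv ((zp uu).1 (ef.inf _ (f_mem b c) h3))
  rw [f0, one_mul, zp uu] at h2
  have h4 := h2.conj (g := U.d⁻¹) (by rw [inv_mul_eq_iff_eq_mul, ← mul_assoc, du]; group)
  rw [show U.d⁻¹ * f' U b' c' * U.d⁻¹⁻¹ = f U b' c' by rw [f']; group,
    show U.d⁻¹ * 1 * U.d⁻¹⁻¹ = 1 by group] at h4
  obtain ⟨rfl, rfl⟩ := f_triv h4
  cases t <;> rfl

theorem f_sq (b c : F4) : ((an b c).q = 0 → f U b c * f U b c = 1) ∧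
    ((an b c).q ≠ 0 → f U b c * f U b c = U.u) :=
  ⟨fun h => by rw [f, ← map_mul, (fp_facts b c).2.2.1 h, map_one],
    fun h => by rw [f, ← map_mul, (fp_facts b c).2.2.2.1 h, HB.u]⟩

theorem f'_sq (b c : F4) : ((an b c).q = 0 → f' U b c * f' U b c = 1) ∧
    ((an b c).q ≠ 0 → f' U b c * f' U b c = U.u) := by
  have : f' U b c * f' U b c = U.d * (f U b c * f U b c) * U.d⁻¹ := by rw [f']; group
  exact ⟨fun h => by rw [this, (f_sq b c).1 h]; group, fun h => by rw [this, (f_sq b c).2 h, dud]⟩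

theorem rel_sq (ef : U.EF) (ht : t ≠ 0) {g : G} {X : M4} (h1 : Rel U t g X) :
    (X.q = 0 → g * g = 1) ∧ (X.q ≠ 0 → g * g = U.u) := by
  obtain ⟨b, c, b', c', rfl, h1⟩ := h1
  have e : g * g = f U b c * f U b c * (f' U b' c' * f' U b' c') := by
    have := ef.cm _ (f_mem b c) _ (f'_mem b' c')
    have e1 : f U b c * f' U b' c' * (f U b c * f' U b' c') =
        f U b c * f U b c * (f' U b' c' * f' U b' c') := by
      rw [mul_assoc, ← mul_assoc (f' U b' c'), ← this]; group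
    rcases h1 with rfl | rfl
    · exact e1
    · rw [← e1]
      have h5 := ff'u (U := U) b c b' c'
      generalize f U b c * f' U b' c' = y at h5 ⊢
      rw [mul_assoc, ← mul_assoc U.u, ← h5, mul_assoc _ U.u, uu, mul_one]
  have hq := (q_dec t ht b c b' c').1
  rw [e]
  constructor
  · intro h
    rcases hq.1 h with ⟨h3, h4⟩ | ⟨h3, h4⟩
    · rw [(f_sq _ _).1 h3, (f'_sq _ _).1 h4, one_mul]
    · rw [(f_sq _ _).2 h3, (f'_sq _ _).2 h4, uu]
  · intro h
    by_cases h3 : (an b c).q = 0 <;> by_cases h4 : (an b' c').q = 0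
    · exact absurd (hq.2 (Or.inl ⟨h3, h4⟩)) h
    · rw [(f_sq _ _).1 h3, (f'_sq _ _).2 h4, one_mul]
    · rw [(f_sq _ _).2 h3, (f'_sq _ _).1 h4, mul_one]
    · exact absurd (hq.2 (Or.inr ⟨h3, h4⟩)) h

theorem rel_uniq (ef : U.EF) (ht : t ≠ 0) {g : G} {X Y : M4} (h1 : Rel U t g X)
    (h2 : Rel U t g Y) : X = Y := by
  refine eq_of_add (rel_one ef (rel_mul ef h1 h2) ?_)
  by_cases h : X.q = 0
  · exact Or.inl ((rel_sq ef ht h1).1 h)
  · exact Or.inr (by rw [(rel_sq ef ht h1).2 h, one_mul])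

theorem ep_f {a : G} (h : a ∈ U.Ep) : ∃ b c, MG U.u a (f U b c) := by
  obtain ⟨γ, hγ, rfl⟩ := h
  obtain ⟨b, c, -, h⟩ := ep_fp γ hγ
  exact ⟨b, c, mg_map h⟩

theorem em_f {a : G} (h : a ∈ U.Em) : ∃ b c, MG U.u a (f' U b c) := by
  obtain ⟨x, hx, rfl⟩ := (mem_smul_pointwise_iff_exists _ _ _).1 h
  obtain ⟨b, c, h⟩ := ep_f hx
  exact ⟨b, c, h.conj du⟩

theorem rel_ex (ef : U.EF) (t : F4) {e : G} (he : e ∈ U.E) : ∃ X, Rel U t e X := by
  obtain ⟨a, ha, a', ha', rfl⟩ := ef.dec e he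
  obtain ⟨b, c, h⟩ := ep_f ha
  obtain ⟨b', c', h'⟩ := em_f ha'
  exact ⟨_, b, c, b', c', rfl, h.mul uu (f'u _ _) h'⟩

theorem fE (b c : F4) : f U b c ∈ U.E := mem_sup_left (f_mem b c)
theorem f'E (b c : F4) : f' U b c ∈ U.E := mem_sup_right (f'_mem b c)

open Classical in
/-- the coordinate map -/
noncomputable def pi (U : HB G) (t : F4) (g : G) : M4 :=
  if h : ∃ X, Rel U t g X then h.choose else 0

theorem pi_eq (ef : U.EF) (ht : t ≠ 0) {g : G} {X : M4} (h : Rel U t g X) : pi U t g = X := by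
  have h1 : ∃ X, Rel U t g X := ⟨X, h⟩
  rw [pi, dif_pos h1]
  exact rel_uniq ef ht h1.choose_spec h

theorem pi_rel (ef : U.EF) (ht : t ≠ 0) {e : G} (he : e ∈ U.E) : Rel U t e (pi U t e) := by
  obtain ⟨X, h⟩ := rel_ex ef t he
  rwa [pi_eq ef ht h]

/-- the basic properties of the coordinates -/
structure Pre (U : HB G) (t : F4) (π : G → M4) : Prop where
  add : ∀ a ∈ U.E, ∀ b ∈ U.E, π (a * b) = π a + π b
  ker : ∀ a ∈ U.E, (π a = 0 ↔ a ∈ zpowers U.u)
  sur : ∀ X, ∃ a ∈ U.E, π a = X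
  sq : ∀ a ∈ U.E, (a * a = 1 ↔ (π a).q = 0)
  pf : ∀ g b c, MG U.u g (f U b c) → π g = an b c
  pf' : ∀ g b c, MG U.u g (f' U b c) → π g = jj t * an b c

theorem pre (ef : U.EF) (ht : t ≠ 0) : Pre U t (pi U t) where
  add a ha b hb := pi_eq ef ht (rel_mul ef (pi_rel ef ht ha) (pi_rel ef ht hb))
  ker a ha := by
    rw [zp uu]
    refine ⟨fun h => ?_, fun h => rel_one ef (pi_rel ef ht ha) h⟩
    obtain ⟨b, c, b', c', h1, h2⟩ := pi_rel ef ht ha
    obtain ⟨rfl, rfl, rfl, rfl⟩ := (q_dec t ht b c b' c').2 (h1.symm.trans h)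
    rwa [f0, f'0, one_mul] at h2
  sur X := ⟨_, mul_mem (fE _ _) (f'E _ _), pi_eq ef ht ⟨_, _, _, _, dec_an t ht X, Or.inl rfl⟩⟩
  sq a ha := by
    have h := rel_sq ef ht (pi_rel ef ht ha)
    refine ⟨fun h1 => ?_, h.1⟩
    by_contra h2
    exact u_ne ((h.2 h2).symm.trans h1)
  pf g b c h := pi_eq ef ht ⟨b, c, 0, 0, by clear h ht; revert b c t; decide +kernel,
    by rwa [f'0, mul_one]⟩
  pf' g b c h := pi_eq ef ht ⟨0, 0, b, c, (zero_madd _).symm, by rwa [f0, one_mul]⟩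

theorem exists_t (ef : U.EF) : ∃ t : F4, t ≠ 0 ∧ MG U.u U.t (f' U t t.bar) := by
  have h : U.t ∈ MulAut.conj U.d • Vp0.map U.ψ := by
    rw [ef.dV]; exact mem_map_of_mem _ (subset_closure (by simp))
  obtain ⟨x, ⟨γ, hγ, rfl⟩, hx⟩ := (mem_smul_pointwise_iff_exists _ _ _).1 h
  obtain ⟨b, c, rfl, h1⟩ := vp_fp γ hγ
  have h2 : MG U.u U.t (f' U b b.bar) := by rw [← hx]; exact (mg_map h1).conj du
  refine ⟨b, ?_, h2⟩
  rintro rfl
  rw [show F4.bar 0 = 0 from rfl, f'0, ← map_one U.ψ] at h2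
  rcases mg_comap h2 with h3 | h3
  · exact a12_facts.2.2.1 h3
  · exact a12_facts.2.2.2.1 (by rwa [one_mul] at h3)

end Cfsg.Agent.H85.HnM
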