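import Mathlib
import Cfsg.Agent.H85.HnModB

/-! Project HN3, piece MOD: the action on the coordinates. -/

set_option autoImplicit false

namespace Cfsg.Agent.H85.HnM

open Cfsg Subgroup H99.HN H99.HN.M4 H72.HN
open Cfsg.Agent.H4.J2S (F4)
open Cfsg.Agent.H91 (SL25 slX slY)
open Cfsg.Agent.H67.T3 (slF)
open scoped Pointwise

universe u

variable {G : Type u} [Group G] {U : HB G} {t : F4} {π : G → M4}

/-- the action of `g` is given by `T` -/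
def Ac (U : HB G) (π : G → M4) (g : G) (T : M4 → M4) : Prop :=
  ∀ e ∈ U.E, π (g * e * g⁻¹) = T (π e)

theorem Ac.congr {g : G} {T S : M4 → M4} (h : Ac U π g T) (e : ∀ X, T X = S X) : Ac U π g S :=
  fun a ha => (h a ha).trans (e _)

theorem Ac.mul {g h : G} {T S : M4 → M4} (hh : h ∈ U.L) (h1 : Ac U π g T) (h2 : Ac U π h S) :
    Ac U π (g * h) fun X => T (S X) := fun e he => by
  rw [show g * h * e * (g * h)⁻¹ = g * (h * e * h⁻¹) * g⁻¹ by group, h1 _ (cjE hh he), h2 _ he]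

theorem ac_one : Ac U π 1 fun X => X := fun e _ => by simp

theorem Lu {g : G} (hg : g ∈ U.L) : g * U.u = U.u * g := cenu hg (mem_zpowers _)

namespace Pre

variable (P : Pre U t π)
include P

theorem uniq {g : G} {T S : M4 → M4} (h1 : Ac U π g T) (h2 : Ac U π g S) (X : M4) :
    T X = S X := by
  obtain ⟨e, he, rfl⟩ := P.sur X
  rw [← h1 e he, h2 e he]

theorem aadd {g : G} {T : M4 → M4} (hg : g ∈ U.L) (h : Ac U π g T) (X Y : M4) :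
    T (X + Y) = T X + T Y := by
  obtain ⟨a, ha, rfl⟩ := P.sur X
  obtain ⟨b, hb, rfl⟩ := P.sur Y
  rw [← P.add _ ha _ hb, ← h _ (mul_mem ha hb), ← h _ ha, ← h _ hb,
    ← P.add _ (cjE hg ha) _ (cjE hg hb)]
  congr 1; group

theorem aq {g : G} {T : M4 → M4} (hg : g ∈ U.L) (h : Ac U π g T) (X : M4) :
    (T X).q = 0 ↔ X.q = 0 := by
  obtain ⟨a, ha, rfl⟩ := P.sur X
  rw [← h _ ha, ← P.sq _ (cjE hg ha), ← P.sq _ ha,
    show g * a * g⁻¹ * (g * a * g⁻¹) = g * (a * a) * g⁻¹ by group, conj_eq_one_iff]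

theorem aex (ef : U.EF) {g : G} (hg : g ∈ U.L) : ∃ T, Ac U π g T := by
  choose s hs hs' using P.sur
  refine ⟨fun X => π (g * s X * g⁻¹), fun e he => ?_⟩
  have h0 := hs (π e)
  have inv : π (s (π e))⁻¹ = π (s (π e)) := eq_of_add (by
    rw [← P.add _ (inv_mem h0) _ h0, inv_mul_cancel]
    exact (P.ker 1 (one_mem _)).2 (one_mem _))
  have h1 : (s (π e))⁻¹ * e ∈ zpowers U.u := by
    rw [← P.ker _ (mul_mem (inv_mem h0) he), P.add _ (inv_mem h0) _ he, inv, hs', add_self]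
  have h2 := cenu hg h1
  have h3 := (zpowers_le_of_mem ef.uE) h1
  have h4 := (P.ker _ h3).2 h1
  show _ = π (g * s (π e) * g⁻¹)
  generalize hc : (s (π e))⁻¹ * e = c at h2 h3 h4
  rw [inv_mul_eq_iff_eq_mul] at hc
  have h5 : g * e * g⁻¹ = g * s (π e) * g⁻¹ * c := by
    conv_lhs => rw [hc]
    rw [show g * (s (π e) * c) * g⁻¹ = g * s (π e) * g⁻¹ * (g * c) * g⁻¹ by group, h2]; group
  rw [h5, P.add _ (cjE hg h0) _ h3, h4, madd_zero]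

theorem au (ef : U.EF) : Ac U π U.u fun X => X := fun e he => by
  rw [← Lu (ef.EL he), mul_inv_cancel_right]

theorem aof (ef : U.EF) (ht : t ≠ 0) {g : G} {T : M4 → M4} (hg : g ∈ U.L)
    (hT : ∀ X Y, T (X + Y) = T X + T Y)
    (h1 : ∀ b c, π (g * f U b c * g⁻¹) = T (an b c))
    (h2 : ∀ b c, π (g * f' U b c * g⁻¹) = T (jj t * an b c)) : Ac U π g T := by
  obtain ⟨S, hS⟩ := P.aex ef hg
  refine hS.congr fun X => ?_
  rw [dec_an t ht X, P.aadd hg hS, hT, ← h1, ← h2, hS _ (fE _ _), hS _ (f'E _ _),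
    P.pf _ _ _ (Or.inl rfl), P.pf' _ _ _ (Or.inl rfl)]

theorem three (ef : U.EF) {g m x : G} {T S : M4 → M4} (hm : m ∈ U.L) (hx : x ∈ U.L)
    (e : g * m = m * x) (h1 : Ac U π g T) (h2 : Ac U π x S) (h : ∀ X, S (S X) + S X + X = 0)
    (Y : M4) : T (T Y) + T Y + Y = 0 := by
  obtain ⟨M, hM⟩ := P.aex ef hm
  have h3 : ∀ X, T (M X) = M (S X) := P.uniq (h1.mul hm hM) (e ▸ hM.mul hx h2)
  obtain ⟨a, ha, rfl⟩ := P.sur Y
  have h4 := hM _ (cjE (inv_mem hm) ha)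
  rw [show m * (m⁻¹ * a * m⁻¹⁻¹) * m⁻¹ = a by group] at h4
  have h0 : M 0 = 0 := by
    have := P.aadd hm hM 0 0
    rw [add_self, add_self] at this
    exact this
  rw [h4, h3, h3, ← P.aadd hm hM, ← P.aadd hm hM, h, h0]

end Pre

theorem dz : U.d * U.z = U.z * U.d := U.ιz slF
theorem dz' : U.d * U.ι slX * U.d⁻¹ = (U.ι slX)⁻¹ := by
  rw [HB.d, ← map_inv, ← map_mul, ← map_mul, H67.T3.slF_X, map_inv]
theorem ap_eq : U.ap = U.ι slX * U.z⁻¹ := by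
  rw [U.ιX, HB.z, ← map_inv, ← map_mul, ← a12_facts.2.2.2.2.2.2.2.2.2.2.2.1, HB.ap]
theorem am_eq : U.am = (U.ι slX)⁻¹ * U.z⁻¹ := by
  rw [U.ιX, HB.z, ← map_inv, ← map_inv, ← map_mul, ← a12_facts.2.2.2.2.2.2.2.2.2.2.2.2.1, HB.am]
theorem dzi : U.d * U.z⁻¹ * U.d⁻¹ = U.z⁻¹ := by
  rw [show U.d * U.z⁻¹ * U.d⁻¹ = (U.d * U.z * U.d⁻¹)⁻¹ by group, dz, mul_inv_cancel_right]
theorem d_ap : U.d * U.ap * U.d⁻¹ = U.am := by
  rw [ap_eq, am_eq, ← dz', show U.d * (U.ι slX * U.z⁻¹) * U.d⁻¹ =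
    U.d * U.ι slX * U.d⁻¹ * (U.d * U.z⁻¹ * U.d⁻¹) by group, dzi]
theorem d_am : U.d * U.am * U.d⁻¹ = U.ap := by
  rw [ap_eq, am_eq, show U.d * ((U.ι slX)⁻¹ * U.z⁻¹) * U.d⁻¹ =
    (U.d * U.ι slX * U.d⁻¹)⁻¹ * (U.d * U.z⁻¹ * U.d⁻¹) by group, dzi, dz', inv_inv]
theorem z_eq : U.z = U.am * U.ap := map_mul _ _ _
theorem x_eq : U.ι slX = U.am * (U.ap * U.ap) := by
  rw [U.ιX, a12_facts.2.2.2.2.2.2.2.2.2.2.2.2.2.1, map_mul, map_mul U.ψ c4]; rfl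
theorem ψcj {a b c : A12} (h : a * b * a⁻¹ = c) : U.ψ a * U.ψ b * (U.ψ a)⁻¹ = U.ψ c := by
  rw [← map_inv, ← map_mul, ← map_mul, h]
theorem ψcj' {a b c : A12} (h : a * b * a⁻¹ = c⁻¹) :
    U.ψ a * U.ψ b * (U.ψ a)⁻¹ = (U.ψ c)⁻¹ := by
  rw [ψcj h, map_inv]
theorem ψmg {a b c : A12} (h : MG u0 (a * b * a⁻¹) c) :
    MG U.u (U.ψ a * U.ψ b * (U.ψ a)⁻¹) (U.ψ c) := by
  rw [← map_inv, ← map_mul, ← map_mul]; exact mg_map h
theorem ap_f (b c : F4) : U.ap * f U b c * U.ap⁻¹ = f U b c :=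
  ψcj (by rw [(fp_facts b c).2.2.2.2.1, mul_inv_cancel_right])
theorem am_f (b c : F4) : MG U.u (U.am * f U b c * U.am⁻¹) (f U (.w * b) (.v * c)) :=
  ψmg (fp_facts b c).2.2.2.2.2.1
theorem σz : U.σ * U.z * U.σ⁻¹ = (U.ι slX)⁻¹ := by
  rw [U.ιX]; exact ψcj' a12_facts.2.2.2.2.2.2.2.2.2.2.2.2.2.2.1
theorem σx : U.σ * U.ι slX * U.σ⁻¹ = U.z⁻¹ := by
  rw [U.ιX]; exact ψcj' a12_facts.2.2.2.2.2.2.2.2.2.2.2.2.2.2.2.1
theorem σσ : U.σ * U.σ = 1 := by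
  rw [HB.σ, ← map_mul, a12_facts.2.2.2.2.2.2.2.2.2.2.1, map_one]

section act

variable (ef : U.EF) (ht : t ≠ 0) (P : Pre U t π)

include ef in
theorem apL : U.ap ∈ U.L := ef.nA _ a12_facts.2.2.2.2.2.2.2.2.1
include ef in
theorem amL : U.am ∈ U.L := ef.nA _ a12_facts.2.2.2.2.2.2.2.2.2.1
include ef in
theorem sL : U.σ ∈ U.L := ef.nA _ a12_facts.2.2.2.2.2.2.1
include ef in
theorem rL : U.ψ r0 ∈ U.L := ef.nA _ a12_facts.2.2.2.2.2.2.2.1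
include ef in
theorem zL : U.z ∈ U.L := z_eq (U := U) ▸ mul_mem (amL ef) (apL ef)
include ef in
theorem xL : U.ι slX ∈ U.L := x_eq (U := U) ▸ mul_mem (amL ef) (mul_mem (apL ef) (apL ef))

include ef ht P

theorem ac_d : Ac U π U.d fun X => jj t * X := by
  refine P.aof ef ht ef.nd (mul_madd _) (fun b c => P.pf' _ _ _ (Or.inl rfl)) fun b c => ?_
  rw [← massoc, (jj_facts t ht).1, onem]
  refine P.pf _ _ _ (Or.inl ?_)
  rw [f', show U.d * (U.d * f U b c * U.d⁻¹) * U.d⁻¹ = U.d * U.d * f U b c * (U.d * U.d)⁻¹ by group,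
    dd_u, ← fu, mul_inv_cancel_right]

theorem ac_am : Ac U π U.am (sc .w 1) := by
  refine P.aof ef ht (amL ef) (sc_add _ _) (fun b c => ?_) fun b c => ?_
  · rw [(sc_jj t ht b c).2.2.1]; exact P.pf _ _ _ (am_f b c)
  · rw [(sc_jj t ht b c).1]
    refine P.pf' _ _ _ (Or.inl ?_)
    rw [← d_ap, f', show U.d * U.ap * U.d⁻¹ * (U.d * f U b c * U.d⁻¹) * (U.d * U.ap * U.d⁻¹)⁻¹ =
      U.d * (U.ap * f U b c * U.ap⁻¹) * U.d⁻¹ by group, ap_f]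

theorem ac_ap : Ac U π U.ap (sc 1 .w) := by
  refine P.aof ef ht (apL ef) (sc_add _ _) (fun b c => ?_) fun b c => ?_
  · rw [(sc_jj t ht b c).2.1, ap_f]; exact P.pf _ _ _ (Or.inl rfl)
  · rw [(sc_jj t ht b c).2.2.2]
    refine P.pf' _ _ _ ?_
    rw [← d_am, f', show U.d * U.am * U.d⁻¹ * (U.d * f U b c * U.d⁻¹) * (U.d * U.am * U.d⁻¹)⁻¹ =
      U.d * (U.am * f U b c * U.am⁻¹) * U.d⁻¹ by group]
    exact (am_f b c).conj du

theorem ac_z : Ac U π U.z (sc .w .w) := by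
  rw [z_eq]
  exact ((ac_am ef ht P).mul (apL ef) (ac_ap ef ht P)).congr fun X => sc_sc _ _ _ _ X

theorem ac_x : Ac U π (U.ι slX) (sc .w .v) := by
  rw [x_eq]
  refine ((ac_am ef ht P).mul (mul_mem (apL ef) (apL ef))
    ((ac_ap ef ht P).mul (apL ef) (ac_ap ef ht P))).congr fun X => ?_
  rw [sc_sc, sc_sc]; rfl

theorem diag {g : G} (h1 : g * U.z = U.z * g) (h2 : g * U.u = U.u * g)
    (h3 : g * U.ι slX = U.ι slX * g) : g ∈ U.L ∧ ∃ l m, Ac U π g (sc l m) := by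
  let D : G → Prop := fun g => g ∈ U.L ∧ ∃ l m, Ac U π g (sc l m)
  have hm : ∀ a b, D a → D b → D (a * b) := by
    rintro a b ⟨ha, l, m, h⟩ ⟨hb, l', m', h'⟩
    exact ⟨mul_mem ha hb, _, _, (h.mul hb h').congr fun X => sc_sc _ _ _ _ X⟩
  have hp : ∀ a, D a → ∀ n : ℕ, D (a ^ n) := fun a ha n => by
    induction n with
    | zero => exact ⟨by rw [pow_zero]; exact one_mem _, 1, 1, by
        rw [pow_zero]; exact ac_one.congr fun X => (sc_one X).symm⟩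
    | succ n ih => rw [pow_succ]; exact hm _ _ ih ha
  have dz0 : D U.z := ⟨zL ef, _, _, ac_z ef ht P⟩
  have dx : D (U.ι slX) := ⟨xL ef, _, _, ac_x ef ht P⟩
  have du0 : D U.u := ⟨ef.EL ef.uE, 1, 1, (P.au ef).congr fun X => (sc_one X).symm⟩
  obtain ⟨i, k, rfl⟩ := U.dec g h1 h2
  have hc : Commute (U.ι slX) (U.ψ (c1 * c2 * c4) ^ i) := Commute.pow_right (U.ιz slX) i
  rw [← mul_assoc, hc.eq, mul_assoc _ (U.ι k), mul_assoc _ (U.ι slX), mul_left_cancel_iff,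
    ← map_mul, ← map_mul] at h3
  refine hm _ _ (hp _ dz0 i) ?_
  obtain ⟨j, rfl | rfl⟩ := H67.T3.sl_cent k (U.ιinj h3)
  · rw [map_pow]; exact hp _ dx _
  · rw [map_mul, map_pow, U.ιu]; exact hm _ _ (hp _ dx _) du0

theorem ac_σ (h : MG U.u U.t (f' U t t.bar)) : Ac U π U.σ (tw true) := by
  have rr : U.ψ r0 * U.ψ r0 = 1 := by
    rw [← map_mul, a12_facts.2.2.2.2.2.2.2.2.2.2.2.2.2.2.2.2.2.2.2, map_one]
  have rz : U.ψ r0 * U.z * (U.ψ r0)⁻¹ = U.ι slX := by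
    rw [U.ιX]; exact ψcj a12_facts.2.2.2.2.2.2.2.2.2.2.2.2.2.2.2.2.1
  have rx : U.ψ r0 * U.ι slX * (U.ψ r0)⁻¹ = U.z := by
    rw [U.ιX]; exact ψcj a12_facts.2.2.2.2.2.2.2.2.2.2.2.2.2.2.2.2.2.1
  have gL : U.d⁻¹ * U.σ * U.d * U.ψ r0 ∈ U.L :=
    mul_mem (mul_mem (mul_mem (inv_mem ef.nd) (sL ef)) ef.nd) (rL ef)
  obtain ⟨-, l, m, hg⟩ := diag ef ht P (g := U.d⁻¹ * U.σ * U.d * U.ψ r0) (by
    rw [← mul_inv_eq_iff_eq_mul, show U.d⁻¹ * U.σ * U.d * U.ψ r0 * U.z *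
      (U.d⁻¹ * U.σ * U.d * U.ψ r0)⁻¹ = U.d⁻¹ * (U.σ * (U.d * (U.ψ r0 * U.z * (U.ψ r0)⁻¹) *
        U.d⁻¹) * U.σ⁻¹) * U.d by group, rz, dz', show U.σ * (U.ι slX)⁻¹ * U.σ⁻¹ =
        (U.σ * U.ι slX * U.σ⁻¹)⁻¹ by group, σx, inv_inv, mul_assoc, ← dz, inv_mul_cancel_left])
    (Lu gL) (by
    rw [← mul_inv_eq_iff_eq_mul, show U.d⁻¹ * U.σ * U.d * U.ψ r0 * U.ι slX *
      (U.d⁻¹ * U.σ * U.d * U.ψ r0)⁻¹ = U.d⁻¹ * (U.σ * (U.d * (U.ψ r0 * U.ι slX * (U.ψ r0)⁻¹) *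
        U.d⁻¹) * U.σ⁻¹) * U.d by group, rx, dz, mul_inv_cancel_right, σz, ← dz']
    group)
  obtain ⟨S, hS⟩ := P.aex ef (sL ef)
  obtain ⟨R, hR⟩ := P.aex ef (rL ef)
  have e : U.σ * U.d = U.d * (U.d⁻¹ * U.σ * U.d * U.ψ r0 * U.ψ r0) := by
    rw [mul_assoc _ (U.ψ r0), rr]; group
  have h1 : ∀ X, S (jj t * X) = jj t * sc l m (R X) :=
    P.uniq (hS.mul ef.nd (ac_d ef ht P))
      (e ▸ (ac_d ef ht P).mul (mul_mem gL (rL ef)) (hg.mul (rL ef) hR))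
  have h2 : ∀ b c, R (an b c) = an c.bar b.bar := fun b c => by
    rw [← P.pf _ b c (Or.inl rfl), ← hR _ (fE b c)]
    exact P.pf _ _ _ (ψmg (fp_facts b c).2.2.2.2.2.2.2)
  have tE : U.t ∈ U.E := by
    rcases h with h | h <;> rw [h]
    exacts [f'E _ _, mul_mem (f'E _ _) ef.uE]
  have h3 := hS _ tE
  rw [show U.σ * U.t * U.σ⁻¹ = U.t from ψcj a12_facts.2.2.2.2.2.1, P.pf' _ _ _ h, h1, h2,
    F4.bar_bar, (jj_facts t ht).2.2.2.1] at h3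
  obtain rfl := sc_fix t ht l m h3.symm
  refine P.aof ef ht (sL ef) tw_add (fun b c => P.pf _ _ _ (ψmg (fp_facts b c).2.2.2.2.2.2.1))
    fun b c => ?_
  rw [hS _ (f'E b c), P.pf' _ _ _ (Or.inl rfl), h1, h2, tw_jj t ht]

theorem ac_x' : Ac U π (U.ι slX) fun X => dg .w * X :=
  (ac_x ef ht P).congr fun X => (dg_v X).2.1.symm

theorem ac_v (l1 : U.L1) (h : MG U.u U.t (f' U t t.bar)) :
    (Ac U π (U.ι slV) fun X => up t * X) ∨ (Ac U π (U.ι slV) fun X => lo t.bar * X) := by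
  obtain ⟨T, hT⟩ := P.aex ef (l1 slV)
  obtain ⟨v1, v2, v3, -, v5, -⟩ := slV_facts
  have hx := ac_x' ef ht P
  have hd := ac_d ef ht P
  have hσ := ac_σ ef ht P h
  have hz : Ac U π U.z fun X => X * dg .v := (ac_z ef ht P).congr fun X => (dg_v X).1.symm
  have h3 : ∀ X, dg .w * (dg .w * X) + dg .w * X + X = 0 := fun X => (dg_v X).2.2.2.2.2.2
  suffices hh : (∀ X, T X = up t * X) ∨ (∀ X, T X = lo t.bar * X) from
    hh.imp hT.congr hT.congr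
  refine fin1 ht (P.aadd (l1 _) hT) ?_ ?_ ?_ ?_ (P.aq (l1 _) hT) ?_
  · exact P.uniq (hT.mul (zL ef) hz) ((U.ιz slV).symm ▸ hz.mul (l1 _) hT)
  · refine P.uniq (hT.mul (l1 _) hT) ?_
    rw [← map_mul, v1, U.ιu]; exact P.au ef
  · exact P.three ef (l1 slM1) (l1 slX) (by rw [← map_mul, ← map_mul, v2, map_mul])
      (hx.mul (l1 _) hT) hx h3
  · exact P.three ef (l1 slM2) (l1 slX) (by rw [HB.d, ← map_mul, ← map_mul, v3, map_mul])
      (hT.mul ef.nd hd) hx h3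
  obtain ⟨j1, -, -, -, -, -, -, j8⟩ := jj_facts t ht
  have tb : t.bar ≠ 0 := by revert ht; cases t <;> decide
  have iL : U.σ * (U.d * U.σ) ∈ U.L := mul_mem (sL ef) (mul_mem ef.nd (sL ef))
  have hi : Ac U π (U.σ * (U.d * U.σ)) fun X => X * jj t.bar :=
    (hσ.mul (mul_mem ef.nd (sL ef)) (hd.mul (sL ef) hσ)).congr fun X => by
      rw [tw_mul, tw_tw, j8]
  have iz : U.σ * (U.d * U.σ) * U.z⁻¹ * (U.σ * (U.d * U.σ))⁻¹ = U.z := by
    rw [show U.σ * (U.d * U.σ) * U.z⁻¹ * (U.σ * (U.d * U.σ))⁻¹ =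
      U.σ * (U.d * (U.σ * U.z * U.σ⁻¹)⁻¹ * U.d⁻¹) * U.σ⁻¹ by group, σz, inv_inv, dz',
      show U.σ * (U.ι slX)⁻¹ * U.σ⁻¹ = (U.σ * U.ι slX * U.σ⁻¹)⁻¹ by group, σx, inv_inv]
  have ix : U.σ * (U.d * U.σ) * U.ι slX * (U.σ * (U.d * U.σ))⁻¹ = U.ι slX := by
    rw [show U.σ * (U.d * U.σ) * U.ι slX * (U.σ * (U.d * U.σ))⁻¹ =
      U.σ * (U.d * (U.σ * U.ι slX * U.σ⁻¹) * U.d⁻¹) * U.σ⁻¹ by group, σx, dzi,
      show U.σ * U.z⁻¹ * U.σ⁻¹ = (U.σ * U.z * U.σ⁻¹)⁻¹ by group, σz, inv_inv]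
  generalize U.σ * (U.d * U.σ) = i at iL hi iz ix
  have g2 : i * U.ι slV * i⁻¹ * (i * U.ι slV * i⁻¹) = U.u := by
    rw [show i * U.ι slV * i⁻¹ * (i * U.ι slV * i⁻¹) = i * (U.ι slV * U.ι slV) * i⁻¹ by group,
      ← map_mul, v1, U.ιu, ← HB.u, Lu iL, mul_inv_cancel_right]
  obtain ⟨n, k', hk'⟩ := U.dec (i * U.ι slV * i⁻¹) (by
    have hc : Commute (U.ι slV) U.z := U.ιz slV
    change _ * U.z = U.z * _
    rw [← iz, show i * U.ι slV * i⁻¹ * (i * U.z⁻¹ * i⁻¹) = i * (U.ι slV * U.z⁻¹) * i⁻¹ by group,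
      hc.inv_right.eq]
    group) (Lu (mul_mem (mul_mem iL (l1 _)) (inv_mem iL)))
  obtain ⟨k, hk⟩ : ∃ k, i * U.ι slV * i⁻¹ = U.ι k := by
    refine ⟨k' ^ 9, ?_⟩
    have hc : Commute (U.ψ (c1 * c2 * c4) ^ n) (U.ι k') :=
      Commute.pow_left (Commute.symm (U.ιz k')) n
    have z3 : (U.ψ (c1 * c2 * c4) ^ n) ^ 9 = 1 := by
      rw [← pow_mul, show n * 9 = 3 * (n * 3) by ring, pow_mul, ← map_pow,
        a12_facts.2.2.2.2.2.2.2.2.2.2.2.2.2.2.2.2.2.2.1, map_one, one_pow]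
    have h9 := congrArg (· ^ 9) hk'
    simp only [hc.mul_pow, z3, one_mul] at h9
    rw [map_pow, ← h9]
    generalize i * U.ι slV * i⁻¹ = g at g2
    rw [show g ^ 9 = g * g * (g * g) * (g * g * (g * g)) * g by
      simp only [pow_succ, pow_zero, one_mul, mul_assoc], g2, uu, one_mul, one_mul]
  have k1 : k * k = -1 := U.ιinj (by rw [map_mul, ← hk, g2, U.ιu, HB.u])
  have k2 : slX * k * (slX * k) * (slX * k) = 1 := U.ιinj (by
    have := congrArg (fun y => i * U.ι y * i⁻¹) v5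
    simp only [map_mul, map_one] at this ⊢
    rw [mul_one, mul_inv_cancel] at this
    rw [← hk, ← this]
    conv_lhs => rw [← ix]
    group)
  obtain ⟨K, hK⟩ := P.aex ef (l1 k)
  have e1 : ∀ X, T (X * jj t.bar) * jj t.bar = K X := fun X => by
    have := P.uniq (hi.mul (l1 _) hT) (by
      rw [show i * U.ι slV = U.ι k * i by rw [← hk]; group]; exact hK.mul iL hi) (X * jj t.bar)
    rwa [massoc X, (jj_facts _ tb).1, mone] at this
  obtain ⟨a, ha, hka⟩ := slV_six k k1 k2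
  obtain ⟨l, l0, ll, hl⟩ : ∃ l : F4, l ≠ 0 ∧ dg l * dg l.bar = 1 ∧
      Ac U π (U.ι a) fun X => dg l * X := by
    simp only [List.mem_cons, List.not_mem_nil, or_false] at ha
    rcases ha with rfl | rfl | rfl
    · exact ⟨1, by decide, by decide, by rw [map_one]; exact ac_one.congr fun X => (onem X).symm⟩
    · exact ⟨.w, by decide, by decide, hx⟩
    · exact ⟨.v, by decide, by decide, by
        rw [map_mul]; exact (hx.mul (l1 _) hx).congr fun X => by rw [← massoc]; rfl⟩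
  refine ⟨l, l0, hka.imp (fun e X => ?_) fun e X => ?_⟩
  · have := P.uniq (hK.mul (l1 _) hl) (by
      rw [← map_mul, e, map_mul]; exact hl.mul (l1 _) hT) (dg l.bar * X)
    rwa [← massoc (dg l) (dg l.bar), ll, onem, ← e1] at this
  · have := P.uniq (hK.mul (mul_mem ef.nd (l1 _)) (hd.mul (l1 _) hl)) (by
      rw [HB.d, ← map_mul, ← map_mul, e, map_mul, map_mul, map_mul, U.ιu]
      exact ((hd.mul (l1 _) hl).mul (l1 _) hT).mul (ef.EL ef.uE) (P.au ef))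
      (dg l.bar * (jj t * X))
    rwa [← massoc (dg l) (dg l.bar), ll, onem, ← massoc (jj t) (jj t), j1, onem, ← e1] at this

end act

theorem act_of {g : G} {A : M4} (h : Ac U π g fun X => A * X) : U.Act π g A 1 false :=
  fun e he => by rw [mone]; exact h e he

/-- Piece MOD. -/
theorem mod : ModStmt.{u} := by
  intro G _ _ U ef l1
  obtain ⟨t, ht, h⟩ := exists_t ef
  have P := pre ef ht
  generalize pi U t = π at P
  have hx := ac_x' ef ht P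
  have hd := ac_d ef ht P
  have hσ := ac_σ ef ht P h
  have hv := ac_v ef ht P l1 h
  obtain ⟨j1, j2, j3, j4, -⟩ := jj_facts t ht
  have πt : π U.t = 1 := by rw [P.pf' _ _ _ h, j4]
  let R : SL25 → M4 → Prop := fun k A => Ac U π (U.ι k) fun X => A * X
  have Rm : ∀ {k k' A A'}, R k A → R k' A' → R (k * k') (A * A') := fun {k k' A A'} a b => by
    simp only [R, map_mul]
    exact (Ac.mul (l1 _) a b).congr fun X => (massoc _ _ _).symm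
  have R1 : R 1 1 := by
    simp only [R, map_one]; exact ac_one.congr fun X => (onem X).symm
  have ex : ∀ A : M4, A.det = 1 → ∃ k, R k A := by
    have hm : ∀ {A B : M4}, (∃ k, R k A) → (∃ k, R k B) → ∃ k, R k (A * B) :=
      fun ⟨_, a⟩ ⟨_, b⟩ => ⟨_, Rm a b⟩
    have hj : ∃ k, R k (jj t) := ⟨slF, hd⟩
    have hw : ∃ k, R k (dg .w) := ⟨slX, hx⟩
    have hu : ∃ k, R k (up t) := by
      rcases hv with a | a
      · exact ⟨_, a⟩
      · rw [(gen_up t ht 0).2.2]; exact hm (hm hj ⟨_, a⟩) hj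
    have hg : ∀ l, l ≠ 0 → ∃ k, R k (dg l) := fun l hl => by
      rcases gen_dg l hl with e | e | e <;> rw [e]
      exacts [hw, hm hw hw, ⟨_, R1⟩]
    have hU : ∀ a, ∃ k, R k (up a) := fun a => by
      rcases (gen_up t ht a).1 with e | ⟨l, hl, e⟩ <;> rw [e]
      exacts [⟨_, R1⟩, hm (hm (hg l hl) hu) (hg _ (by revert hl; cases l <;> decide))]
    have hL : ∀ a, ∃ k, R k (lo a) := fun a => by
      rw [(gen_up t ht a).2.1]; exact hm (hm hj (hU _)) hj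
    intro A hA
    obtain ⟨a, b, c, e, rfl⟩ := gen_all A hA
    exact hm (hm (hU a) (hL b)) (hm (hU c) (hL e))
  refine ⟨π, P.add, P.ker, P.sur, P.sq, πt, ?_, ?_, ?_, ?_, ?_, ?_, jj t, j2, j1, j3, act_of hd⟩
  · have sE : U.s ∈ U.E := by
      have : U.s ∈ MulAut.conj U.d • Vp0.map U.ψ := by
        rw [ef.dV]; exact mem_map_of_mem _ (subset_closure (by simp))
      obtain ⟨x, ⟨γ, hγ, rfl⟩, e⟩ := (mem_smul_pointwise_iff_exists _ _ _).1 this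
      obtain ⟨b, c, -, h1⟩ := vp_fp γ hγ
      have h2 : MG U.u U.s (f' U b c) := by rw [← e]; exact (mg_map h1).conj du
      rcases h2 with h2 | h2 <;> rw [h2]
      exacts [f'E _ _, mul_mem (f'E _ _) ef.uE]
    have := ac_ap ef ht P _ sE
    rw [show U.ap * U.s * U.ap⁻¹ = U.t from ψcj a12_facts.2.2.2.2.1, πt] at this
    exact sc_s _ this.symm
  · intro a ha
    obtain ⟨b, c, h1⟩ := ep_f ha
    rw [P.pf _ _ _ h1]; exact ⟨rfl, rfl⟩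
  · rintro _ ⟨γ, hγ, rfl⟩
    obtain ⟨b, c, rfl, h1⟩ := af_fp γ hγ
    rw [P.pf _ _ _ (mg_map h1)]; exact ⟨rfl, rfl, rfl⟩
  · intro A B hA hB
    obtain ⟨k, hk⟩ := ex A hA
    obtain ⟨k', hk'⟩ := ex _ (det_tw B hB)
    have h1 := mul_mem (l1 k') (sL ef)
    have h2 := mul_mem (sL ef) h1
    refine ⟨_, mul_mem (l1 k) h2, fun e he => ?_⟩
    refine (Ac.mul h2 hk (hσ.mul h1 (Ac.mul (sL ef) hk' hσ)) e he).trans ?_
    simp only [tw_mul, tw_tw, massoc]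
    rfl
  · intro e he
    rw [mone, onem]; exact hσ e he
  · intro k
    obtain ⟨-, -, -, v4, -⟩ := slV_facts
    have hm : ∀ a b, (∃ A : M4, A.det = 1 ∧ R a A) → (∃ A : M4, A.det = 1 ∧ R b A) →
        ∃ A : M4, A.det = 1 ∧ R (a * b) A := fun a b ⟨A, a1, a2⟩ ⟨B, b1, b2⟩ =>
      ⟨_, by rw [det_mul, a1, b1, mul_one], Rm a2 b2⟩
    have kx : ∃ A : M4, A.det = 1 ∧ R slX A := ⟨_, (det_gen 0).2.2, hx⟩
    have kf : ∃ A : M4, A.det = 1 ∧ R slF A := ⟨_, j2, hd⟩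
    have kv : ∃ A : M4, A.det = 1 ∧ R slV A :=
      hv.elim (fun a => ⟨_, (det_gen _).1, a⟩) fun a => ⟨_, (det_gen _).2.1, a⟩
    obtain ⟨A, a1, a2⟩ := cl_ind (s := {slX, slY}) (P := fun a => ∃ A : M4, A.det = 1 ∧ R a A)
      ⟨1, det_one, R1⟩ hm (by
        rintro a (rfl | rfl)
        · exact kx
        · rw [v4]; exact hm _ _ (hm _ _ (hm _ _ kv kf) kx) (hm _ _ (hm _ _ kv kf) kx))
      k (H91.closure_slXY ▸ mem_top k)
    exact ⟨A, a1, act_of a2⟩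

end Cfsg.Agent.H85.HnM
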