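import Mathlib
import Cfsg.Agent.H85.PMin3
import Cfsg.Agent.H1.Card

/-!
Isolated `p`-minimal subgroups (Meierfrankenfeld, Parker, Rowley): the abstract setting.
-/

set_option autoImplicit false

namespace Cfsg.Agent.H85

open Subgroup

variable {G : Type*} [Group G] {p : ℕ} [Fact p.Prime]

theorem eq_of_le_commutator_sup [Finite G] {U Y : Subgroup G} (hY : IsPGroup p Y) (hUY : U ≤ Y)
    (h : Y ≤ ⁅Y, U⁆ ⊔ U) : U = Y := by
  by_contra hne
  obtain ⟨M, ⟨hUM, hMY⟩, hmax⟩ := exists_max_card (fun M : Subgroup G => U ≤ M ∧ M < Y)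
    ⟨U, le_rfl, lt_of_le_of_ne hUY hne⟩
  have h1 := lt_inf_normalizer_of_lt hY hMY
  have h2 : Y ≤ normalizer (M : Set G) := by
    by_contra h2
    exact (card_lt_of_lt h1).not_ge (hmax _ ⟨hUM.trans h1.le,
      lt_of_le_of_ne inf_le_left fun h3 => h2 (inf_eq_left.1 h3)⟩)
  exact hMY.not_ge (h.trans (sup_le ((commutator_mono le_rfl hUM).trans
    (commutator_le_right_of_le_normalizer h2)) hUM))

/-- the data attached to an isolated `p`-minimal subgroup `P`: `U = O^p(P)`, `Q = O_p(L)` -/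
structure IsoData (p : ℕ) (S L Q U : Subgroup G) : Prop where
  syl : IsSyl p S ⊤
  SL : S ≤ L
  QS : Q ≤ S
  LQ : L ≤ normalizer (Q : Set G)
  SU : S ≤ normalizer (U : Set G)
  res : resOf p U = U
  nle : ¬ U ≤ L
  comm : ⁅U, Q⁆ = U
  dich : ∀ X : Subgroup G, S ≤ normalizer (X : Set G) → X ≤ L ∨ U ≤ X
  gen : ∀ H : Subgroup G, S ≤ H → U ≤ H → H ≤ (L ⊓ H) ⊔ U

theorem IsoData.map [Finite G] {G' : Type*} [Group G'] {S L Q U : Subgroup G}
    (h : IsoData p S L Q U) (f : G →* G') (hf : Function.Surjective f) (hk : f.ker ≤ L) :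
    IsoData p (S.map f) (L.map f) (Q.map f) (U.map f) where
  syl := map_top_of_surjective f hf ▸ h.syl.map f
  SL := map_mono h.SL
  QS := map_mono h.QS
  LQ := (map_mono h.LQ).trans (le_normalizer_map f)
  SU := (map_mono h.SU).trans (le_normalizer_map f)
  res := by rw [← map_resOf, h.res]
  nle := fun h1 => h.nle (by
    rw [map_le_iff_le_comap, comap_map_eq, sup_eq_left.2 hk] at h1; exact h1)
  comm := by rw [← map_commutator, h.comm]
  dich := fun X hX => by
    rcases h.dich (X.comap f) ((map_le_iff_le_comap.1 hX).trans (le_normalizer_comap f)) with h1 | h1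
    · left; rw [← map_comap_eq_self_of_surjective hf X]; exact map_mono h1
    · right; exact map_le_iff_le_comap.2 h1
  gen := fun H h1 h2 => by
    have h3 := map_mono (f := f) (h.gen (H.comap f) (map_le_iff_le_comap.1 h1)
      (map_le_iff_le_comap.1 h2))
    rw [map_comap_eq_self_of_surjective hf, Subgroup.map_sup] at h3
    refine h3.trans (sup_le_sup_right (le_inf (map_mono inf_le_left) ?_) _)
    exact map_le_iff_le_comap.2 inf_le_right

namespace IsoData

variable {S L Q U : Subgroup G}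

theorem Qp (h : IsoData p S L Q U) : IsPGroup p Q := h.syl.isPGroup.to_le h.QS

theorem sup_eq_top (h : IsoData p S L Q U) : L ⊔ U = ⊤ :=
  top_le_iff.1 ((h.gen ⊤ le_top le_top).trans (sup_le_sup_right inf_le_left U))

theorem ne_bot (h : IsoData p S L Q U) : U ≠ ⊥ := fun h1 => h.nle (h1 ▸ bot_le)

theorem commutator_normalClosure (h : IsoData p S L Q U) :
    ⁅normalClosure (U : Set G), Q⁆ = normalClosure (U : Set G) := by
  refine le_antisymm (commutator_le_left _ _) ?_
  have : (⁅normalClosure (U : Set G), Q⁆).Normal := by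
    apply normal_of_top_le_normalizer
    rw [← h.sup_eq_top]
    exact sup_le (le_normalizer_commutator le_normalizer_of_normal h.LQ)
      (le_normalClosure.trans (normalizer_commutator_ge_left _ _))
  refine normalClosure_le_normal ?_
  conv_lhs => rw [← h.comm]
  exact commutator_mono le_normalClosure le_rfl

theorem le_fstar [Finite G] (h : IsoData p S L Q U) (hO : pCore p G = ⊥) :
    U ≤ generalizedFittingSubgroup G := by
  have := H52.fstar_normal (G := G)
  refine (h.dich _ le_normalizer_of_normal).resolve_left fun h1 => h.ne_bot ?_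
  have h2 : ⁅generalizedFittingSubgroup G, Q⁆ = ⊥ := by
    rw [eq_bot_iff, ← hO]
    refine (le_inf (commutator_le_left _ _)
      (commutator_le_right_of_le_normalizer (h1.trans h.LQ))).trans ?_
    exact (le_pCoreOf inf_le_left h.Qp.to_inf_right (le_normalizer_inf le_normalizer
      (h1.trans h.LQ))).trans (pCoreOf_le_pCore _)
  have h3 := (commutator_eq_bot_iff_le_centralizer'.1 h2).trans
    (H52.centralizer_fstar_le_fitting.trans (H52.fitting_le_pCore_sup_pPrimeCore (p := p)))
  rw [hO, bot_sup_eq] at h3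
  rw [← h.comm, eq_bot_of_le_of_coprime h.Qp h3 H52.coprime_card_pPrimeCore, commutator_bot_right]

/-- the case that the normal closure of `U` is a `p'`-group -/
theorem of_coprime [Finite G] (h : IsoData p S L Q U)
    (hc : (Nat.card (normalClosure (U : Set G))).Coprime p) :
    U = normalClosure (U : Set G) ∧ ∃ t : ℕ, t.Prime ∧ t ≠ p ∧ IsPGroup t U ∧ ⁅⁅U, U⁆, U⁆ = ⊥ := by
  set Y := normalClosure (U : Set G) with hY
  have hUY : U ≤ Y := le_normalClosure
  have hYQ : ⁅Y, Q⁆ = Y := h.commutator_normalClosure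
  have hbot : ∀ R : Subgroup G, IsPGroup p R → R ≤ Y → R = ⊥ := fun R h1 h2 =>
    eq_bot_of_le_of_coprime h1 h2 hc
  have hC : ∀ X, X ≤ Y → X ≤ L → ⁅X, Q⁆ = ⊥ := fun X h1 h2 =>
    hbot _ (h.Qp.to_le (commutator_le_right_of_le_normalizer (h2.trans h.LQ)))
      ((commutator_mono h1 le_rfl).trans (commutator_le_left _ _))
  have hS : IsSyl p ⊥ Y := ⟨bot_le, IsPGroup.of_bot, fun R h1 _ h2 => hbot R h1 h2⟩
  have hex : ∀ q : ℕ, q.Prime → ∃ R, IsSyl q R Y ∧ S ≤ normalizer (R : Set G) := fun q hq => by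
    have := Fact.mk hq
    obtain ⟨R, h1, h2⟩ := exists_isSyl_normalized hS h.syl q
    exact ⟨R, h1, by rwa [bot_sup_eq] at h2⟩
  choose! R hR hSR using hex
  obtain ⟨t, ht, htL⟩ : ∃ t : ℕ, t.Prime ∧ ¬ R t ≤ L := by
    by_contra h1
    push Not at h1
    exact h.nle (hUY.trans (le_of_forall_isSyl fun q hq => ⟨R q, hR q hq, h1 q hq⟩))
  have := Fact.mk ht
  have hUt : U ≤ R t := (h.dich _ (hSR t ht)).resolve_left htL
  have hcop : ((R t).subgroupOf Y).index.Coprime ((L ⊓ Y).subgroupOf Y).index := by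
    refine Nat.coprime_of_dvd fun r hr h1 h2 => ?_
    have := Fact.mk hr
    have h3 : r ≠ t := fun h3 => (hR t ht).not_dvd_relIndex (h3 ▸ h1)
    have h4 : R r ≤ L := (h.dich _ (hSR r hr)).resolve_right fun h4 => h.ne_bot
      (le_bot_iff.1 ((le_inf h4 hUt).trans (IsPGroup.disjoint_of_ne r t h3 _ _
        (hR r hr).isPGroup (hR t ht).isPGroup).le_bot))
    exact (hR r hr).not_dvd_relIndex (h2.trans (relIndex_dvd_of_le_left Y (le_inf h4 (hR r hr).le)))
  have hYt : Y ≤ R t := by
    have h1 : ⁅Y, Q⁆ ≤ R t ⊔ Q := by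
      refine (commutator_le_iSup_cj Y Q).trans (iSup_le fun y => ?_)
      obtain ⟨a, ha, b, hb, rfl⟩ := H1.factorization_of_coprime_index hcop y
      have hb' : (b : G) ∈ normalizer (Q : Set G) := h.LQ hb.1
      rw [coe_mul, cj_mul, cj_eq_of_mem_normalizer hb']
      exact cj_le_of_mem le_sup_right (mem_sup_left ha)
    rw [hYQ, ← inf_eq_right, sup_inf_of_le_normalizer (h.QS.trans (hSR t ht)) (hR t ht).le,
      hbot _ h.Qp.to_inf_left inf_le_right, sup_bot_eq] at h1
    exact h1.ge
  have hYp : IsPGroup t Y := (hR t ht).isPGroup.to_le hYt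
  have hUeq : U = Y := by
    refine eq_of_le_commutator_sup hYp hUY ?_
    set W := ⁅Y, U⁆ ⊔ U with hW
    have hWY : W ≤ Y := sup_le (commutator_le_left _ _) hUY
    have hYW : Y ≤ normalizer (W : Set G) := le_normalizer_commutator_sup Y U
    have hSW : S ≤ normalizer (W : Set G) :=
      le_normalizer_sup (le_normalizer_commutator le_normalizer_of_normal h.SU) h.SU
    have h1 : Y ≤ (L ⊓ Y) ⊔ W := by
      have h2 := h.gen (Y ⊔ S) le_sup_right (le_sup_of_le_left hUY)
      have h3 : L ⊓ (Y ⊔ S) = S ⊔ (Y ⊓ L) := by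
        rw [inf_comm, sup_comm, sup_inf_of_le_normalizer' le_normalizer_of_normal h.SL]
      have h4 : Y ≤ ((L ⊓ Y) ⊔ W) ⊔ S := by
        refine le_sup_left.trans (h2.trans ?_)
        rw [h3, inf_comm]
        exact sup_le (sup_le le_sup_right (le_sup_of_le_left le_sup_left))
          (le_sup_of_le_left (le_sup_of_le_right le_sup_right))
      rw [← inf_eq_right, sup_inf_of_le_normalizer (le_normalizer_sup (le_normalizer_inf
        (h.SL.trans le_normalizer) le_normalizer_of_normal) hSW) (sup_le inf_le_right hWY),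
        hbot _ h.syl.isPGroup.to_inf_left inf_le_right, sup_bot_eq] at h4
      exact h4.ge
    conv_lhs => rw [← hYQ]
    refine (commutator_mono h1 le_rfl).trans (sup_commutator_le (inf_le_right.trans hYW)
      le_normalizer ?_ (commutator_le_left_of_le_normalizer (h.QS.trans hSW)))
    rw [hC _ inf_le_right inf_le_left]; exact bot_le
  refine ⟨hUeq, t, ht, fun htp => h.ne_bot (hbot U (htp ▸ hYp.to_le hUY) hUY), hYp.to_le hUY, ?_⟩
  have h1 : ⁅Y, Y⁆ ≤ L := (h.dich _ le_normalizer_of_normal).resolve_right fun h1 => by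
    have h2 := eq_of_le_commutator_sup hYp (bot_le : ⊥ ≤ Y)
    have := hYp.isNilpotent
    have h3 : Group.IsPerfect Y := isPerfect_iff.2 (le_antisymm (commutator_le_self _) (hUeq ▸ h1))
    have : Nontrivial Y := (nontrivial_iff_ne_bot Y).2 (hUeq ▸ h.ne_bot)
    exact Group.IsPerfect.not_isSolvable Y inferInstance
  have h2 := commutator_eq_bot_iff_le_centralizer'.1 (hC _ (commutator_le_left _ _) h1)
  rw [hUeq, commutator_eq_bot_iff_le_centralizer']
  conv_lhs => rw [← hYQ]
  exact (commutator_mono le_rfl h2).trans (commutator_le_right _ _)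

/-- the case that `p` divides the order of the normal closure of `U` -/
theorem of_not_coprime [Finite G] (h : IsoData p S L Q U) (hO : pCore p G = ⊥)
    (hc : ¬ (Nat.card (normalClosure (U : Set G))).Coprime p) :
    ∃ K : Subgroup G, IsComponent K ∧ K ≤ normalClosure (U : Set G) ∧
      normalClosure (U : Set G) ≤ layer G ∧
      normalClosure (U : Set G) = sSup {K' | IsComponent K' ∧ K' ≤ normalClosure (U : Set G)} ∧
      ∀ K' : Subgroup G, IsComponent K' → K' ≤ normalClosure (U : Set G) →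
        ∃ s ∈ S, K' = cj s K := by
  set Y := normalClosure (U : Set G) with hY
  have := H52.pPrimeCore_characteristic (G := G) (p := p)
  have hF : fittingSubgroup G ≤ L := by
    refine (H52.fitting_le_pCore_sup_pPrimeCore (p := p)).trans ?_
    rw [hO, bot_sup_eq]
    refine (h.dich _ le_normalizer_of_normal).resolve_right fun h1 => hc ?_
    exact H52.coprime_card_pPrimeCore.coprime_dvd_left (card_dvd_of_le (normalClosure_le_normal h1))
  have hUF := h.le_fstar hO
  obtain ⟨K, hK, hKL⟩ : ∃ K : Subgroup G, IsComponent K ∧ ¬ K ≤ L := by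
    by_contra h1
    push Not at h1
    exact h.nle (hUF.trans (sup_le (H52.layer_le_iff.2 h1) hF))
  let orb : Subgroup G → Set (Subgroup G) := fun K => {K' | ∃ s ∈ S, K' = cj s K}
  have horb : ∀ K, IsComponent K → ∀ K' ∈ orb K, IsComponent K' := by
    rintro K hK _ ⟨s, -, rfl⟩
    exact H52.IsComponent.conj hK s
  have hU : ∀ K, ¬ K ≤ L → U ≤ sSup (orb K) := fun K hKL => by
    refine (h.dich _ (H52.le_normalizer_sSup_of_conj_mem ?_)).resolve_left fun h1 =>
      hKL ((le_sSup (show K ∈ orb K from ⟨1, S.one_mem, (cj_one K).symm⟩)).trans h1)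
    rintro g hg _ ⟨s, hs, rfl⟩
    exact ⟨g * s, S.mul_mem hg hs, (cj_mul g s K).symm⟩
  have hnc : ∀ K, IsComponent K → ¬ K ≤ L → ∀ X, U ≤ X → ⁅sSup (orb K), X⁆ ≠ ⊥ := by
    intro K hK hKL X hX h1
    have h2 : U ≤ centralizer ((sSup (orb K) : Subgroup G) : Set G) :=
      hX.trans (commutator_eq_bot_iff_le_centralizer'.1 h1)
    exact h.nle ((le_inf (hU K hKL) h2).trans ((H52.center_sSup_components_le (horb K hK)).trans
      (H52.center_layer_le_fitting.trans hF)))
  have htr : ∀ K', IsComponent K' → ¬ K' ≤ L → K' ∈ orb K := by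
    intro K' hK' hK'L
    by_contra h1
    refine hnc K hK hKL _ (hU K' hK'L) (H52.commutator_sSup_components_of_disjoint (horb K hK)
      (horb K' hK') (Set.disjoint_left.2 ?_))
    rintro _ ⟨s, hs, rfl⟩ ⟨s', hs', h2⟩
    exact h1 ⟨s'⁻¹ * s, S.mul_mem (S.inv_mem hs') hs, by rw [cj_mul, h2, cj_inv_cj]⟩
  have hKY : K ≤ Y := by
    refine (H52.IsComponent.le_or_commutator_eq_bot_of_normal hK Y).resolve_right fun h1 => ?_
    refine hnc K hK hKL Y le_normalClosure (H52.commutator_sSup_left_eq_bot ?_)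
    rintro _ ⟨s, -, rfl⟩
    rw [← cj_normal s Y, ← cj_commutator, h1, cj_bot]
  have hn : (sSup (orb K)).Normal := by
    apply normal_of_top_le_normalizer
    rw [← h.sup_eq_top]
    refine sup_le (H52.le_normalizer_sSup_of_conj_mem ?_) ((hU K hKL).trans le_normalizer)
    rintro g hg _ ⟨s, hs, rfl⟩
    refine htr _ (H52.IsComponent.conj (H52.IsComponent.conj hK s) g) fun h1 => hKL ?_
    change cj g (cj s K) ≤ L at h1
    rw [← cj_mul, cj_le_iff_le_cj_inv, cj_eq_of_mem (L.inv_mem (L.mul_mem hg (h.SL hs)))] at h1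
    exact h1
  have hYle : Y ≤ sSup (orb K) := normalClosure_le_normal (hU K hKL)
  refine ⟨K, hK, hKY, hYle.trans (H52.sSup_components_le_layer (horb K hK)),
    le_antisymm (hYle.trans (sSup_le_sSup ?_)) (sSup_le fun _ h => h.2), fun K' hK' hK'Y =>
    H52.IsComponent.mem_of_le_sSup (horb K hK) hK' (hK'Y.trans hYle)⟩
  rintro _ ⟨s, -, rfl⟩
  exact ⟨H52.IsComponent.conj hK s, (cj_mono s hKY).trans (cj_normal s Y).le⟩

end IsoData

theorem isoData_of_pmin [Finite G] (S : Sylow p G) {P L : Subgroup G} (hSP : (S : Subgroup G) ≤ P)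
    (hPmin : IsPMinimal p P)
    (hL : L = normalizer ((S : Subgroup G) : Set G) ⊔ ⨆ P' : {P' : Subgroup G //
      (S : Subgroup G) ≤ P' ∧ IsPMinimal p P' ∧ P' ≠ P}, (P' : Subgroup G))
    (hiso : ¬ pCoreOf p L ≤ pCoreOf p P) : IsoData p S L (pCoreOf p L) (resOf p P) := by
  obtain ⟨M, hM⟩ := (isPMinimal_coe_iff (isSyl_of_sylow_le S hSP)).1 hPmin
  have hSL : (S : Subgroup G) ≤ L := hL ▸ le_sup_of_le_left le_normalizer
  have hQS : pCoreOf p L ≤ S := (isSyl_of_sylow_le S hSL).pCoreOf_le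
  have hgen : ∀ H J : Subgroup G, (S : Subgroup G) ≤ H → L ⊓ H ≤ J → (P ≤ H → P ≤ J) → H ≤ J := by
    intro H J hSH hJ hP
    refine le_of_pmin_le (isSyl_of_sylow_le S hSH) (le_trans (le_inf (inf_le_right.trans ?_)
      inf_le_left) hJ) fun P' M' hP'H hP' => ?_
    · rw [hL]; exact le_sup_left
    · by_cases h1 : P' = P
      · exact h1 ▸ hP (h1 ▸ hP'H)
      · refine le_trans (le_inf ?_ hP'H) hJ
        rw [hL]
        exact le_sup_of_le_right (le_iSup_of_le
          ⟨P', hP'.syl.le, (isPMinimal_coe_iff hP'.syl).2 ⟨M', hP'⟩, h1⟩ le_rfl)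
  refine ⟨isSyl_top S, hSL, hQS, le_normalizer_pCoreOf p L, hSP.trans (le_normalizer_resOf p P),
    resOf_resOf p P, fun h1 => hiso (le_pCoreOf (hQS.trans hSP) (pCoreOf_isPGroup p L) ?_),
    hM.commutator_resOf hQS (hSL.trans (le_normalizer_pCoreOf p L)) hiso, fun X hX => ?_,
    fun H h1 h2 => hgen H _ h1 le_sup_left fun _ => ?_⟩
  · exact hM.syl.resOf_sup.ge.trans ((sup_le h1 hSL).trans (le_normalizer_pCoreOf p L))
  · by_cases h1 : P ≤ X ⊔ S
    · exact Or.inr (resOf_le_of_pquot ((pquot_sup S.isPGroup' hX).mono le_rfl h1))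
    · exact Or.inl (le_sup_left.trans (hgen _ L le_sup_right inf_le_left fun h => absurd h h1))
  · exact hM.syl.resOf_sup.ge.trans (sup_le le_sup_right (le_sup_of_le_left (le_inf hSL h1)))

/-- the embedding of `Y / O_p(Y)` into `G / O_p(G)` for a normal subgroup `Y` -/
theorem exists_hom_quotient_pCore (Y : Subgroup G) [Y.Normal] :
    ∃ f : Y ⧸ pCore p Y →* G ⧸ pCore p G, Function.Injective f ∧
      f.range = Y.map (QuotientGroup.mk' (pCore p G)) ∧
      ∀ K : Subgroup (Y ⧸ pCore p Y), (K.comap (QuotientGroup.mk' (pCore p Y))).map Y.subtype =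
        Y ⊓ (K.map f).comap (QuotientGroup.mk' (pCore p G)) := by
  have hk : ((QuotientGroup.mk' (pCore p G)).comp Y.subtype).ker = pCore p Y := by
    rw [← MonoidHom.comap_ker, QuotientGroup.ker_mk', ← pCoreOf_subgroupOf,
      pCoreOf_eq_inf le_top le_normalizer_of_normal, pCoreOf_top]
    ext x; simp [mem_subgroupOf]
  have hinj : Function.Injective (QuotientGroup.lift (pCore p Y) _ hk.ge) := by
    rw [← MonoidHom.ker_eq_bot_iff, QuotientGroup.ker_lift, hk, Subgroup.map_eq_bot_iff,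
      QuotientGroup.ker_mk']
  refine ⟨QuotientGroup.lift (pCore p Y) _ hk.ge, hinj, ?_, fun K => ?_⟩
  · ext x
    constructor
    · rintro ⟨y, rfl⟩
      obtain ⟨y, rfl⟩ := QuotientGroup.mk'_surjective _ y
      exact ⟨y, y.2, rfl⟩
    · rintro ⟨y, hy, rfl⟩
      exact ⟨QuotientGroup.mk' _ ⟨y, hy⟩, rfl⟩
  · ext x
    constructor
    · rintro ⟨y, hy, rfl⟩
      exact ⟨y.2, _, hy, rfl⟩
    · rintro ⟨hx, k, hk, hkx⟩
      refine ⟨⟨x, hx⟩, ?_, rfl⟩
      have : k = QuotientGroup.mk' _ ⟨x, hx⟩ := hinj hkx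
      rw [this] at hk
      exact hk

/-- the normal closure of `U` equals `U` if it does so modulo `O_p(G)` -/
theorem IsoData.eq_normalClosure_of_map [Finite G] {S L Q U : Subgroup G} (h : IsoData p S L Q U)
    (h1 : U.map (QuotientGroup.mk' (pCore p G)) =
      (normalClosure (U : Set G)).map (QuotientGroup.mk' (pCore p G))) :
    U = normalClosure (U : Set G) := by
  have h2 : U ⊔ pCore p G = normalClosure (U : Set G) ⊔ pCore p G := by
    have := congrArg (comap (QuotientGroup.mk' (pCore p G))) h1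
    rwa [comap_map_eq, comap_map_eq, QuotientGroup.ker_mk'] at this
  have hOS : pCore p G ≤ S := pCoreOf_top (G := G) p ▸ h.syl.pCoreOf_le
  have h3 : U.Normal := by
    rw [← h.res, ← resOf_sup_of_isPGroup (pCore_isPGroup p G) (hOS.trans h.SU), h2]
    exact resOf_normal p _
  exact (normalClosure_eq_self U).symm

end Cfsg.Agent.H85
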