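import Cfsg.Agent.H9.KCDefs
import Cfsg.Agent.S3993
import Cfsg.Agent.H1.Card

/-! Piece KC-A1: the class data of every finite group. -/

set_option autoImplicit false
set_option linter.unusedSectionVars false

namespace Cfsg.Agent.H85.KcA

open Subgroup Finset Cfsg.Agent.H9.KC

universe u

variable {G : Type u} [Group G] [Finite G]

theorem cent_le_pow (x : G) (n : ℕ) :
    centralizer ({x} : Set G) ≤ centralizer ({x ^ n} : Set G) := fun _ hg =>
  mem_centralizer_singleton_iff.2
    (Commute.pow_right (mem_centralizer_singleton_iff.1 hg) n).eq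

/-- A factor of a commuting product of coprime orders is a power of the product. -/
theorem exists_pow_eq {x y : G} (hc : Commute y x) (h : (orderOf y).Coprime (orderOf x)) :
    ∃ n : ℕ, (y * x) ^ n = x := by
  obtain ⟨n, h1, h2⟩ := Nat.chineseRemainder h 0 1
  refine ⟨n, ?_⟩
  rw [hc.mul_pow, pow_eq_pow_iff_modEq.2 h1, pow_eq_pow_iff_modEq.2 h2, pow_zero, one_mul, pow_one]

/-- A central element of order `p` of a nontrivial `p`-subgroup. -/
theorem exists_central {p : ℕ} [hp : Fact p.Prime] {Q : Subgroup G} (hQ : IsPGroup p Q)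
    (hne : Q ≠ ⊥) : ∃ y ∈ Q, orderOf y = p ∧ ∀ a ∈ Q, a * y = y * a := by
  have : Nontrivial Q := (nontrivial_iff_ne_bot Q).2 hne
  have hz := hQ.center_nontrivial
  have hd : p ∣ Nat.card (center Q) := by
    obtain ⟨k, hk⟩ := IsPGroup.iff_card.1 (hQ.to_subgroup (center Q))
    rcases k with _ | k
    · have := Finite.one_lt_card (α := center Q)
      rw [hk] at this; simp at this
    · rw [hk]; exact dvd_pow_self p (Nat.succ_ne_zero k)
  obtain ⟨y, hy⟩ := exists_prime_orderOf_dvd_card' p hd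
  refine ⟨y, (y : Q).2, by rw [orderOf_coe, orderOf_coe, hy], fun a ha => ?_⟩
  exact congrArg Subtype.val (mem_center_iff.1 y.2 ⟨a, ha⟩)

theorem ext_aux (x : G) {q : ℕ} (hq : q.Prime) (h1 : q ∣ Nat.card (centralizer ({x} : Set G)))
    (h2 : ¬ q ∣ orderOf x) : ∃ z : G, orderOf z = q * orderOf x ∧
      centralizer ({z} : Set G) ≤ centralizer ({x} : Set G) ∧
      ¬ q ∣ (centralizer ({z} : Set G)).relIndex (centralizer ({x} : Set G)) := by
  have := Fact.mk hq
  obtain ⟨Q⟩ : Nonempty (Sylow q (centralizer ({x} : Set G))) := inferInstance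
  obtain ⟨y, hy, ho, hc⟩ := exists_central Q.isPGroup' (Q.ne_bot_of_dvd_card h1)
  have cy : Commute (y : G) x := mem_centralizer_singleton_iff.1 y.2
  have ho' : orderOf (y : G) = q := by rw [orderOf_coe, ho]
  have cop : (orderOf (y : G)).Coprime (orderOf x) := by
    rw [ho']; exact hq.coprime_iff_not_dvd.2 h2
  obtain ⟨n, hn⟩ := exists_pow_eq cy cop
  refine ⟨y * x, by rw [cy.orderOf_mul_eq_mul_orderOf_of_coprime cop, ho'], ?_, fun hd => ?_⟩
  · have := cent_le_pow ((y : G) * x) n
    rwa [hn] at this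
  · have l : (Q : Subgroup (centralizer ({x} : Set G))) ≤
        (centralizer ({(y : G) * x} : Set G)).subgroupOf (centralizer ({x} : Set G)) := by
      intro a ha
      have e1 : Commute (a : G) y := congrArg Subtype.val (hc a ha)
      have e2 : Commute (a : G) x := mem_centralizer_singleton_iff.1 a.2
      exact mem_centralizer_singleton_iff.2 (e1.mul_right e2).eq
    exact Q.not_dvd_index (hd.trans (index_dvd_of_le l))

theorem sq_aux (x : G) {q : ℕ} (hq : q.Prime) (h1 : ∀ r, r.Prime → r ∣ orderOf x → r = q)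
    (h2 : q * q ∣ Nat.card G) : q * q ∣ Nat.card (centralizer ({x} : Set G)) := by
  have := Fact.mk hq
  have hx : IsPGroup q (zpowers x) := by
    refine IsPGroup.of_card (n := (orderOf x).primeFactorsList.length) ?_
    rw [Nat.card_zpowers]
    exact Nat.eq_prime_pow_of_unique_prime_dvd (orderOf_pos x).ne' fun {d} a b => h1 d a b
  obtain ⟨P, hP⟩ := hx.exists_le_sylow
  have xP : x ∈ (P : Subgroup G) := hP (mem_zpowers x)
  have c2 : q * q ∣ Nat.card P := by
    rw [← sq] at h2 ⊢
    exact P.pow_dvd_card_of_pow_dvd_card h2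
  have hne : (P : Subgroup G) ≠ ⊥ := P.ne_bot_of_dvd_card (dvd_trans (dvd_mul_right q q) h2)
  obtain ⟨y, hy, ho, hc⟩ := exists_central P.isPGroup' hne
  set D : Subgroup G := P ⊓ centralizer ({x} : Set G) with hD
  refine dvd_trans ?_ (card_dvd_of_le (inf_le_right : D ≤ _))
  obtain ⟨k, hk⟩ := IsPGroup.iff_card.1 (P.isPGroup'.to_le (inf_le_left : D ≤ _))
  by_contra hh
  have l : zpowers y ≤ D :=
    zpowers_le.2 ⟨hy, mem_centralizer_singleton_iff.2 (hc x xP).symm⟩
  have e : zpowers y = D := by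
    refine H1.eq_of_le_of_card_le l ?_
    rw [Nat.card_zpowers, ho, hk]
    rcases k with _ | _ | k
    · simpa using hq.one_le
    · simp
    · exact absurd (hk ▸ ⟨q ^ k, by ring⟩) hh
  have xy : x ∈ zpowers y := e ▸ ⟨xP, mem_centralizer_singleton_iff.2 rfl⟩
  obtain ⟨n, rfl⟩ := xy
  have : D = P := inf_eq_left.2 fun a ha =>
    mem_centralizer_singleton_iff.2 (Commute.zpow_right (hc a ha) n).eq
  exact hh (by rw [← hD, this]; exact c2)

theorem a1 : A1Stmt.{u} := by
  intro G _ _ _
  refine ⟨Nat.card_pos, ?_, fun i => card_subgroup_dvd_card _, fun i => ?_, ?_, fun i d hd => ?_,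
    fun i q hq h1 h2 => ?_, fun i q hq h1 h2 => sq_aux _ hq h1 h2, fun n hn => ?_⟩
  · have := sum_cc (G := G) (fun _ => True)
    rw [filter_true] at this
    rw [this]
    exact Nat.card_congr (Equiv.subtypeUnivEquiv fun _ => trivial)
  · exact orderOf_dvd_natCard _ (mem_centralizer_singleton_iff.2 rfl)
  · refine ⟨ConjClasses.mk 1, by rw [co_mk, orderOf_one], ?_, fun j hj => ?_⟩
    · rw [cc_mk, (eq_top_iff' _).2 fun g => mem_centralizer_singleton_iff.2 (by simp), card_top]
    · obtain ⟨x, rfl⟩ := ConjClasses.mk_surjective j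
      rw [co_mk, orderOf_eq_one_iff] at hj
      rw [hj]
  · obtain ⟨x, rfl⟩ := ConjClasses.mk_surjective i
    rw [co_mk] at hd
    refine ⟨ConjClasses.mk (x ^ (orderOf x / d)), ?_, ?_⟩
    · rw [co_mk, orderOf_pow_orderOf_div (orderOf_pos x).ne' hd]
    · rw [cc_mk, cc_mk]; exact card_dvd_of_le (cent_le_pow x _)
  · obtain ⟨x, rfl⟩ := ConjClasses.mk_surjective i
    rw [co_mk] at h2
    rw [cc_mk] at h1
    obtain ⟨z, z1, z2, z3⟩ := ext_aux x hq h1 h2
    refine ⟨ConjClasses.mk z, by rw [co_mk, co_mk, z1], ?_, ?_⟩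
    · rw [cc_mk, cc_mk]; exact card_dvd_of_le z2
    · rw [cc_mk, cc_mk, ← H1.card_mul_relIndex z2, Nat.mul_div_cancel_left _ Nat.card_pos]
      exact z3
  · rw [sum_cc (G := G) (fun i => co i ∣ n)]
    have := S3993.result (G := G) n hn
    rwa [Nat.card_congr (Equiv.subtypeEquivRight fun g : G =>
      (show g ^ n = 1 ↔ co (ConjClasses.mk g) ∣ n by rw [co_mk, orderOf_dvd_iff_pow_eq_one]))]
      at this

end Cfsg.Agent.H85.KcA
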