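import Cfsg.Agent.H9.KCDefs
import Cfsg.Agent.H29.Subfield

/-! Piece KC-ASM: the simple groups with at most eleven conjugacy classes, from the pieces. -/

set_option autoImplicit false

namespace Cfsg.Agent.H85.KcA

open Cfsg.Agent.H9.KC

universe u

theorem k_congr {G H : Type*} [Group G] [Group H] (e : G ≃* H) :
    Nat.card (ConjClasses G) = Nat.card (ConjClasses H) := by
  refine Nat.card_congr ⟨ConjClasses.map e.toMonoidHom, ConjClasses.map e.symm.toMonoidHom,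
    fun C => ?_, fun C => ?_⟩
  · obtain ⟨x, rfl⟩ := ConjClasses.mk_surjective C
    exact congrArg ConjClasses.mk (e.symm_apply_apply x)
  · obtain ⟨x, rfl⟩ := ConjClasses.mk_surjective C
    exact congrArg ConjClasses.mk (e.apply_symm_apply x)

theorem main_of (h1 : A1Stmt.{u}) (h2 : A2Stmt.{u}) (h3 : A3Stmt.{u}) (h4 : A4Stmt.{u})
    (h7 : S7Stmt.{u}) (hA : KAltStmt) (fm : FM11Stmt.{u}) (fs : FSzStmt.{u}) (fl : FL34Stmt.{u})
    (fu : FU33Stmt.{u}) (hK : KillStmt.{u}) (hAr : ArithStmt.{u}) : MainStmt.{u} := by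
  intro G _ _ _ hG hk
  by_cases hL : IsL2 G
  · exact Or.inl hL
  by_cases hA7 : IsA7 G
  · exact Or.inr (Or.inl hA7)
  right; right
  have : Fintype (ConjClasses G) := Fintype.ofFinite _
  obtain ⟨s1, s2, s3, s4, s5⟩ := h7 G hG hL hA7
  have s6 : Nat.card G = 20160 → IsL34 G := fun e => (s5 e).resolve_right fun ⟨f⟩ => by
    have := hA.2
    rw [← k_congr f] at this
    omega
  have h5 : A5 (Nat.card G) (co (G := G)) cc := by
    refine ⟨fun e i => fm G (s2 e) _, fun e i => fs G (s3 e) _, fun e i hi => ?_, fun e => ?_⟩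
    · refine fl G (s6 e) _ (co i).primeFactorsList.length (orderOf_dvd_iff_pow_eq_one.1 ?_)
      exact (Nat.eq_prime_pow_of_unique_prime_dvd (orderOf_pos _).ne' fun {d} a b => hi d a b).dvd
    · obtain ⟨x, hx⟩ := fu G (s4 e)
      exact ⟨ConjClasses.mk x, by rw [co_mk, hx]⟩
  have o := hAr (ConjClasses G) (Nat.card G) co cc (by rwa [← Nat.card_eq_fintype_card]) (h1 G)
    (h2 G hG) (h3 G) (h4 G hG hL hA7) h5 s1
  rw [← Nat.card_eq_fintype_card] at o
  obtain ⟨k1, k2, k3, k4⟩ := hK G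
  rcases o with o | o | o | o | ⟨o, o' | o'⟩ | ⟨o, o'⟩
  · exact absurd o k1
  · exact absurd o k2
  · exact absurd o k3
  · exact absurd o k4
  · exact Or.inl ⟨o, Or.inl (s2 o')⟩
  · exact Or.inl ⟨o, Or.inr (s6 o')⟩
  · exact Or.inr ⟨o, s3 o'⟩

theorem card_ne {F : Type} [Field F] [Fintype F] {a b : ℕ} (ha : a.Prime) (hb : b.Prime)
    (hab : a ≠ b) : Fintype.card F ≠ a * b := by
  intro e
  obtain ⟨p, _, n, hp, hn⟩ := FiniteField.card' F
  rw [e] at hn
  have e1 := (Nat.prime_dvd_prime_iff_eq ha hp).1 (ha.dvd_of_dvd_pow (hn ▸ dvd_mul_right a b))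
  have e2 := (Nat.prime_dvd_prime_iff_eq hb hp).1 (hb.dvd_of_dvd_pow (hn ▸ dvd_mul_left b a))
  exact hab (e1.trans e2.symm)

theorem psl_zmod {G : Type u} [Group G] {F : Type} [Field F] [Fintype F] (p : ℕ) [Fact p.Prime]
    (h : Fintype.card F = p) (e : G ≃* Matrix.ProjectiveSpecialLinearGroup (Fin 2) F) :
    Nonempty (G ≃* Matrix.ProjectiveSpecialLinearGroup (Fin 2) (ZMod p)) :=
  ⟨e.trans (H29.pslCongr (ZMod.ringEquivOfPrime F Fact.out h).symm)⟩

theorem l2_cases (hK : KL2Stmt) {G : Type u} [Group G] {F : Type} [Field F] [Fintype F]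
    (e : G ≃* Matrix.ProjectiveSpecialLinearGroup (Fin 2) F) :
    (Odd (Fintype.card F) ∧ 2 * Nat.card (ConjClasses G) = Fintype.card F + 5) ∨
      (Even (Fintype.card F) ∧ Nat.card (ConjClasses G) = Fintype.card F + 1) := by
  rw [k_congr e]
  rcases Nat.even_or_odd (Fintype.card F) with h | h
  · exact Or.inr ⟨h, (hK F).2 h⟩
  · exact Or.inl ⟨h, (hK F).1 h⟩

theorem s2216_of (hM : MainStmt.{u}) (hK : KL2Stmt) {G : Type u} [Group G] [Finite G]
    [IsSimpleGroup G] (hG : ¬ IsMulCommutative G) (h : Nat.card (ConjClasses G) = 9) :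
    (∃ (F : Type) (_ : Field F) (_ : Fintype F), Fintype.card F = 8 ∧
        Nonempty (G ≃* Matrix.ProjectiveSpecialLinearGroup (Fin 2) F)) ∨
      Nonempty (G ≃* Matrix.ProjectiveSpecialLinearGroup (Fin 2) (ZMod 13)) ∨
      Nonempty (G ≃* ↥(alternatingGroup (Fin 7))) := by
  rcases hM G hG (by omega) with ⟨F, _, _, ⟨e⟩⟩ | h7 | ⟨h', -⟩ | ⟨h', -⟩
  · rcases l2_cases hK e with ⟨-, c⟩ | ⟨-, c⟩
    · have : Fact (Nat.Prime 13) := ⟨by norm_num⟩
      exact Or.inr (Or.inl (psl_zmod (F := F) 13 (by omega) e))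
    · exact Or.inl ⟨F, _, _, by omega, ⟨e⟩⟩
  · exact Or.inr (Or.inr h7)
  · omega
  · omega

theorem s2217_of (hM : MainStmt.{u}) (hK : KL2Stmt) (hA : KAltStmt) {G : Type u} [Group G]
    [Finite G] [IsSimpleGroup G] (hG : ¬ IsMulCommutative G) (h : Nat.card (ConjClasses G) = 10) :
    Nonempty (G ≃* ↥Cfsg.Spor.M11) ∨
      ∃ (F : Type) (_ : Field F) (_ : Fintype F), Fintype.card F = 4 ∧
        Nonempty (G ≃* Matrix.ProjectiveSpecialLinearGroup (Fin 3) F) := by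
  rcases hM G hG (by omega) with ⟨F, _, _, ⟨e⟩⟩ | ⟨⟨e⟩⟩ | ⟨-, h'⟩ | ⟨h', -⟩
  · rcases l2_cases hK e with ⟨-, c⟩ | ⟨⟨r, c'⟩, c⟩
    · exact absurd (by omega)
        (card_ne (F := F) Nat.prime_three Nat.prime_five (by norm_num))
    · omega
  · have := hA.1
    rw [← k_congr e] at this
    omega
  · exact h'
  · omega

theorem s2218_of (hM : MainStmt.{u}) (hK : KL2Stmt) (hA : KAltStmt) {G : Type u} [Group G]
    [Finite G] [IsSimpleGroup G] (hG : ¬ IsMulCommutative G) (h : Nat.card (ConjClasses G) = 11) :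
    Nonempty (G ≃* Matrix.ProjectiveSpecialLinearGroup (Fin 2) (ZMod 17)) ∨
      ∃ (F : Type) (_ : Field F) (_ : Fintype F), Fintype.card F = 8 ∧
        Nonempty (G ≃* ↥(Cfsg.Lie.Sz F 4)) := by
  rcases hM G hG (by omega) with ⟨F, _, _, ⟨e⟩⟩ | ⟨⟨e⟩⟩ | ⟨h', -⟩ | ⟨-, h'⟩
  · rcases l2_cases hK e with ⟨-, c⟩ | ⟨-, c⟩
    · have : Fact (Nat.Prime 17) := ⟨by norm_num⟩
      exact Or.inl (psl_zmod (F := F) 17 (by omega) e)
    · exact absurd (by omega)
        (card_ne (F := F) Nat.prime_two Nat.prime_five (by norm_num))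
  · have := hA.1
    rw [← k_congr e] at this
    omega
  · omega
  · exact Or.inr h'

end Cfsg.Agent.H85.KcA
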