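import Cfsg.Agent.H11.CyLp

/-! Project CY, chapter LP: involutions when `p ≡ 1 mod 4` and `K` has odd order. -/

set_option autoImplicit false

namespace Cfsg.Agent.H85.LpB0

open Subgroup MulAction Cfsg.Agent.H11.Cy Cfsg.Agent.H11.Cy.Lp
open Cfsg.Agent.H11.EL (Nm Ct C1 Ex)

variable {G : Type} [Group G] [Finite G] {Ω : Type} [MulAction G Ω] {p : ℕ} {A : Ω → Subgroup G}

/-- the group generated by two commuting involutions -/
def V4 {a b : G} (ha : a * a = 1) (hb : b * b = 1) (hc : b * a = a * b) : Subgroup G where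
  carrier := {g | g = 1 ∨ g = a ∨ g = b ∨ g = a * b}
  one_mem' := .inl rfl
  mul_mem' := by
    have h1 : ∀ x, a * (a * x) = x := fun x => by rw [← mul_assoc, ha, one_mul]
    have h2 : ∀ x, b * (b * x) = x := fun x => by rw [← mul_assoc, hb, one_mul]
    have h3 : ∀ x, b * (a * x) = a * (b * x) := fun x => by rw [← mul_assoc, hc, mul_assoc]
    intro g k hg hk
    rcases hg with e | e | e | e <;> rcases hk with e' | e' | e' | e' <;> rw [e, e'] <;>
      simp [mul_assoc, ha, hb, hc, h1, h2, h3]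
  inv_mem' := by
    have h1 := inv_eq_of_mul_eq_one_right ha
    have h2 := inv_eq_of_mul_eq_one_right hb
    intro g hg
    rcases hg with e | e | e | e <;> rw [e] <;> simp [h1, h2, hc]

theorem mem_V4 {a b : G} {ha : a * a = 1} {hb : b * b = 1} {hc : b * a = a * b} {g : G} :
    g ∈ V4 ha hb hc ↔ g = 1 ∨ g = a ∨ g = b ∨ g = a * b := Iff.rfl

theorem sq_mul {a b : G} (ha : a * a = 1) (hb : b * b = 1) (hc : b * a = a * b) :
    a * b * (a * b) = 1 := by
  rw [mul_assoc, ← mul_assoc b, hc, mul_assoc, hb, mul_one, ha]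

theorem V4_two {a b : G} (ha : a * a = 1) (hb : b * b = 1) (hc : b * a = a * b) :
    IsPGroup 2 (V4 ha hb hc) := by
  rintro ⟨g, hg⟩
  refine ⟨1, Subtype.ext ?_⟩
  show g ^ 2 ^ 1 = 1
  rw [pow_one, sq]
  rcases hg with e | e | e | e <;> rw [e]
  exacts [mul_one _, ha, hb, sq_mul ha hb hc]

theorem burn [Finite Ω] {a b : G} (ha : a * a = 1) (hb : b * b = 1) (hc : b * a = a * b)
    (a1 : a ≠ 1) (b1 : b ≠ 1) (ab : a ≠ b) : 4 ∣ Nat.card Ω + (fixedBy Ω a).ncard +
      (fixedBy Ω b).ncard + (fixedBy Ω (a * b)).ncard := by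
  classical
  have : Fintype G := Fintype.ofFinite G
  have : Fintype Ω := Fintype.ofFinite Ω
  have : Fintype (Quotient (orbitRel (V4 ha hb hc) Ω)) := Fintype.ofFinite _
  have c1 : a * b ≠ 1 := fun e => ab (mul_right_cancel (e.trans hb.symm))
  have c2 : a ≠ a * b := fun e => b1 (left_eq_mul.1 e)
  have c3 : b ≠ a * b := fun e => a1 (right_eq_mul.1 e)
  have hs : ∀ F : G → ℕ, ∑ g : V4 ha hb hc, F g = F 1 + (F a + (F b + F (a * b))) := fun F => by
    rw [← Finset.sum_subtype ({1, a, b, a * b} : Finset G) (by simp [mem_V4]) F,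
      Finset.sum_insert (by simp [a1.symm, b1.symm, c1.symm]), Finset.sum_insert (by simp [ab, c2]),
      Finset.sum_pair c3]
  have h := sum_card_fixedBy_eq_card_orbits_mul_card_group (V4 ha hb hc) Ω
  have h4 : Fintype.card (V4 ha hb hc) = 4 := by
    rw [Fintype.card_eq_sum_ones]; exact hs fun _ => 1
  have h5 := hs fun g => (fixedBy Ω g).ncard
  rw [fixedBy_one_eq_univ, Set.ncard_univ] at h5
  rw [h4, Finset.sum_congr rfl (g := fun g : V4 ha hb hc => (fixedBy Ω (g : G)).ncard)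
    (fun g _ => by rw [← Nat.card_eq_fintype_card]; exact Nat.card_coe_set_eq _), h5] at h
  omega

theorem sq_of {z : G} (h : orderOf z = 2) : z * z = 1 := by rw [← sq, ← h, pow_orderOf_eq_one]

theorem ne_of {z : G} (h : orderOf z = 2) : z ≠ 1 := fun e => by simp [e] at h

theorem ord_of {z : G} (h : z * z = 1) (h1 : z ≠ 1) : orderOf z = 2 :=
  orderOf_eq_prime (by rwa [sq]) h1

theorem odd_one {K : Subgroup G} (o : Odd (Nat.card K)) {k : G} (hk : k ∈ K) (h : k * k = 1) :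
    k = 1 := by
  by_contra e
  have := K.orderOf_dvd_natCard hk
  rw [ord_of h e] at this
  exact (Nat.not_even_iff_odd.2 o) (even_iff_two_dvd.2 this)

/-- an involution fixing `u` centralises or inverts `A u` -/
theorem pm (h : St p A) {u : Ω} {g : G} (hu : g • u = u) (g2 : g * g = 1) :
    g ∈ centralizer (A u : Set G) ∨ ∀ a ∈ A u, g * a * g⁻¹ = a⁻¹ := by
  have : Fact p.Prime := ⟨h.pp⟩
  have : IsCyclic (A u) := isCyclic_of_prime_card (h.card u)
  refine or_iff_not_imp_left.2 fun hn a ha => ?_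
  have h1 := h.eqv g u a ha
  rw [hu] at h1
  have hc : g * a * g⁻¹ * a = a * (g * a * g⁻¹) :=
    congrArg Subtype.val (IsCyclic.isMulCommutative.is_comm.comm (⟨_, h1⟩ : A u) ⟨a, ha⟩)
  by_contra hne
  have hb : g * a * g⁻¹ * a ≠ 1 := fun e => hne (eq_inv_of_mul_eq_one_left e)
  have gi : g⁻¹ = g := inv_eq_of_mul_eq_one_right g2
  have h2 : Commute (g * a * g⁻¹ * a) g := by
    show _ * _ = _ * _
    conv_rhs => rw [hc]
    rw [gi]
    calc g * a * g * a * g = g * (a * (g * a * g)) := by group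
      _ = _ := rfl
  refine hn (mem_centralizer_iff.2 fun c hc' => ?_)
  obtain ⟨n, hn⟩ := mem_zpowers_of_prime_card (h.card u) (g := ⟨_, mul_mem h1 ha⟩)
    (fun e => hb (congrArg Subtype.val e)) (g' := ⟨c, hc'⟩)
  have e : (g * a * g⁻¹ * a) ^ n = c := congrArg Subtype.val hn
  rw [← e]
  exact (h2.zpow_left n).eq

section
variable (h : St p A) (ep : Eps A) (o : ∀ u v, u ≠ v → Odd (Nat.card (Kl A u v)))
include h ep o

theorem invt {u v : Ω} (huv : u ≠ v) {g : G} (hg : g ∈ Hs G u v) (g2 : orderOf g = 2) :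
    ∀ a ∈ A u, g * a * g⁻¹ = a⁻¹ :=
  (pm h hg.1 (sq_of g2)).resolve_left fun c =>
    ne_of g2 (odd_one (o u v huv) (ep.eps u v huv g hg c) (sq_of g2))

omit h ep o in
theorem cen_mul {B : Subgroup G} {g k : G} (hg : ∀ a ∈ B, g * a * g⁻¹ = a⁻¹)
    (hk : ∀ a ∈ B, k * a * k⁻¹ = a⁻¹) : g * k ∈ centralizer (B : Set G) :=
  mem_centralizer_iff.2 fun a ha => by
    have h1 := hg _ (inv_mem ha)
    rw [inv_inv, ← hk a ha] at h1
    calc a * (g * k) = (g * (k * a * k⁻¹) * g⁻¹) * (g * k) := by rw [h1]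
      _ = _ := by group

theorem eq_of {u v : Ω} (huv : u ≠ v) {g k : G} (hg : g ∈ Hs G u v) (g2 : orderOf g = 2)
    (hk : k ∈ Hs G u v) (k2 : orderOf k = 2) (c : k * g = g * k) : g = k := by
  have h1 := odd_one (o u v huv) (ep.eps u v huv _ (mul_mem hg hk)
    (cen_mul (invt h ep o huv hg g2) (invt h ep o huv hk k2))) (sq_mul (sq_of g2) (sq_of k2) c)
  exact mul_right_cancel (h1.trans (sq_of k2).symm)

end

theorem core (h : St p A) (l : L1 p A) (p1 : p % 4 = 1)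
    (o : ∀ u v, u ≠ v → Odd (Nat.card (Kl A u v))) {u v : Ω} (huv : u ≠ v) {z : G}
    (hz : z ∈ Hs G u v) (z2 : orderOf z = 2) :
    z ∈ Fl A u v ∧ (∀ g ∈ Hs G u v, Commute g z) ∧
      ∃ s ∈ Fl A u v, orderOf s = 2 ∧ s • u = v ∧ s * z = z * s := by
  obtain ⟨f, s, c⟩ := l.lc u v huv
  have t := l.lt u v huv f s c
  have ev : 2 ∣ orderOf f := by have := c.fo; omega
  have f0 : orderOf f ≠ 0 := by have := c.fo; have := l.ty.1; omega
  have h0 : orderOf (f ^ (orderOf f / 2)) = 2 := orderOf_pow_orderOf_div f0 ev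
  have e : z = f ^ (orderOf f / 2) :=
    eq_of h l.mc.ep o huv hz z2 (pow_mem c.fH _) h0 ((t.com z hz).pow_right _).symm.eq
  refine ⟨e ▸ pow_mem c.fL _, fun g hg => e ▸ (t.com g hg).pow_right _, s, c.sL, c.so, c.sx, ?_⟩
  have h1 : s * z * s⁻¹ = z⁻¹ := by rw [e, ← conj_pow, c.sf, inv_pow]
  rw [inv_eq_of_mul_eq_one_right (sq_of z2), mul_inv_eq_iff_eq_mul] at h1
  exact h1

theorem uniq (h : St p A) (l : L1 p A) (p1 : p % 4 = 1)
    (o : ∀ u v, u ≠ v → Odd (Nat.card (Kl A u v))) {u v : Ω} (huv : u ≠ v) {g k : G}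
    (hg : g ∈ Hs G u v) (g2 : orderOf g = 2) (hk : k ∈ Hs G u v) (k2 : orderOf k = 2) : g = k :=
  eq_of h l.mc.ep o huv hg g2 hk k2 ((core h l p1 o huv hg g2).2.1 k hk).eq

theorem conj_fix {g z : G} {u : Ω} (hu : z • u = u) : (g * z * g⁻¹) • g • u = g • u := by
  rw [mul_smul, inv_smul_smul, mul_smul, hu]

theorem conj_ord (g : G) {z : G} (z2 : orderOf z = 2) : orderOf (g * z * g⁻¹) = 2 :=
  ord_of (by rw [← sq, conj_pow, sq, sq_of z2]; simp) fun e => ne_of z2 (by simpa using e)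

theorem b0 : B0Stmt := by
  intro G _ _ Ω _ _ p A h l p1 x y hxy o0 z hz z2
  have : Fact (Nat.Prime 2) := ⟨Nat.prime_two⟩
  have o : ∀ u v, u ≠ v → Odd (Nat.card (Kl A u v)) := fun u v huv => l.cK x y u v hxy huv ▸ o0
  have l1 := l.toL1
  obtain ⟨zF, zc, s, sF, s2, sx, sz⟩ := core h l1 p1 o hxy hz z2
  have zs : z ≠ s := fun e => hxy (by rw [← sx, ← e]; exact hz.1.symm)
  have m2 : orderOf (z * s) = 2 := ord_of (sq_mul (sq_of z2) (sq_of s2) sz)
    fun e => zs (mul_right_cancel (e.trans (sq_of s2).symm))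
  have cls := (l.lv x y hxy).cls z zF
  have two : ∀ t ∈ Fl A x y, orderOf t = 2 → ∀ u : Ω, t • u = u → ∃ v, u ≠ v ∧ t ∈ Hs G u v := by
    intro t ht t2 u hu
    obtain ⟨g, -, rfl⟩ := cls t ht z2 t2
    by_cases e : u = g • x
    · exact ⟨g • y, fun e' => hxy (smul_left_cancel g (e.symm.trans e')), hu, conj_fix hz.2⟩
    · exact ⟨g • x, e, hu, conj_fix hz.1⟩
  have ev : 2 ∣ Nat.card Ω := by
    by_contra hn
    obtain ⟨u, hu⟩ := (V4_two (sq_of z2) (sq_of s2) sz).nonempty_fixed_point_of_prime_not_dvd_card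
      Ω hn
    have h1 : z • u = u := hu ⟨z, .inr (.inl rfl)⟩
    have h2 : s • u = u := hu ⟨s, .inr (.inr (.inl rfl))⟩
    obtain ⟨v1, n1, k1⟩ := two z zF z2 u h1
    obtain ⟨v2, n2, k2⟩ := two s sF s2 u h2
    obtain ⟨v3, n3, k3⟩ := two (z * s) (mul_mem zF sF) m2 u (by rw [mul_smul, h2, h1])
    exact ne_of m2 (odd_one (o u v3 n3) (l.mc.ep.eps u v3 n3 _ k3
      (cen_mul (invt h l.mc.ep o n1 k1 z2) (invt h l.mc.ep o n2 k2 s2))) (sq_of m2))
  refine ⟨even_iff_two_dvd.2 ev, zF, fun g hg => mem_centralizer_singleton_iff.2 (zc g hg).eq,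
    ?_, fun h4 => ?_, ?_⟩
  · intro u hu v hv u' hu' v' hv' huv huv'
    obtain ⟨g, -, rfl, rfl⟩ := h.two u trivial v trivial u' trivial v' trivial huv huv'
    refine ⟨g, mem_centralizer_singleton_iff.2 (mul_inv_eq_iff_eq_mul.1 ?_), rfl, rfl⟩
    exact uniq h l1 p1 o huv' ⟨conj_fix hu, conj_fix hv⟩ (conj_ord g z2) ⟨hu', hv'⟩ z2
  · have hb := burn (Ω := Ω) (sq_of z2) (sq_of s2) sz (ne_of z2) (ne_of s2) zs
    have w : ∀ t ∈ Fl A x y, orderOf t = 2 → (fixedBy Ω t).ncard = (fixedBy Ω z).ncard := by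
      intro t ht t2
      obtain ⟨g, -, rfl⟩ := cls t ht z2 t2
      rw [← smul_fixedBy, Set.ncard_smul_set]
    rw [w s sF s2, w _ (mul_mem zF sF) m2] at hb
    omega
  · intro u a ha b hb a2 b2 c
    obtain ⟨v, hv, huv⟩ :=
      (V4_two (sq_of a2) (sq_of b2) c.symm.eq).exists_fixed_point_of_prime_dvd_card_of_fixed_point
        Ω ev (a := u) (by
          rintro ⟨g, e | e | e | e⟩ <;> subst e
          · exact one_smul G u
          · exact ha
          · exact hb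
          · exact mul_mem ha hb)
    exact uniq h l1 p1 o huv ⟨ha, hv ⟨a, .inr (.inl rfl)⟩⟩ a2 ⟨hb, hv ⟨b, .inr (.inr (.inl rfl))⟩⟩ b2

end Cfsg.Agent.H85.LpB0
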