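import Mathlib
import Cfsg.Agent.H85.ModMore
import Cfsg.Agent.H85.PMin3

/-!
The `P(G,V)`-theorem, first part: the diagonal of the components permuted by an element `a` of a
best offender centralizes `[W, a]`.
-/

set_option autoImplicit false
set_option maxHeartbeats 400000

namespace Cfsg.Agent.H85

open Subgroup
open scoped commutatorElement

section Diag
variable {H : Type*} [Group H]

/-- the product `x · a x a⁻¹ ⋯ aⁿ⁻¹ x a¹⁻ⁿ` -/
def dprod (a : H) (n : ℕ) (x : H) : H := (x * a) ^ n * (a ^ n)⁻¹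

theorem dprod_zero (a x : H) : dprod a 0 x = 1 := by simp [dprod]

theorem dprod_succ (a : H) (n : ℕ) (x : H) :
    dprod a (n + 1) x = dprod a n x * (a ^ n * x * (a ^ n)⁻¹) := by
  simp only [dprod, pow_succ]; group

theorem dprod_succ' (a : H) (n : ℕ) (x : H) :
    dprod a (n + 1) x = x * (a * dprod a n x * a⁻¹) := by
  rw [dprod, dprod, pow_succ', pow_succ' a]; group

theorem dprod_mem {a x : H} {R : Subgroup H} {n : ℕ} (h : ∀ i < n, a ^ i * x * (a ^ i)⁻¹ ∈ R) :
    dprod a n x ∈ R := by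
  induction n with
  | zero => rw [dprod_zero]; exact R.one_mem
  | succ n ih =>
    rw [dprod_succ]
    exact R.mul_mem (ih fun i hi => h i (Nat.lt_succ_of_lt hi)) (h n (Nat.lt_succ_self n))

theorem conj_dprod {a b : H} (h : Commute b a) (n : ℕ) (x : H) :
    b * dprod a n x * b⁻¹ = dprod a n (b * x * b⁻¹) := by
  have h1 : b * x * b⁻¹ * a = b * (x * a) * b⁻¹ := by
    rw [mul_assoc (b * x), h.inv_left.eq]; group
  rw [dprod, dprod, h1, conj_pow, mul_assoc _ b⁻¹, (h.inv_left.pow_right n).inv_right.eq]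
  group

theorem dprod_mul {a x y : H} {n : ℕ}
    (h : ∀ i j, i < j → j < n → Commute (a ^ i * y * (a ^ i)⁻¹) (a ^ j * x * (a ^ j)⁻¹)) :
    dprod a n (x * y) = dprod a n x * dprod a n y := by
  induction n with
  | zero => simp [dprod_zero]
  | succ n ih =>
    have h1 : dprod a n y ∈ centralizer {a ^ n * x * (a ^ n)⁻¹} :=
      dprod_mem fun i hi => mem_centralizer_singleton_iff.2 (h i n hi (Nat.lt_succ_self n)).eq
    rw [dprod_succ, dprod_succ, dprod_succ, ih fun i j hi hj => h i j hi (Nat.lt_succ_of_lt hj),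
      mul_assoc (dprod a n x) (_ * _ * _), ← mul_assoc (_ * _ * _) (dprod a n y),
      ← mem_centralizer_singleton_iff.1 h1]
    group

theorem commute_of_cj_le {K : Subgroup H} {g h x y : H}
    (hc : cj (g⁻¹ * h) K ≤ centralizer (K : Set H)) (hx : x ∈ cj g K) (hy : y ∈ cj h K) :
    Commute x y := by
  rw [mem_cj] at hx hy
  have h1 := hc (show (g⁻¹ * y * g) ∈ cj (g⁻¹ * h) K by
    rw [mem_cj]; simpa [mul_assoc] using hy) _ hx
  have h2 : g⁻¹ * (x * y) * g = g⁻¹ * (y * x) * g := by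
    simpa [mul_assoc] using h1
  exact mul_left_cancel (mul_right_cancel h2)

theorem not_mem_centralizer_cj {K : Subgroup H} {g x : H} (h : x ∉ centralizer (K : Set H)) :
    g * x * g⁻¹ ∉ centralizer ((cj g K : Subgroup H) : Set H) := by
  rwa [← cj_centralizer, conj_mem_cj_iff]

theorem isQuasisimple_cj {K : Subgroup H} (h : IsQuasisimple K) (g : H) :
    IsQuasisimple (cj g K) :=
  (H52.isQuasisimple_map_iff_of_injective (MulAut.conj g).injective).2 h

end Diag

variable {H : Type*} {W : Type*} [Group H] [AddCommGroup W] [DistribMulAction H W] {p : ℕ}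

/-- the range of `y - 1` for `y = x⁻¹ (a x a⁻¹)` is fixed by whatever fixes `[W, a]` and commutes
with `x` -/
theorem mem_ctr_range_comm {a x g : H} (hg : g ∈ ctr H (dl W a).range) (hc : Commute g x) :
    g ∈ ctr H (dl W (x⁻¹ * (a * x * a⁻¹))).range := by
  rintro _ ⟨w, rfl⟩
  have h1 : dl W (x⁻¹ * (a * x * a⁻¹)) w = x⁻¹ • dl W a (x • a⁻¹ • w) - dl W a (a⁻¹ • w) := by
    simp only [dl_apply, mul_smul, smul_sub, inv_smul_smul, smul_inv_smul]; abel
  rw [h1, smul_sub, hg _ ⟨_, rfl⟩, ← mul_smul, hc.inv_right.eq, mul_smul, hg _ ⟨_, rfl⟩]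

theorem cm_le_fix_of_diag {K J : Subgroup H} (hK : IsQuasisimple K) (hJ : IsQuasisimple J)
    {a x j g : H} (hKa : cj a K ≤ centralizer (K : Set H)) (h1 : K ≤ centralizer (J : Set H))
    (h2 : cj a K ≤ centralizer (J : Set H)) (hx : x ∈ K) (hxc : x ∉ centralizer (K : Set H))
    (hj : j ∈ J) (hjc : j ∉ centralizer (J : Set H)) (hg : g ∈ centralizer (J : Set H))
    (hC : j * g ∈ ctr H (dl W a).range) (hc : Commute (j * g) x) :
    cm W K ≤ fix W J ∧ cm W (cj a K) ≤ fix W J := by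
  have hx' : a * x * a⁻¹ ∈ cj a K := conj_mem_cj hx
  have hy : x⁻¹ * (a * x * a⁻¹) ∈ centralizer (J : Set H) := mul_mem (inv_mem (h1 hx)) (h2 hx')
  have h3 : J ≤ ctr H (dl W (x⁻¹ * (a * x * a⁻¹))).range :=
    qs_le_of_mul_mem hJ (fun k hk => nrm_le_normalizer_ctr _ (mem_nrm_range_dl (hy k hk).symm))
      hj hjc hg (mem_ctr_range_comm hC hc)
  have h4 : x⁻¹ * (a * x * a⁻¹) ∈ cst H (fix W J) := fun w => le_ctr_iff.1 h3 ⟨w, rfl⟩
  constructor
  · exact cm_le_iff.2 (qs_le_of_mul_mem hK (fun k hk => nrm_le_normalizer_cst' _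
      (mem_nrm_fix_of_mem_centralizer (h1 hk))) (K.inv_mem hx) (fun h => hxc (inv_mem_iff.1 h))
      (hKa hx') h4)
  · rw [(hKa hx' _ (K.inv_mem hx))] at h4
    exact cm_le_iff.2 (qs_le_of_mul_mem (isQuasisimple_cj hK a) (fun k hk => nrm_le_normalizer_cst' _
      (mem_nrm_fix_of_mem_centralizer (h2 hk))) hx' (not_mem_centralizer_cj hxc)
      (fun k hk => (hKa hk _ (K.inv_mem hx)).symm) h4)

/-- the hypotheses of the `P(G,V)`-theorem after the first reductions -/
structure PGV (p : ℕ) (W : Type*) [AddCommGroup W] [DistribMulAction H W] (K A : Subgroup H) :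
    Prop where
  hp : ∀ w : W, p • w = 0
  qs : IsQuasisimple K
  el : IsElementaryAbelian p A
  com : ∀ a ∈ A, a ∈ normalizer (K : Set H) ∨ cj a K ≤ centralizer (K : Set H)
  cA : ∀ a ∈ A, a ∈ centralizer (K : Set H) → a = 1
  best : ∀ B ≤ A, Nat.card B * Nat.card (fix W B) ≤ Nat.card A * Nat.card (fix W A)
  nt : fix W K ≠ ⊤

namespace PGV

variable {K A : Subgroup H}

theorem commute (h : PGV p W K A) {a b : H} (ha : a ∈ A) (hb : b ∈ A) : Commute a b :=
  congrArg Subtype.val (h.el.1.is_comm.comm ⟨a, ha⟩ ⟨b, hb⟩)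

theorem isPGroup (h : PGV p W K A) : IsPGroup p A := fun a =>
  ⟨1, Subtype.ext (by simpa using h.el.2 a a.2)⟩

theorem cj_le (h : PGV p W K A) {a : H} (ha : a ∈ A) (hn : a ∉ normalizer (K : Set H)) :
    cj a K ≤ centralizer (K : Set H) := (h.com a ha).resolve_left hn

theorem not_smul_eq (h : PGV p W K A) {a : H} (ha : a ∈ A) (hn : a ∉ normalizer (K : Set H)) :
    ¬ ∀ w : W, a • w = w := fun h0 => by
  obtain ⟨x, hx, hxc⟩ := SetLike.not_le_iff_exists.1 (H52.IsQuasisimple.not_le_centralizer h.qs)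
  have hN : K ≤ normalizer ((ctr H (⊤ : AddSubgroup W) : Subgroup H) : Set H) :=
    le_nrm_top.trans (nrm_le_normalizer_ctr _)
  refine h.nt (top_le_iff.1 (le_ctr_iff.1 (qs_le_of_mul_mem h.qs hN (K.inv_mem hx)
    (fun h => hxc (inv_mem_iff.1 h)) (h.cj_le ha hn (conj_mem_cj hx)) fun w _ => ?_)))
  rw [mul_smul, mul_smul, mul_smul, h0, inv_smul_smul, inv_smul_eq_iff, h0]

variable [Fact p.Prime]

theorem pow_not_mem (h : PGV p W K A) {a : H} (ha : a ∈ A) (hn : a ∉ normalizer (K : Set H))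
    {i : ℕ} (h0 : 0 < i) (hi : i < p) : a ^ i ∉ normalizer (K : Set H) := fun hm => by
  have h1 : orderOf a = p := orderOf_eq_prime (h.el.2 a ha) (fun e => hn (e ▸ one_mem _))
  refine hn ((zpowers_le.2 hm) (mem_zpowers_pow_iff.2 ?_))
  rw [h1]
  exact (Nat.coprime_of_lt_prime h0.ne' hi Fact.out).symm

theorem commute_conj (h : PGV p W K A) {a : H} (ha : a ∈ A) (hn : a ∉ normalizer (K : Set H))
    {i j : ℕ} (hij : i < j) (hj : j < p) {x y : H} (hx : x ∈ cj (a ^ i) K)
    (hy : y ∈ cj (a ^ j) K) : Commute x y := by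
  refine commute_of_cj_le ?_ hx hy
  obtain ⟨k, rfl⟩ := Nat.exists_eq_add_of_lt hij
  rw [add_assoc, pow_add, inv_mul_cancel_left]
  exact h.cj_le (A.pow_mem ha _) (h.pow_not_mem ha hn (Nat.succ_pos k) (by omega))

/-- the diagonal map -/
def dg (h : PGV p W K A) {a : H} (ha : a ∈ A) (hn : a ∉ normalizer (K : Set H)) : K →* H :=
  MonoidHom.mk' (fun x => dprod a p x) fun x y => dprod_mul fun _ _ hij hj =>
    h.commute_conj ha hn hij hj (conj_mem_cj y.2) (conj_mem_cj x.2)

theorem dprod_eq (h : PGV p W K A) (a x : H) :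
    dprod a p x = x * (a * dprod a (p - 1) x * a⁻¹) := by
  rw [← dprod_succ', Nat.sub_add_cancel (Fact.out : p.Prime).pos]

theorem rest_mem {a x : H} (hx : x ∈ K) {R : Subgroup H}
    (hR : ∀ i, 0 < i → i < p → cj (a ^ i) K ≤ R) : a * dprod a (p - 1) x * a⁻¹ ∈ R := by
  suffices h : dprod a (p - 1) x ∈ cj a⁻¹ R by rwa [mem_cj, inv_inv] at h
  refine dprod_mem fun i hi => ?_
  rw [mem_cj, inv_inv]
  have := hR (i + 1) (Nat.succ_pos i) (by omega) (conj_mem_cj hx)
  simpa [pow_succ', mul_assoc] using this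

theorem rest_mem_centralizer (h : PGV p W K A) {a x : H} (ha : a ∈ A)
    (hn : a ∉ normalizer (K : Set H)) (hx : x ∈ K) :
    a * dprod a (p - 1) x * a⁻¹ ∈ centralizer (K : Set H) :=
  rest_mem hx fun _ h0 hi => h.cj_le (A.pow_mem ha _) (h.pow_not_mem ha hn h0 hi)

theorem commute_dprod_self (h : PGV p W K A) {a x : H} (ha : a ∈ A)
    (hn : a ∉ normalizer (K : Set H)) (hx : x ∈ K) : Commute (dprod a p x) x := by
  rw [h.dprod_eq]
  exact (Commute.refl x).mul_left (h.rest_mem_centralizer ha hn hx x hx).symm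

theorem commute_dprod (h : PGV p W K A) {a x : H} (ha : a ∈ A)
    (hn : a ∉ normalizer (K : Set H)) (hx : x ∈ K) : Commute a (dprod a p x) := by
  have h1 : Commute (x * a) (dprod a p x) := by
    rw [dprod, h.el.2 a ha, inv_one, mul_one]
    exact Commute.self_pow _ _
  have := (h.commute_dprod_self ha hn hx).symm.inv_left.mul_left h1
  rwa [inv_mul_cancel_left] at this

variable [Finite H] [Finite W]

/-- the diagonal centralizes `[W, a]` -/
theorem dprod_mem_ctr (h : PGV p W K A) {a : H} (ha : a ∈ A) (hn : a ∉ normalizer (K : Set H))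
    {x : H} (hx : x ∈ K) : dprod a p x ∈ ctr H (dl W a).range := by
  have hperf := H52.IsQuasisimple.commutator_self h.qs
  have hN : ∀ x : K, h.dg ha hn x ∈ nrm H (dl W a).range := fun x =>
    mem_nrm_range_dl (h.commute_dprod ha hn x.2)
  obtain ⟨B, hBA, hB0, hB1, hB2⟩ := exists_timmesfeld h.hp h.el.1 h.isPGroup h.best
    (fun e => h.not_smul_eq ha hn fun w => e.ge (AddSubgroup.mem_top w) a ha)
  have hBC : B ≤ ctr H (dl W a).range := le_ctr_iff.2 (le_trans (by
    rintro _ ⟨w, rfl⟩; exact dl_mem_cm ha w) hB1)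
  have h1 : orderOf a = p := orderOf_eq_prime (h.el.2 a ha) (fun e => hn (e ▸ one_mem _))
  by_cases hB : B ≤ zpowers a
  · have h2 : B = zpowers a := by
      haveI : Fact (Nat.card (zpowers a)).Prime := ⟨by rw [Nat.card_zpowers, h1]; exact Fact.out⟩
      rcases (B.subgroupOf (zpowers a)).eq_bot_or_eq_top_of_prime_card with e | e
      · exact absurd (by rwa [subgroupOf_eq_bot, disjoint_iff, inf_eq_left.2 hB] at e) hB0
      · exact le_antisymm hB (subgroupOf_eq_top.1 e)
    have h3 : Nat.card (dl W a).range ≤ p := by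
      have e1 := card_range_dl_mul (W := W) a
      have e2 := h.best ⊥ bot_le
      rw [← hB2, h2, Nat.card_zpowers, h1, fix_bot, card_bot, one_mul, AddSubgroup.card_top,
        ← e1] at e2
      exact Nat.le_of_mul_le_mul_right e2 Nat.card_pos
    have h4 : ∀ g ∈ nrm H (dl W a).range, ∀ w ∈ (dl W a).range, ∃ m : ℤ, g • w = m • w := by
      intro g hg w hw
      by_cases h0 : w = 0
      · exact ⟨0, by simp [h0]⟩
      have : AddSubgroup.zmultiples w = (dl W a).range :=
        add_eq_of_le_of_card_ge (AddSubgroup.zmultiples_le.2 hw) (by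
          rwa [Nat.card_zmultiples, addOrderOf_eq_prime (h.hp w) h0])
      obtain ⟨m, hm⟩ := this.ge (smul_mem_of_mem_nrm hg hw)
      exact ⟨m, hm.symm⟩
    refine perfect_le_of_comm_mem hperf (h.dg ha hn) (fun x y => ?_) ⟨x, hx⟩
    intro w hw
    obtain ⟨m, hm⟩ := h4 _ (inv_mem (hN x)) w hw
    obtain ⟨n, hn'⟩ := h4 _ (inv_mem (hN y)) w hw
    have : (h.dg ha hn x)⁻¹ • (h.dg ha hn y)⁻¹ • w = (h.dg ha hn y)⁻¹ • (h.dg ha hn x)⁻¹ • w := by
      rw [hm, hn', smul_comm _ n, smul_comm _ m, hm, hn', smul_comm]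
    rw [commutatorElement_def, mul_smul, mul_smul, mul_smul, this, smul_inv_smul, smul_inv_smul]
  obtain ⟨b, hb, hba⟩ := SetLike.not_le_iff_exists.1 hB
  have hbC : ∀ x : K, h.dg ha hn x * (b * (h.dg ha hn x)⁻¹ * b⁻¹) ∈ ctr H (dl W a).range := by
    intro x
    have := mul_mem (conj_mem_of_mem_normalizer (nrm_le_normalizer_ctr _ (hN x)) (hBC hb))
      (inv_mem (hBC hb))
    simpa [mul_assoc] using this
  by_cases hi : ∃ i : ℤ, a ^ i * b ∈ normalizer (K : Set H)
  · obtain ⟨i, hi⟩ := hi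
    have hbA : a ^ i * b ∈ A := A.mul_mem (A.zpow_mem ha i) (hBA hb)
    let K₀ : Subgroup H := ((ctr H (dl W a).range).comap (h.dg ha hn)).map K.subtype
    have hK₀ : ∀ x : K, (x : H) ∈ K₀ ↔ h.dg ha hn x ∈ ctr H (dl W a).range := fun x =>
      ⟨fun ⟨y, hy, e⟩ => (Subtype.ext e : y = x) ▸ hy, fun hx => ⟨x, hx, rfl⟩⟩
    refine (hK₀ ⟨x, hx⟩).1 (qs_le_of_comm_mem h.qs (le_normalizer_of_conj_mem ?_) hi
      (fun hc => hba ?_) (fun k hk => ?_) hx)
    · rintro k hk _ ⟨c, hc, rfl⟩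
      refine (hK₀ (⟨k, hk⟩ * c * ⟨k, hk⟩⁻¹)).2 ?_
      rw [map_mul, map_mul, map_inv]
      exact conj_mem_of_mem_normalizer (nrm_le_normalizer_ctr _ (hN _)) hc
    · rw [eq_inv_of_mul_eq_one_right (h.cA _ hbA hc)]
      exact inv_mem (zpow_mem (mem_zpowers a) i)
    · have hk' : (a ^ i * b) * k⁻¹ * (a ^ i * b)⁻¹ ∈ K :=
        conj_mem_of_mem_normalizer hi (K.inv_mem hk)
      have e1 : ⁅k, a ^ i * b⁆ = ((⟨k, hk⟩ * ⟨_, hk'⟩ : K) : H) := by
        simp only [commutatorElement_def, coe_mul, mul_assoc]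
      rw [e1, hK₀, map_mul]
      have e2 : h.dg ha hn ⟨_, hk'⟩ = b * (h.dg ha hn ⟨k, hk⟩)⁻¹ * b⁻¹ := by
        rw [← map_inv]
        show dprod a p _ = b * dprod a p k⁻¹ * b⁻¹
        rw [← conj_dprod (h.commute hbA ha), ((h.commute ha (hBA hb)).zpow_left i).eq,
          mul_assoc b, ((h.commute_dprod ha hn (K.inv_mem hk)).zpow_left i).eq]
        group
      rw [e2]
      exact hbC _
  · push Not at hi
    have h2 : ∀ x y : K, Commute (h.dg ha hn y) (b * h.dg ha hn x * b⁻¹) := by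
      intro x y
      show Commute (dprod a p y) (b * dprod a p x * b⁻¹)
      rw [conj_dprod (h.commute (hBA hb) ha)]
      refine mem_centralizer_singleton_iff.1 (dprod_mem fun i _ => ?_)
      rw [mem_centralizer_singleton_iff]
      refine (mem_centralizer_singleton_iff.1 (dprod_mem fun j _ => ?_)).symm
      rw [mem_centralizer_singleton_iff]
      refine (commute_of_cj_le (K := K) (g := a ^ i) (h := a ^ j * b) ?_ (conj_mem_cj y.2) ?_).symm
      · have e : (a ^ i)⁻¹ * (a ^ j * b) = a ^ (-(i : ℤ) + j) * b := by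
          rw [zpow_add, zpow_neg, zpow_natCast, zpow_natCast, mul_assoc]
        rw [e]
        exact h.cj_le (A.mul_mem (A.zpow_mem ha _) (hBA hb)) (hi _)
      · simpa [mul_assoc] using conj_mem_cj (g := a ^ j * b) x.2
    refine perfect_le_of_comm_mem hperf (h.dg ha hn) (fun y x => ?_) ⟨x, hx⟩
    have h3 := mul_mem (conj_mem_of_mem_normalizer (nrm_le_normalizer_ctr _ (hN y)) (hbC x))
      (inv_mem (hbC x))
    have h4 := (h2 x⁻¹ y⁻¹).symm.eq
    rw [map_inv, map_inv] at h4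
    rw [← mul_assoc, mul_assoc _ _ (h.dg ha hn y)⁻¹, h4] at h3
    simpa [commutatorElement_def, mul_assoc] using h3

theorem not_forall_cm_le (h : PGV p W K A) {a : H} (ha : a ∈ A) (hn : a ∉ normalizer (K : Set H))
    (h1 : ∀ i, 0 < i → i < p → cm W K ≤ fix W (cj (a ^ i) K)) : False := by
  have hperf := H52.IsQuasisimple.commutator_self h.qs
  have h2 : cm W K ≤ fix W K := fun v hv => mem_fix_of_perfect hperf fun x hx => by
    have h3 : dprod a p x • v = x • v := by
      rw [h.dprod_eq, mul_smul, rest_mem hx (R := ctr H (cm W K))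
        (fun i h0 hi => le_ctr_iff.2 (h1 i h0 hi)) v hv]
    have h4 := h.dprod_mem_ctr ha hn hx _ ⟨v, rfl⟩
    rw [← dl_smul_of_commute (h.commute_dprod ha hn hx), h3] at h4
    have h5 : a • dl W x v = dl W x v := by
      rw [dl_apply, dl_apply] at h4
      rw [dl_apply, smul_sub, sub_eq_sub_iff_sub_eq_sub, h4]
    have h6 := h1 1 one_pos (Fact.out : p.Prime).one_lt (dl_mem_cm hx v)
    rwa [pow_one, ← h5, smul_mem_fix_cj] at h6
  exact h.nt (top_le_iff.1 fun v _ => mem_fix_of_perfect hperf fun x hx => h2 (dl_mem_cm hx v))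

theorem eq_two (h : PGV p W K A) {a : H} (ha : a ∈ A) (hn : a ∉ normalizer (K : Set H)) :
    p = 2 := by
  by_contra h2
  have h3 : 2 < p := lt_of_le_of_ne (Fact.out : p.Prime).two_le (Ne.symm h2)
  obtain ⟨x, hx, hxc⟩ := SetLike.not_le_iff_exists.1 (H52.IsQuasisimple.not_le_centralizer h.qs)
  have key : ∀ i, 1 < i → i < p →
      cm W K ≤ fix W (cj (a ^ i) K) ∧ cm W (cj a K) ≤ fix W (cj (a ^ i) K) := by
    intro i h1 hi
    have e : a ^ i * x * (a ^ i)⁻¹ * (a ^ i * (a * dprod a (p - 1) x * a⁻¹) * (a ^ i)⁻¹) =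
        dprod a p x := by
      rw [← mul_inv_cancel_right (dprod a p x) (a ^ i),
        ← ((h.commute_dprod ha hn hx).pow_left i).eq, h.dprod_eq]
      group
    refine cm_le_fix_of_diag h.qs (isQuasisimple_cj h.qs _) (h.cj_le ha hn)
      (fun k hk y hy => (h.commute_conj ha hn (i := 0) (by omega) hi
        (by rwa [pow_zero, cj_one]) hy).symm)
      (fun k hk y hy => (h.commute_conj ha hn h1 hi (by rwa [pow_one]) hy).symm) hx hxc
      (conj_mem_cj hx) (not_mem_centralizer_cj hxc)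
      (g := a ^ i * (a * dprod a (p - 1) x * a⁻¹) * (a ^ i)⁻¹) ?_ ?_ ?_
    · rw [← cj_centralizer]
      exact conj_mem_cj (h.rest_mem_centralizer ha hn hx)
    · rw [e]; exact h.dprod_mem_ctr ha hn hx
    · rw [e]; exact h.commute_dprod_self ha hn hx
  refine h.not_forall_cm_le ha hn fun i h0 hi => ?_
  by_cases h1 : 1 < i
  · exact (key i h1 hi).1
  · have := cm_cj_le_fix_cj (g := a⁻¹) (key 2 one_lt_two h3).2
    rwa [cj_inv_cj, ← cj_mul, pow_two, inv_mul_cancel_left, ← pow_one a,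
      show 1 = i by omega] at this

theorem mul_mem_normalizer (h : PGV 2 W K A) {a b : H} (ha : a ∈ A)
    (hn : a ∉ normalizer (K : Set H)) (hb : b ∈ A) (hn' : b ∉ normalizer (K : Set H)) :
    a * b ∈ normalizer (K : Set H) := by
  by_contra hab
  obtain ⟨x, hx, hxc⟩ := SetLike.not_le_iff_exists.1 (H52.IsQuasisimple.not_le_centralizer h.qs)
  have hinv : a⁻¹ = a := inv_eq_of_mul_eq_one_right (by rw [← pow_two]; exact h.el.2 a ha)
  have h1 : cj (a⁻¹ * b) K ≤ centralizer (K : Set H) := by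
    rw [hinv]; exact h.cj_le (A.mul_mem ha hb) hab
  have e : a * x * a⁻¹ * (a * (b * x * b⁻¹) * a⁻¹) = a * dprod b 2 x * a⁻¹ := by
    rw [dprod_succ', dprod_succ', dprod_zero]; group
  have h2 : a * (b * x * b⁻¹) * a⁻¹ ∈ cj (a * b) K := by
    simpa [mul_assoc] using conj_mem_cj (g := a * b) hx
  refine h.not_forall_cm_le ha hn fun i h0 hi => ?_
  rw [show i = 1 by omega, pow_one]
  refine (cm_le_fix_of_diag h.qs (isQuasisimple_cj h.qs a) (h.cj_le hb hn')
    (fun k hk y hy => (h.cj_le ha hn hy k hk).symm)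
    (fun k hk y hy => commute_of_cj_le h1 hy hk) hx hxc (conj_mem_cj hx)
    (not_mem_centralizer_cj hxc) (g := a * (b * x * b⁻¹) * a⁻¹) ?_ ?_ ?_).1
  · rw [← cj_centralizer]
    exact conj_mem_cj (h.cj_le hb hn' (conj_mem_cj hx))
  · rw [e]
    exact conj_mem_of_mem_normalizer (nrm_le_normalizer_ctr _
      (mem_nrm_range_dl (h.commute hb ha))) (h.dprod_mem_ctr hb hn' hx)
  · exact Commute.mul_left (h.cj_le ha hn (conj_mem_cj hx) x hx).symm
      (h.cj_le (A.mul_mem ha hb) hab h2 x hx).symm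

end PGV

end Cfsg.Agent.H85
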