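import Mathlib
import Cfsg.Agent.H85.PGV
import Cfsg.Agent.H9.BaerSuzuki

/-!
The `P(G,V)`-theorem, second part: the case `p = 2` with two components interchanged.
-/

set_option autoImplicit false
set_option maxHeartbeats 400000

namespace Cfsg.Agent.H85

open Subgroup
open scoped commutatorElement

section Grp
variable {H : Type*} [Group H] [Finite H]

theorem exists_coprime_not_mem_centralizer (p : ℕ) [Fact p.Prime] {K : Subgroup H}
    (hK : IsQuasisimple K) :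
    ∃ w ∈ K, w ∉ centralizer (K : Set H) ∧ (orderOf w).Coprime p := by
  by_contra h
  push Not at h
  refine H52.IsQuasisimple.not_le_centralizer hK ((resOf_eq_self_of_isQuasisimple (p := p) hK).ge.trans
    (resOf_le_iff.2 fun x hx hc => ?_))
  by_contra hn
  exact h x hx hn hc

/-- a subgroup containing the noncentral `p'`-elements of a quasisimple group contains it -/
theorem qs_le_of_forall_coprime (p : ℕ) [Fact p.Prime] {K N : Subgroup H} (hK : IsQuasisimple K)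
    (h : ∀ w ∈ K, w ∉ centralizer (K : Set H) → (orderOf w).Coprime p → w ∈ N) : K ≤ N := by
  obtain ⟨w, hw, hwc, hwo⟩ := exists_coprime_not_mem_centralizer p hK
  let C : Subgroup H := ⨅ k : K, cj (k : H) N
  have hC : ∀ x, x ∈ C ↔ ∀ k ∈ K, k⁻¹ * x * k ∈ N := fun x => by
    simp only [C, mem_iInf, mem_cj, Subtype.forall]
  have h1 : K ≤ C := qs_le_of_mem hK (le_normalizer_of_conj_mem fun k hk c hc => (hC _).2
    fun l hl => by
      simpa [mul_assoc] using (hC c).1 hc (k⁻¹ * l) (K.mul_mem (K.inv_mem hk) hl)) hw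
    ((hC w).2 fun k hk => h _ (K.mul_mem (K.mul_mem (K.inv_mem hk) hw) hk) (fun hc => hwc (by
      have := conj_mem_of_mem_normalizer
        (normalizer_le_normalizer_centralizer K (le_normalizer hk)) hc
      simpa [mul_assoc] using this)) (by
      have := (MulAut.conj k⁻¹).orderOf_eq w
      rw [MulAut.conj_apply, inv_inv] at this
      rwa [this])) hwc
  intro x hx
  simpa using (hC x).1 (h1 hx) 1 K.one_mem

theorem exists_odd_inverted {K : Subgroup H} (hK : IsQuasisimple K) {b : H}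
    (hb : b ∈ normalizer (K : Set H)) (hb2 : b * b = 1) (hc : b ∉ centralizer (K : Set H)) :
    ∃ w ∈ K, w ∉ centralizer (K : Set H) ∧ (orderOf w).Coprime 2 ∧ b * w * b⁻¹ = w⁻¹ := by
  haveI : Fact (Nat.Prime 2) := ⟨Nat.prime_two⟩
  let L : Subgroup H := K ⊔ zpowers b
  have hL : L ≤ normalizer (K : Set H) := sup_le le_normalizer (zpowers_le.2 hb)
  have hKL : K ≤ L := le_sup_left
  have hbL : b ∈ L := mem_sup_right (mem_zpowers b)
  let N : Subgroup L := (centralizer (K : Set H)).subgroupOf L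
  haveI : N.Normal :=
    normal_subgroupOf_of_le_normalizer (hL.trans (normalizer_le_normalizer_centralizer K))
  let π := QuotientGroup.mk' N
  have hπ : ∀ l : L, π l = 1 ↔ (l : H) ∈ centralizer (K : Set H) := fun l =>
    QuotientGroup.eq_one_iff l
  have ht : π ⟨b, hbL⟩ * π ⟨b, hbL⟩ = 1 := by
    rw [← map_mul, show (⟨b, hbL⟩ * ⟨b, hbL⟩ : L) = 1 from Subtype.ext hb2, map_one]
  have ht' : π ⟨b, hbL⟩ ∉ pCore 2 (L ⧸ N) := fun hm => by
    let C : Subgroup H := ((pCore 2 (L ⧸ N)).comap π).map L.subtype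
    have hC : ∀ l : L, (l : H) ∈ C ↔ π l ∈ pCore 2 (L ⧸ N) := fun l =>
      ⟨fun ⟨y, hy, e⟩ => (Subtype.ext e : y = l) ▸ hy, fun hx => ⟨l, hx, rfl⟩⟩
    have h1 : K ≤ C := qs_le_of_comm_mem hK (le_normalizer_of_conj_mem (by
      rintro k hk _ ⟨c, hc, rfl⟩
      refine (hC (⟨k, hKL hk⟩ * c * ⟨k, hKL hk⟩⁻¹)).2 ?_
      rw [map_mul, map_mul, map_inv]
      exact Normal.conj_mem inferInstance _ hc _)) hb hc fun k hk => by
        refine (hC ⁅(⟨k, hKL hk⟩ : L), ⟨b, hbL⟩⁆).2 ?_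
        rw [map_commutatorElement, commutatorElement_def]
        exact mul_mem (Normal.conj_mem inferInstance _ hm _) (inv_mem hm)
    refine H52.IsQuasisimple.not_le_centralizer hK
      ((resOf_eq_self_of_isQuasisimple (p := 2) hK).ge.trans (resOf_le_of_pquot fun x hx => ?_))
    obtain ⟨k, hk⟩ := pCore_isPGroup 2 _ ⟨_, (hC ⟨x, hKL hx⟩).1 (h1 hx)⟩
    refine ⟨k, (hπ (⟨x, hKL hx⟩ ^ 2 ^ k)).1 ?_⟩
    rw [map_pow]
    exact congrArg Subtype.val hk
  obtain ⟨a, ha1, ha2, ha3⟩ := H9.exists_odd_inverted_of_not_mem_pCore ht ht'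
  obtain ⟨l, rfl⟩ : ∃ l, π l = a := QuotientGroup.mk'_surjective N a
  have hl : (l : H) * l ∈ K := by
    obtain ⟨k, hk, c, hc, e⟩ := (mem_sup_of_le_normalizer (zpowers_le.2 hb)).1 l.2
    have h2 : c * c = 1 := by
      obtain ⟨i, rfl⟩ := hc
      show b ^ i * b ^ i = 1
      rw [← (Commute.refl b).mul_zpow, hb2, one_zpow]
    have h3 : (l : H) * l = k * (c * k * c⁻¹) := by
      rw [← e, inv_eq_of_mul_eq_one_right h2]; group
    rw [h3]
    exact K.mul_mem hk (conj_mem_of_mem_normalizer (zpowers_le.2 hb hc) hk)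
  let z : L := (l * l)⁻¹ * (⟨b, hbL⟩ * (l * l) * ⟨b, hbL⟩⁻¹)
  have hz : (z : H) ∈ K := K.mul_mem (K.inv_mem hl) (conj_mem_of_mem_normalizer hb hl)
  have hz2 : b * z * b⁻¹ = (z : H)⁻¹ := by
    show b * (((l : H) * l)⁻¹ * (b * (l * l) * b⁻¹)) * b⁻¹ =
      (((l : H) * l)⁻¹ * (b * (l * l) * b⁻¹))⁻¹
    simp only [mul_assoc, hb2, mul_one, inv_inv, mul_inv_rev,
      inv_eq_of_mul_eq_one_right hb2]
  have hz3 : π z = ((π l) ^ 4)⁻¹ := by
    simp only [z, map_mul, map_inv]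
    have : π ⟨b, hbL⟩ * (π l * π l) * (π ⟨b, hbL⟩)⁻¹ = (π l)⁻¹ * (π l)⁻¹ := by
      conv_rhs => rw [← ha3]
      group
    rw [this]; group
  obtain ⟨k, hk⟩ := exists_pow_coprime (p := 2) (isOfFinOrder_of_finite (z : H))
  refine ⟨_, K.pow_mem hz _, fun hc => ha1 ?_, hk, by rw [← conj_pow, hz2, inv_pow]⟩
  have := (hπ (z ^ 2 ^ k)).2 hc
  rw [map_pow, hz3, inv_pow, inv_eq_one, ← pow_mul, show 4 * 2 ^ k = 2 ^ (k + 2) by ring] at this
  exact mem_bot.1 (mem_of_pow_mem_of_coprime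
    ((Nat.coprime_two_right.2 ha2).pow_right (k + 2)) (mem_bot.2 this))

end Grp

variable {H : Type*} {W : Type*} [Group H] [AddCommGroup W] [DistribMulAction H W]

theorem range_dl_comm_le (a x : H) : (dl W (x⁻¹ * (a * x * a⁻¹))).range ≤
    (dl W a).range ⊔ (dl W a).range.map (DistribMulAction.toAddMonoidHom W x⁻¹) := by
  rintro _ ⟨w, rfl⟩
  have h1 : dl W (x⁻¹ * (a * x * a⁻¹)) w = -dl W a (a⁻¹ • w) + x⁻¹ • dl W a (x • a⁻¹ • w) := by
    simp only [dl_apply, mul_smul, smul_sub, inv_smul_smul, smul_inv_smul]; abel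
  rw [h1]
  exact AddSubgroup.add_mem_sup (neg_mem ⟨_, rfl⟩) ⟨_, ⟨_, rfl⟩, rfl⟩

namespace PGV

variable {K A : Subgroup H}

theorem add_self (h : PGV 2 W K A) (w : W) : w + w = 0 := by rw [← two_nsmul]; exact h.hp w

theorem neg_eq (h : PGV 2 W K A) (w : W) : -w = w := neg_eq_of_add_eq_zero_right (h.add_self w)

theorem mul_self (h : PGV 2 W K A) {a : H} (ha : a ∈ A) : a * a = 1 := by
  rw [← pow_two]; exact h.el.2 a ha

theorem smul_dl_self (h : PGV 2 W K A) {a : H} (ha : a ∈ A) (w : W) :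
    a • dl W a w = dl W a w := by
  rw [dl_apply, smul_sub, ← mul_smul, h.mul_self ha, one_smul, ← neg_sub, h.neg_eq]

variable [Finite H] [Finite W]

theorem diag_mem (h : PGV 2 W K A) {a : H} (ha : a ∈ A) (hn : a ∉ normalizer (K : Set H))
    {x : H} (hx : x ∈ K) : x * (a * x * a⁻¹) ∈ ctr H (dl W a).range := by
  have := h.dprod_mem_ctr ha hn hx
  rwa [dprod_succ', dprod_succ', dprod_zero, mul_one, mul_inv_cancel, mul_one] at this

theorem commute_conj' (h : PGV 2 W K A) {a : H} (ha : a ∈ A) (hn : a ∉ normalizer (K : Set H))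
    {x k : H} (hx : x ∈ K) (hk : k ∈ K) : Commute k (a * x * a⁻¹) :=
  h.cj_le ha hn (conj_mem_cj hx) k hk

theorem diag_mem' (h : PGV 2 W K A) {a : H} (ha : a ∈ A) (hn : a ∉ normalizer (K : Set H))
    {x : H} (hx : x ∈ K) : x * (a * x * a⁻¹) ∈ ctr H (dl W (x⁻¹ * (a * x * a⁻¹))).range :=
  mem_ctr_range_comm (h.diag_mem ha hn hx)
    ((Commute.refl x).mul_left (h.commute_conj' ha hn hx hx).symm)

theorem tau (h : PGV 2 W K A) {a : H} (ha : a ∈ A) (hn : a ∉ normalizer (K : Set H))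
    {x : H} (hx : x ∈ K) (u : W) :
    (a * x * a⁻¹) • u + (a * x * a⁻¹)⁻¹ • u = x • u + x⁻¹ • u := by
  have h1 := h.diag_mem' ha hn hx _ ⟨(a * x * a⁻¹)⁻¹ • u, rfl⟩
  have hc := h.commute_conj' ha hn hx hx
  generalize a * x * a⁻¹ = x' at h1 hc ⊢
  rw [dl_apply, smul_sub, mul_smul x⁻¹, smul_inv_smul, mul_smul x x' (x'⁻¹ • u), smul_inv_smul,
    hc.eq, mul_smul, smul_inv_smul] at h1
  rw [sub_eq_sub_iff_add_eq_add.1 h1, add_comm]

/-- the minimality of the module -/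
def Mn (W : Type*) [AddCommGroup W] [DistribMulAction H W] (K A : Subgroup H) : Prop :=
  ∀ U : AddSubgroup W, K ≤ nrm H U → A ≤ nrm H U → U = ⊤ ∨ U ≤ fix W K

theorem fpf (h : PGV 2 W K A) (hm : Mn W K A) {a : H} (ha : a ∈ A)
    (hn : a ∉ normalizer (K : Set H)) {w : H} (hw : w ∈ K) (hwc : w ∉ centralizer (K : Set H))
    (hwo : (orderOf w).Coprime 2) {u : W} (hu : w • w • u = u) : u = 0 := by
  let s : W →+ W := DistribMulAction.toAddMonoidHom W w + DistribMulAction.toAddMonoidHom W w⁻¹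
  have hs : ∀ u, s u = w • u + w⁻¹ • u := fun _ => rfl
  have h1 : ∀ k ∈ K, ∀ u, k • s u = s (k • u) := fun k hk u => by
    rw [hs, hs, ← h.tau ha hn hw, ← h.tau ha hn hw, smul_add, ← mul_smul, ← mul_smul, ← mul_smul,
      ← mul_smul, (h.commute_conj' ha hn hw hk).eq, (h.commute_conj' ha hn hw hk).inv_right.eq]
  have h2 : ∀ c ∈ A, c ∉ normalizer (K : Set H) → ∀ u, c • s u = s (c • u) := fun c hc hc' u => by
    rw [hs, hs, ← h.tau hc hc' hw (c • u)]
    simp only [smul_add, mul_inv_rev, inv_inv, mul_smul, inv_smul_smul]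
  have h3 : ∀ c ∈ A, ∀ u, c • s u = s (c • u) := fun c hc u => by
    by_cases hc' : c ∈ normalizer (K : Set H)
    · have : a⁻¹ * c ∉ normalizer (K : Set H) := fun e =>
        hn (by simpa using mul_mem hc' (inv_mem e))
      rw [← mul_inv_cancel_left a c, mul_smul, mul_smul a,
        h2 _ (A.mul_mem (A.inv_mem ha) hc) this, h2 a ha hn]
    · exact h2 c hc hc' u
  rcases hm s.range (le_nrm_iff.2 (by rintro k hk _ ⟨u, rfl⟩; exact ⟨_, (h1 k hk u).symm⟩))
    (le_nrm_iff.2 (by rintro k hk _ ⟨u, rfl⟩; exact ⟨_, (h3 k hk u).symm⟩)) with e | e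
  · have hinj : Function.Injective s :=
      Finite.injective_iff_surjective.2 (AddMonoidHom.range_eq_top.1 e)
    have : s (w • u) = s 0 := by rw [hs, hu, inv_smul_smul, h.add_self, map_zero]
    exact (smul_eq_zero_iff_eq w).1 (hinj this)
  · have h4 : ∀ u, dl W (w * w) u ∈ fix W K := fun u => by
      have := e ⟨w • u, rfl⟩
      rw [hs, inv_smul_smul, ← mul_smul] at this
      rwa [dl_apply, sub_eq_add_neg, h.neg_eq]
    have h5 : w ^ 4 ∈ ctr H (⊤ : AddSubgroup W) := fun u _ => by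
      rw [show w ^ 4 = (w * w) ^ 2 by rw [← pow_two, ← pow_mul],
        pow_smul_of_dl_dl (dl_of_mem_fix (h4 u) (K.mul_mem hw hw)), h.hp, add_zero]
    exact absurd (top_le_iff.1 (le_ctr_iff.1 (qs_le_of_mem h.qs
      (le_nrm_top.trans (nrm_le_normalizer_ctr _)) hw
      (mem_of_pow_mem_of_coprime (hwo.pow_right 2) h5) hwc))) h.nt

theorem split (h : PGV 2 W K A) (hm : Mn W K A) {a : H} (ha : a ∈ A)
    (hn : a ∉ normalizer (K : Set H)) {w : H} (hw : w ∈ K) (hwc : w ∉ centralizer (K : Set H))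
    (hwo : (orderOf w).Coprime 2) {V₁ V₂ : AddSubgroup W}
    (e₁ : V₁ = fix W (zpowers (w * (a * w * a⁻¹))))
    (e₂ : V₂ = fix W (zpowers (w⁻¹ * (a * w * a⁻¹)))) :
    V₁ ⊓ V₂ = ⊥ ∧ V₁ ⊔ V₂ = ⊤ ∧ (dl W a).range ≤ V₁ ∧ (∀ u ∈ V₂, a • u = u) ∧
      ∀ u ∈ V₁, a • u = u → u ∈ (dl W a).range := by
  have hc := h.commute_conj' ha hn hw hw
  have h1 : V₁ ⊓ V₂ = ⊥ := by
    rw [eq_bot_iff]
    intro u hu
    obtain ⟨h1, h2⟩ := AddSubgroup.mem_inf.1 hu
    rw [e₁, mem_fix_zpowers, mul_smul] at h1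
    rw [e₂, mem_fix_zpowers, mul_smul, inv_smul_eq_iff] at h2
    rw [h2] at h1
    exact h.fpf hm ha hn hw hwc hwo h1
  have h2 : (dl W (w⁻¹ * (a * w * a⁻¹))).range ≤ V₁ :=
    e₁ ▸ le_ctr_iff.1 (zpowers_le.2 (h.diag_mem' ha hn hw))
  have h3 := card_range_dl_mul (W := W) (w⁻¹ * (a * w * a⁻¹))
  have h4 := add_card_inf_mul_card_sup V₁ V₂
  rw [← e₂] at h3
  rw [h1, AddSubgroup.card_bot, one_mul] at h4
  have h5 : (dl W (w⁻¹ * (a * w * a⁻¹))).range = V₁ := by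
    refine add_eq_of_le_of_card_ge h2 (Nat.le_of_mul_le_mul_right (c := Nat.card V₂) ?_ Nat.card_pos)
    rw [h3, ← h4]
    exact add_card_le _
  have h6 : (dl W a).range ≤ V₁ := e₁ ▸ le_ctr_iff.1 (zpowers_le.2 (h.diag_mem ha hn hw))
  have h7 : ∀ u, u ∈ V₂ ↔ a • w • a⁻¹ • u = w • u := fun u => by
    rw [e₂, mem_fix_zpowers, mul_smul, inv_smul_eq_iff, mul_smul, mul_smul]
  have hinv : a⁻¹ = a := inv_eq_of_mul_eq_one_right (h.mul_self ha)
  have haa : ∀ u : W, a • a • u = u := fun u => by rw [← mul_smul, h.mul_self ha, one_smul]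
  refine ⟨h1, add_eq_top_of_card_ge (by rw [h4, ← h3, h5]), h6, fun u hu => ?_, fun u hu hau => ?_⟩
  · have h8 : a • u ∈ V₂ := (h7 _).2 (by rw [inv_smul_smul, ← (h7 u).1 hu, haa, hinv])
    have : dl W a u ∈ V₁ ⊓ V₂ := ⟨h6 ⟨u, rfl⟩, V₂.sub_mem h8 hu⟩
    rwa [h1, AddSubgroup.mem_bot, dl_eq_zero] at this
  · obtain ⟨_, ⟨α, rfl⟩, _, ⟨_, ⟨β, rfl⟩, rfl⟩, rfl⟩ :=
      AddSubgroup.mem_sup.1 (range_dl_comm_le a w (h5.ge hu))
    rw [smul_add, h.smul_dl_self ha, add_right_inj] at hau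
    have h8 : (a * w * a⁻¹)⁻¹ • dl W a β = w⁻¹ • dl W a β := by
      rw [mul_inv_rev, mul_inv_rev, inv_inv, mul_smul, mul_smul, hinv, h.smul_dl_self ha]
      exact hau
    have : dl W a β ∈ V₁ ⊓ V₂ := ⟨h6 ⟨β, rfl⟩, (h7 _).2 (by
      rw [← mul_smul, ← mul_smul, ← inv_smul_eq_iff, ← mul_smul, hc.inv_left.eq, mul_smul, ← h8,
        smul_inv_smul])⟩
    rw [h1, AddSubgroup.mem_bot] at this
    rw [this, map_zero, add_zero]
    exact ⟨α, rfl⟩

theorem inv_split (h : PGV 2 W K A) (hm : Mn W K A) {a : H} (ha : a ∈ A)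
    (hn : a ∉ normalizer (K : Set H)) {b : H} (hb : b ∈ A) (hbn : b ∈ normalizer (K : Set H))
    (hb1 : b ≠ 1) : (dl W a).range ⊓ (dl W (a * b)).range = ⊥ ∧
      (∀ u ∈ (dl W a).range, b • u = u) ∧
      fix W (zpowers b) = (dl W a).range ⊔ (dl W (a * b)).range ∧
      (dl W b).range = fix W (zpowers b) ∧ ∃ v : W, a • v = v ∧ b • v ≠ v := by
  obtain ⟨w, hw, hwc, hwo, hbw⟩ := exists_odd_inverted h.qs hbn (h.mul_self hb)
    fun e => hb1 (h.cA b hb e)
  have hab : a * b ∈ A := A.mul_mem ha hb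
  have hn' : a * b ∉ normalizer (K : Set H) := fun e => hn (by simpa using mul_mem e (inv_mem hbn))
  have hc := h.commute_conj' ha hn hw hw
  have e0 : a * b * w * (a * b)⁻¹ = (a * w * a⁻¹)⁻¹ := by
    rw [mul_inv_rev, mul_assoc a, mul_assoc a, ← mul_assoc (b * w), hbw]; group
  obtain ⟨h1, h2, h3, h4, h5⟩ := h.split hm ha hn hw hwc hwo rfl rfl
  obtain ⟨-, -, h3', h4', h5'⟩ := h.split hm hab hn' hw hwc hwo
    (V₁ := fix W (zpowers (w⁻¹ * (a * w * a⁻¹)))) (V₂ := fix W (zpowers (w * (a * w * a⁻¹))))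
    (by rw [e0, ← zpowers_inv, mul_inv_rev, inv_inv, hc.inv_right.eq])
    (by rw [e0, ← zpowers_inv, mul_inv_rev, hc.inv_inv.eq])
  generalize fix W (zpowers (w * (a * w * a⁻¹))) = V₁ at *
  generalize fix W (zpowers (w⁻¹ * (a * w * a⁻¹))) = V₂ at *
  have haa : ∀ u : W, a • a • u = u := fun u => by rw [← mul_smul, h.mul_self ha, one_smul]
  have k1 : ∀ u ∈ V₁, b • u = a • u := fun u hu => by
    rw [← haa (b • u), ← mul_smul a b, h4' u hu]
  have k2 : ∀ u ∈ V₂, b • u = (a * b) • u := fun u hu => by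
    rw [(h.commute ha hb).eq, mul_smul, h4 u hu]
  have k3 : ∀ u₁ ∈ V₁, ∀ u₂ ∈ V₂, dl W b (u₁ + u₂) = dl W a u₁ + dl W (a * b) u₂ :=
    fun u₁ h₁ u₂ h₂ => by rw [map_add, dl_apply, dl_apply, dl_apply, dl_apply, k1 _ h₁, k2 _ h₂]
  have k4 : ∀ u, ∃ u₁ ∈ V₁, ∃ u₂ ∈ V₂, u₁ + u₂ = u := fun u =>
    AddSubgroup.mem_sup.1 (h2.ge (AddSubgroup.mem_top u))
  have k5 : ∀ u ∈ (dl W a).range, b • u = u := by
    rintro _ ⟨u, rfl⟩
    rw [k1 _ (h3 ⟨u, rfl⟩), h.smul_dl_self ha]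
  have k6 : fix W (zpowers b) ≤ (dl W a).range ⊔ (dl W (a * b)).range := fun u hu => by
    obtain ⟨u₁, h₁, u₂, h₂, rfl⟩ := k4 u
    rw [mem_fix_zpowers, ← dl_eq_zero, k3 _ h₁ _ h₂] at hu
    have e1 := eq_neg_of_add_eq_zero_left hu
    have e2 : dl W a u₁ ∈ V₁ ⊓ V₂ := ⟨h3 ⟨_, rfl⟩, e1 ▸ V₂.neg_mem (h3' ⟨_, rfl⟩)⟩
    rw [h1, AddSubgroup.mem_bot] at e2
    rw [e2, zero_add] at hu
    exact AddSubgroup.add_mem_sup (h5 _ h₁ (dl_eq_zero.1 e2)) (h5' _ h₂ (dl_eq_zero.1 hu))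
  have k7 : (dl W a).range ⊔ (dl W (a * b)).range ≤ (dl W b).range := by
    refine sup_le ?_ ?_
    · rintro _ ⟨u, rfl⟩
      obtain ⟨u₁, h₁, u₂, h₂, rfl⟩ := k4 u
      refine ⟨u₁, ?_⟩
      rw [map_add, dl_eq_zero.2 (h4 _ h₂), add_zero, dl_apply, dl_apply, k1 _ h₁]
    · rintro _ ⟨u, rfl⟩
      obtain ⟨u₁, h₁, u₂, h₂, rfl⟩ := k4 u
      refine ⟨u₂, ?_⟩
      rw [map_add, dl_eq_zero.2 (h4' _ h₁), zero_add, dl_apply, dl_apply, k2 _ h₂]
  have k8 : (dl W b).range ≤ fix W (zpowers b) := by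
    rintro _ ⟨u, rfl⟩
    exact mem_fix_zpowers.2 (h.smul_dl_self hb u)
  refine ⟨le_bot_iff.1 ((inf_le_inf h3 h3').trans h1.le), k5, le_antisymm k6 (k7.trans k8),
    le_antisymm k8 (k6.trans k7), ?_⟩
  by_contra hcon
  push Not at hcon
  refine h.not_smul_eq hab hn' fun u => ?_
  obtain ⟨u₁, h₁, u₂, h₂, rfl⟩ := k4 u
  rw [smul_add, h4' _ h₁, ← k2 _ h₂, hcon _ (h4 _ h₂)]

theorem card_range_le (h : PGV 2 W K A) (hm : Mn W K A) {a : H} (ha : a ∈ A)
    (hn : a ∉ normalizer (K : Set H)) : Nat.card (dl W a).range ≤ 2 := by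
  let A₀ : Subgroup H := A ⊓ normalizer (K : Set H)
  have hA : ∀ c ∈ A, c ∈ A₀ ∨ a * c ∈ A₀ := fun c hc => by
    by_cases h1 : c ∈ normalizer (K : Set H)
    · exact Or.inl ⟨hc, h1⟩
    · exact Or.inr ⟨A.mul_mem ha hc, h.mul_mem_normalizer ha hn hc h1⟩
  have haa : ∀ c, a * (a * c) = c := fun c => by rw [← mul_assoc, h.mul_self ha, one_mul]
  have hcard : Nat.card A ≤ 2 * Nat.card A₀ := by
    let f : A₀ ⊕ A₀ → A := Sum.elim (fun c => ⟨c, c.2.1⟩) fun c => ⟨a * c, A.mul_mem ha c.2.1⟩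
    have hf : Function.Surjective f := fun c => by
      rcases hA c c.2 with e | e
      · exact ⟨Sum.inl ⟨c, e⟩, rfl⟩
      · exact ⟨Sum.inr ⟨_, e⟩, Subtype.ext (haa c)⟩
    have := Nat.card_le_card_of_surjective f hf
    rwa [Nat.card_sum, ← two_mul] at this
  have hoff := h.best ⊥ bot_le
  rw [card_bot, one_mul, fix_bot, AddSubgroup.card_top] at hoff
  by_cases h0 : A₀ = ⊥
  · rw [h0, card_bot, mul_one] at hcard
    have h1 := add_card_le_of_le (fix_anti (W := W) (zpowers_le.2 ha))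
    rw [← card_range_dl_mul a] at hoff
    exact Nat.le_of_mul_le_mul_right (hoff.trans (Nat.mul_le_mul hcard h1)) Nat.card_pos
  have q1 : ∀ c ∈ A, c ∉ normalizer (K : Set H) → (dl W c).range ≤ fix W A := by
    have q0 : ∀ c ∈ A, c ∉ normalizer (K : Set H) → ∀ u ∈ (dl W c).range, ∀ b ∈ A₀, b • u = u := by
      intro c hc hc' u hu b hb
      by_cases hb1 : b = 1
      · rw [hb1, one_smul]
      · exact (h.inv_split hm hc hc' hb.1 hb.2 hb1).2.1 u hu
    intro c hc hc' u hu d hd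
    by_cases h1 : d ∈ normalizer (K : Set H)
    · exact q0 c hc hc' u hu d ⟨hd, h1⟩
    · have := q0 c hc hc' u hu (c * d) ⟨A.mul_mem hc hd, h.mul_mem_normalizer hc hc' hd h1⟩
      obtain ⟨v, rfl⟩ := hu
      rwa [(h.commute hc hd).eq, mul_smul, h.smul_dl_self hc] at this
  have q2 : ∀ b ∈ A₀, a * b ∉ normalizer (K : Set H) := fun b hb e =>
    hn (by simpa using mul_mem e (inv_mem hb.2))
  have q3 : ∀ b ∈ A₀, b ≠ 1 → fix W (zpowers b) = fix W A := fun b hb hb1 =>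
    le_antisymm ((h.inv_split hm ha hn hb.1 hb.2 hb1).2.2.1.le.trans
      (sup_le (q1 a ha hn) (q1 _ (A.mul_mem ha hb.1) (q2 b hb)))) (fix_anti (zpowers_le.2 hb.1))
  obtain ⟨b, hb, hb1⟩ := (A₀.bot_or_exists_ne_one).resolve_left h0
  obtain ⟨-, -, -, r1, v, hv, hv'⟩ := h.inv_split hm ha hn hb.1 hb.2 hb1
  have r2 := card_range_dl_mul (W := W) b
  rw [r1, q3 b hb hb1] at r2
  have r3 : Nat.card (fix W A) ≤ Nat.card A :=
    Nat.le_of_mul_le_mul_right (r2.le.trans hoff) Nat.card_pos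
  have r5 : ∀ c ∈ A₀, dl W c v ∈ fix W A := fun c hc => by
    by_cases hc1 : c = 1
    · rw [hc1, dl_one]; exact zero_mem _
    · rw [← q3 c hc hc1, ← (h.inv_split hm ha hn hc.1 hc.2 hc1).2.2.2.1]
      exact ⟨v, rfl⟩
  have r4 : Nat.card A₀ * Nat.card (dl W a).range ≤
      Nat.card (⊥ : Subgroup H) * Nat.card (fix W A) := by
    refine card_mul_le_of_fibers (q1 a ha hn) (fun c => dl W c v) r5 fun c hc c' hc' e => ?_
    by_contra hne
    have hd : c⁻¹ * c' ∈ A₀ := A₀.mul_mem (A₀.inv_mem hc) hc'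
    have e1 : dl W (c⁻¹ * c') v ∈ (dl W a).range := by
      rwa [dl_inv_mul, q1 a ha hn e _ (A.inv_mem hc.1)]
    have e2 : dl W (c⁻¹ * c') v ∈ (dl W (a * (c⁻¹ * c'))).range :=
      ⟨v, by rw [dl_apply, dl_apply, (h.commute ha hd.1).eq, mul_smul, hv]⟩
    have e3 := (h.inv_split hm ha hn hd.1 hd.2 hne).1.le ⟨e1, e2⟩
    rw [AddSubgroup.mem_bot, dl_eq_zero, ← mem_fix_zpowers, q3 _ hd hne] at e3
    exact hv' (e3 b hb.1)
  rw [card_bot, one_mul] at r4
  exact Nat.le_of_mul_le_mul_left ((r4.trans (r3.trans hcard)).trans_eq (mul_comm _ _)) Nat.card_pos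

theorem false_of_two (h : PGV 2 W K A) (hm : Mn W K A) {a : H} (ha : a ∈ A)
    (hn : a ∉ normalizer (K : Set H)) : False := by
  have hX := h.card_range_le hm ha hn
  have hperf := H52.IsQuasisimple.commutator_self h.qs
  have hK' := isQuasisimple_cj h.qs a
  have hf : ∀ w ∈ K, w ∉ centralizer (K : Set H) → (orderOf w).Coprime 2 → ∀ u : W,
      w • u = u → u = 0 := fun w hw hwc hwo u hu =>
    h.fpf hm ha hn hw hwc hwo (by rw [hu, hu])
  obtain ⟨w₀, hw₀, hw₀c, hw₀o⟩ := exists_coprime_not_mem_centralizer 2 h.qs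
  have h0 : (⊤ : AddSubgroup W) ≠ ⊥ := fun e => h.nt (top_le_iff.1 (e.le.trans bot_le))
  obtain ⟨Y, ⟨hY0, hY⟩, hmin⟩ := exists_min_add (fun Y : AddSubgroup W => Y ≠ ⊥ ∧ cj a K ≤ nrm H Y)
    ⟨⊤, h0, le_nrm_top⟩
  have hirr : ∀ U ≤ Y, cj a K ≤ nrm H U → U = ⊥ ∨ U = Y := fun U hU hU' => by
    by_cases e : U = ⊥
    · exact Or.inl e
    · exact Or.inr (hmin U ⟨e, hU'⟩ hU)
  have hcomm : ∀ k ∈ K, ∀ k' ∈ cj a K, ∀ v : W, k' • k • v = k • k' • v := fun k hk k' hk' v => by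
    rw [← mul_smul, ← mul_smul, h.cj_le ha hn hk' k hk]
  obtain ⟨v, hv, hv0⟩ := (Y.bot_or_exists_ne_zero).resolve_left hY0
  have hKY : K ≤ nrm H Y := qs_le_of_forall_coprime 2 h.qs fun w hw hwc hwo => by
    by_contra hne
    have h1 : Y ⊓ Y.comap (DistribMulAction.toAddMonoidHom W w) = ⊥ := by
      refine (hirr _ inf_le_left (le_nrm_iff.2 fun k hk u hu => ⟨smul_mem_of_mem_nrm (hY hk) hu.1,
        ?_⟩)).resolve_right fun e => hne (mem_nrm_of_forall fun u hu => (e.ge hu).2)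
      show w • k • u ∈ Y
      rw [← hcomm w hw k hk]
      exact smul_mem_of_mem_nrm (hY hk) hu.2
    have h2 : Nat.card Y ≤ Nat.card (dl W (w⁻¹ * (a * w * a⁻¹))).range := by
      refine Nat.card_le_card_of_injective (fun u => ⟨_, (u : W), rfl⟩) fun u u' e => ?_
      have e1 := congrArg Subtype.val e
      rw [← sub_eq_zero, ← map_sub, dl_eq_zero, mul_smul, inv_smul_eq_iff] at e1
      have e2 : (u : W) - u' ∈ Y := Y.sub_mem u.2 u'.2
      have e3 := h1.le ⟨e2, show w • ((u : W) - u') ∈ Y from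
        e1 ▸ smul_mem_of_mem_nrm (hY (conj_mem_cj hw)) e2⟩
      exact Subtype.ext (sub_eq_zero.1 e3)
    have h3 : Nat.card Y ≤ 4 := by
      have e1 := add_card_le_of_le (range_dl_comm_le (W := W) a w)
      have e2 := add_card_inf_mul_card_sup (dl W a).range
        ((dl W a).range.map (DistribMulAction.toAddMonoidHom W w⁻¹))
      rw [AddSubgroup.card_map_of_injective (MulAction.injective w⁻¹)] at e2
      exact h2.trans (e1.trans ((Nat.le_mul_of_pos_left _ Nat.card_pos).trans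
        (e2.le.trans (Nat.mul_le_mul hX hX))))
    haveI : Group.IsPerfect (cj a K) := hK'.1
    have h4 : Nat.card (MulAction.orbit (cj a K) v) ≤ 3 := by
      let f : Option (MulAction.orbit (cj a K) v) → Y := fun x => match x with
        | none => 0
        | some u => ⟨u, by
            obtain ⟨_, k, rfl⟩ := u
            exact smul_mem_of_mem_nrm (hY k.2) hv⟩
      have hne : ∀ u : MulAction.orbit (cj a K) v, (u : W) ≠ 0 := by
        rintro ⟨_, k, rfl⟩ e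
        exact hv0 ((smul_eq_zero_iff_eq k).1 e)
      have hf : Function.Injective f := by
        rintro (_ | u) (_ | u') e
        · rfl
        · exact absurd (congrArg Subtype.val e).symm (hne u')
        · exact absurd (congrArg Subtype.val e) (hne u)
        · have e' : (u : W) = u' := congrArg (fun y : Y => (y : W)) e
          rw [Subtype.ext e']
      have := Nat.card_le_card_of_injective f hf
      rw [Finite.card_option] at this
      omega
    have h5 := congrArg Subtype.val (perfect_smul_eq_of_card_le (K := cj a K) h4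
      ⟨_, conj_mem_cj hw⟩ ⟨v, MulAction.mem_orbit_self v⟩)
    have h6 : w • a⁻¹ • v = a⁻¹ • v := by
      rw [eq_inv_smul_iff, ← mul_smul, ← mul_smul]; exact h5
    exact hv0 ((smul_eq_zero_iff_eq a⁻¹).1 (hf w hw hwc hwo _ h6))
  have h7 : K ≤ ctr H Y := by
    rw [← hperf, commutator_le]
    intro x hx y hy u hu
    have := smul_comm_of_irred h.hp hY hirr (hKY (K.inv_mem hx)) (hKY (K.inv_mem hy))
      (fun k hk v _ => hcomm _ (K.inv_mem hx) k hk v)
      (fun k hk v _ => hcomm _ (K.inv_mem hy) k hk v) u hu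
    rw [commutatorElement_def, mul_smul, mul_smul, mul_smul, this, smul_inv_smul, smul_inv_smul]
  exact hv0 (hf w₀ hw₀ hw₀c hw₀o v (h7 hw₀ v hv))

theorem le_normalizer {p : ℕ} [Fact p.Prime] (h : PGV p W K A) (hm : Mn W K A) :
    A ≤ normalizer (K : Set H) := fun a ha => by
  by_contra hn
  obtain rfl := h.eq_two ha hn
  exact h.false_of_two hm ha hn

end PGV

theorem exists_compl_of_elem {G : Type*} [Group G] [Finite G] {p : ℕ} [Fact p.Prime]
    {A B : Subgroup G} (hA : IsElementaryAbelian p A) (hB : B ≤ A) :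
    ∃ C ≤ A, C ⊓ B = ⊥ ∧ C ⊔ B = A := by
  have hcomm : ∀ a ∈ A, ∀ b ∈ A, a * b = b * a := fun a ha b hb =>
    congrArg Subtype.val (hA.1.is_comm.comm ⟨a, ha⟩ ⟨b, hb⟩)
  obtain ⟨C, ⟨hC, hCB⟩, hmax⟩ := (wellFounded_gt (α := Subgroup G)).has_min
    {C | C ≤ A ∧ C ⊓ B = ⊥} ⟨⊥, bot_le, bot_inf_eq B⟩
  refine ⟨C, hC, hCB, le_antisymm (sup_le hC hB) fun a ha => ?_⟩
  by_contra hn
  refine hmax (C ⊔ zpowers a) ⟨sup_le hC (zpowers_le.2 ha), eq_bot_iff.2 fun x hx => ?_⟩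
    (lt_of_le_of_ne le_sup_left fun e => hn (mem_sup_left (e.ge (mem_sup_right (mem_zpowers a)))))
  obtain ⟨c, hc, y, hy, rfl⟩ := (mem_sup_of_le_normalizer (le_normalizer_of_conj_mem
    fun k hk c hc => by rwa [hcomm k (zpowers_le.2 ha hk) c (hC hc), mul_inv_cancel_right])).1 hx.1
  by_cases h1 : y = 1
  · rw [h1, mul_one] at hx ⊢
    exact hCB.le ⟨hc, hx.2⟩
  have h2 : y ∈ C ⊔ B := by simpa using mul_mem (mem_sup_left (C.inv_mem hc)) (mem_sup_right hx.2)
  have h3 : zpowers y = zpowers a := eq_of_le_of_card_ge (zpowers_le.2 hy) (by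
    rw [Nat.card_zpowers, Nat.card_zpowers, orderOf_eq_prime (hA.2 y (zpowers_le.2 ha hy)) h1]
    exact orderOf_le_of_pow_eq_one (Fact.out : p.Prime).pos (hA.2 a ha))
  exact absurd (zpowers_le.2 h2 (h3.ge (mem_zpowers a))) hn

theorem fix_eq_top_of_perfect {p : ℕ} [Fact p.Prime] [Finite W] (hp : ∀ w : W, p • w = 0)
    {B K : Subgroup H} (hB : IsPGroup p B) (hK : ⁅K, K⁆ = K) (hc : B ≤ centralizer (K : Set H))
    (h : fix W B ≤ fix W K) : fix W K = ⊤ := by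
  by_contra hne
  obtain ⟨w, -, h1, h2⟩ := exists_fix_mod hp hB (fun b hb => mem_nrm_fix_of_mem_centralizer (hc hb))
    le_nrm_top fun e => hne (top_le_iff.1 e)
  exact h1 (mem_fix_of_perfect hK fun k hk => h (mem_fix'.2 fun b hb => by
    rw [← dl_comm (hc hb k hk), dl_of_mem_fix (h2 b hb) hk]))

/-- The `P(G,V)`-theorem -/
theorem pgv {p : ℕ} [Fact p.Prime] [Finite H] [Finite W] (hp : ∀ w : W, p • w = 0)
    {K A : Subgroup H} (hK : IsComponent K) (hnt : fix W K ≠ ⊤) (hA : IsElementaryAbelian p A)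
    (hb : ∀ B ≤ A, Nat.card B * Nat.card (fix W B) ≤ Nat.card A * Nat.card (fix W A)) :
    A ≤ normalizer (K : Set H) := by
  have hcomm : ∀ a ∈ A, ∀ b ∈ A, a * b = b * a := fun a ha b hb =>
    congrArg Subtype.val (hA.1.is_comm.comm ⟨a, ha⟩ ⟨b, hb⟩)
  have hAp : IsPGroup p A := fun a => ⟨1, Subtype.ext (by simpa using hA.2 a a.2)⟩
  obtain ⟨B, hBd⟩ : ∃ B, B = A ⊓ centralizer (K : Set H) := ⟨_, rfl⟩
  have hBA : B ≤ A := hBd ▸ inf_le_left
  have hBK : B ≤ centralizer (K : Set H) := hBd ▸ inf_le_right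
  obtain ⟨C, hCA, hCB, hsup⟩ := exists_compl_of_elem hA hBA
  rw [← hsup]
  refine sup_le ?_ (hBK.trans (centralizer_le_normalizer _))
  obtain ⟨Y, ⟨hY1, hY2, hY3⟩, hmin⟩ := exists_min_add (fun Y : AddSubgroup W =>
    Y ≤ fix W B ∧ K ⊔ C ≤ nrm H Y ∧ ¬ Y ≤ fix W K) ⟨fix W B, le_rfl, sup_le
      (fun k hk => mem_nrm_fix_of_mem_centralizer fun b hb => (hBK hb k hk).symm)
      (fun c hc => mem_nrm_fix_of_mem_centralizer fun b hb => hcomm b (hBA hb) c (hCA hc)),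
      fun e => hnt (fix_eq_top_of_perfect hp (hAp.to_le hBA)
        (H52.IsQuasisimple.commutator_self hK.2) hBK e)⟩
  letI := subAct (K ⊔ C) Y hY2
  have hs : ∀ (l : ↥(K ⊔ C)) (y : Y), ((l • y : Y) : W) = (l : H) • (y : W) := fun _ _ => rfl
  have hfix : ∀ X : Subgroup ↥(K ⊔ C), fix Y X = (fix W (X.map (K ⊔ C).subtype) ⊓ Y).addSubgroupOf Y :=
    fun X => AddSubgroup.ext fun y => ⟨fun h => ⟨by
      rintro _ ⟨x, hx, rfl⟩
      exact congrArg Subtype.val (h x hx), y.2⟩, fun h x hx => Subtype.ext (h.1 _ ⟨x, hx, rfl⟩)⟩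
  have hcard : ∀ X : Subgroup ↥(K ⊔ C),
      Nat.card (fix Y X) = Nat.card ↥(fix W (X.map (K ⊔ C).subtype) ⊓ Y) := fun X => by
    rw [hfix]
    exact Nat.card_congr (AddSubgroup.addSubgroupOfEquivOfLe inf_le_right).toEquiv
  have hK' := H52.IsComponent.subgroupOf hK (le_sup_left : K ≤ K ⊔ C)
  have h : PGV p Y (K.subgroupOf (K ⊔ C)) (C.subgroupOf (K ⊔ C)) :=
    { hp := fun y => Subtype.ext (hp (y : W))
      qs := hK'.2
      el := ⟨⟨⟨fun a b => Subtype.ext (Subtype.ext (hcomm _ (hCA a.2) _ (hCA b.2)))⟩⟩,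
        fun a ha => Subtype.ext (hA.2 _ (hCA ha))⟩
      com := fun a _ => (H52.IsComponent.mem_normalizer_or_commutator_conj_eq_bot hK' a).imp_right
        commutator_eq_bot_iff_le_centralizer'.1
      cA := fun a ha hc => Subtype.ext (hCB.le ⟨ha, hBd.ge ⟨hCA ha, fun k hk =>
        congrArg Subtype.val (hc ⟨k, mem_sup_left hk⟩ hk)⟩⟩)
      nt := fun e => hY3 fun y hy k hk =>
        congrArg Subtype.val (e.ge (AddSubgroup.mem_top (⟨y, hy⟩ : Y)) ⟨k, mem_sup_left hk⟩ hk)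
      best := fun X hX => by
        have e0 : ∀ D ≤ C, Nat.card ↥(D ⊔ B) = Nat.card D * Nat.card B := fun D hD => by
          rw [← H53.card_inf_mul_card_sup (le_normalizer_of_conj_mem fun k hk c hc => by
            rwa [hcomm k (hBA hk) c (hCA (hD hc)), mul_inv_cancel_right]),
            le_bot_iff.1 ((inf_le_inf_right B hD).trans hCB.le), card_bot, one_mul]
        have e1 : ∀ D, fix W D ⊓ Y = fix W (D ⊔ B) ⊓ Y := fun D => by
          rw [fix_sup, inf_assoc, inf_eq_right.2 hY1]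
        rw [hcard, hcard, map_subgroupOf_eq_of_le le_sup_right,
          ← card_map_of_injective (K ⊔ C).subtype_injective (K := X),
          Nat.card_congr (subgroupOfEquivOfLe (le_sup_right : C ≤ K ⊔ C)).toEquiv, e1, e1 C, hsup]
        have hD : X.map (K ⊔ C).subtype ≤ C := map_le_iff_le_comap.2 hX
        generalize X.map (K ⊔ C).subtype = D at hD
        have l1 := hb (D ⊔ B) (sup_le (hD.trans hCA) hBA)
        have l2 := add_card_inf_mul_card_sup (fix W (D ⊔ B) ⊓ Y) (fix W A)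
        have l3 : fix W A ≤ fix W (D ⊔ B) := fix_anti (sup_le (hD.trans hCA) hBA)
        have l4 := add_card_le_of_le (sup_le inf_le_left l3 :
          fix W (D ⊔ B) ⊓ Y ⊔ fix W A ≤ fix W (D ⊔ B))
        rw [inf_right_comm, inf_eq_right.2 l3] at l2
        have e2 := e0 C le_rfl
        rw [hsup] at e2
        rw [e0 D hD, e2] at l1
        refine Nat.le_of_mul_le_mul_right (c := Nat.card B * Nat.card (fix W A)) ?_
          (Nat.mul_pos Nat.card_pos Nat.card_pos)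
        calc _ = Nat.card D * Nat.card B *
              (Nat.card ↥(fix W (D ⊔ B) ⊓ Y) * Nat.card (fix W A)) := by ring
          _ ≤ Nat.card D * Nat.card B *
              (Nat.card ↥(fix W A ⊓ Y) * Nat.card (fix W (D ⊔ B))) := by
            rw [← l2]; gcongr
          _ = Nat.card ↥(fix W A ⊓ Y) *
              (Nat.card D * Nat.card B * Nat.card (fix W (D ⊔ B))) := by ring
          _ ≤ _ := (Nat.mul_le_mul_left _ l1).trans_eq (by ring) }
  have h1 := h.le_normalizer fun U hU1 hU2 => by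
    have hU : ∀ l : ↥(K ⊔ C), l ∈ nrm ↥(K ⊔ C) U := fun l => by
      refine sup_le hU1 hU2 ?_
      rw [← subgroupOf_sup le_sup_left le_sup_right, subgroupOf_self]
      exact mem_top l
    by_cases e : U.map Y.subtype ≤ fix W K
    · exact Or.inr fun y hy k hk => Subtype.ext (e ⟨y, hy, rfl⟩ k hk)
    · have := hmin (U.map Y.subtype) ⟨(AddSubgroup.map_subtype_le _).trans hY1, le_nrm_iff.2 (by
        rintro l hl _ ⟨y, hy, rfl⟩
        exact ⟨_, smul_mem_of_mem_nrm (hU ⟨l, hl⟩) hy, rfl⟩), e⟩ (AddSubgroup.map_subtype_le _)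
      refine Or.inl (eq_top_iff.2 fun y _ => ?_)
      obtain ⟨u, hu, e⟩ := this.ge y.2
      exact (Subtype.ext e : u = y) ▸ hu
  exact le_normalizer_of_conj_mem fun c hc k hk =>
    conj_mem_of_mem_normalizer (h1 (x := ⟨c, mem_sup_right hc⟩) hc) (c := ⟨k, mem_sup_left hk⟩) hk

end Cfsg.Agent.H85
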