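import Cfsg.Agent.H74.RuDefs

/-! Project RU: the first kit on frames, flags and triangular elements. -/

set_option autoImplicit false

namespace Cfsg.Agent.H85.RuK

open Cfsg Module Cfsg.Agent.H31 Cfsg.Agent.H74.Ru

section

variable {F V : Type} [Field F] [AddCommGroup V] [Module F V] {n : ℕ} {v : Fin n → V}

theorem mem_Fl {i : ℕ} {j : Fin n} (h : j.val < i) : v j ∈ Fl F v i :=
  Submodule.subset_span ⟨j, h, rfl⟩

theorem Fl_mono {i j : ℕ} (h : i ≤ j) : Fl F v i ≤ Fl F v j :=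
  Submodule.span_mono (Set.image_mono fun _ hk => lt_of_lt_of_le hk h)

theorem Fl_le {i : ℕ} {W : Submodule F V} : Fl F v i ≤ W ↔ ∀ j : Fin n, j.val < i → v j ∈ W :=
  ⟨fun h _ hj => h (mem_Fl hj), fun h => Submodule.span_le.2 (by
    rintro _ ⟨j, hj, rfl⟩; exact h j hj)⟩

theorem Fl_zero : Fl F v 0 = ⊥ := eq_bot_iff.2 (Fl_le.2 fun _ h => absurd h (Nat.not_lt_zero _))

theorem Fl_map (g : V ≃ₗ[F] V) (i : ℕ) :
    Fl F (fun j => g (v j)) i = (Fl F v i).map (g : V →ₗ[F] V) := by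
  rw [Fl, Fl, Submodule.map_span, Set.image_image]; rfl

theorem tri_mem {g : V ≃ₗ[F] V} {t : Fin n → Fˣ} (h : Tri v g t) {i : ℕ} {x : V}
    (hx : x ∈ Fl F v i) : g x ∈ Fl F v i := by
  refine (Fl_le (W := (Fl F v i).comap (g : V →ₗ[F] V))).2 (fun j hj => ?_) hx
  have := add_mem (Fl_mono hj.le (h j)) (Submodule.smul_mem _ (t j : F) (mem_Fl hj))
  rwa [sub_add_cancel] at this

theorem tri_map [FiniteDimensional F V] {g : V ≃ₗ[F] V} {t : Fin n → Fˣ} (h : Tri v g t) (i : ℕ) :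
    (Fl F v i).map (g : V →ₗ[F] V) = Fl F v i :=
  Submodule.eq_of_le_of_finrank_eq (by rintro _ ⟨x, hx, rfl⟩; exact tri_mem h hx)
    (LinearEquiv.finrank_map_eq g _)

theorem tri_mem_iff [FiniteDimensional F V] {g : V ≃ₗ[F] V} {t : Fin n → Fˣ} (h : Tri v g t)
    (i : ℕ) (x : V) : g x ∈ Fl F v i ↔ x ∈ Fl F v i := by
  refine ⟨fun hx => ?_, tri_mem h⟩
  rw [← tri_map h] at hx
  obtain ⟨y, hy, e⟩ := hx
  rwa [← g.injective e]

theorem tri_Fl [FiniteDimensional F V] {g : V ≃ₗ[F] V} {t : Fin n → Fˣ} (h : Tri v g t) (i : ℕ) :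
    Fl F (fun j => g (v j)) i = Fl F v i := (Fl_map g i).trans (tri_map h i)

theorem tri_one : Tri v (1 : V ≃ₗ[F] V) 1 := fun i => by simp

theorem tri_mul {g h : V ≃ₗ[F] V} {t s : Fin n → Fˣ} (a : Tri v g t) (b : Tri v h s) :
    Tri v (g * h) (t * s) := fun i => by
  have := add_mem (tri_mem a (b i)) (Submodule.smul_mem _ (s i : F) (a i))
  convert this using 1
  simp only [LinearEquiv.mul_apply, Pi.mul_apply, Units.val_mul, map_sub, map_smul]
  module

theorem tri_inv [FiniteDimensional F V] {g : V ≃ₗ[F] V} {t : Fin n → Fˣ} (a : Tri v g t) :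
    Tri v g⁻¹ t⁻¹ := fun i => by
  rw [← tri_mem_iff a]
  have := Submodule.smul_mem _ (-((t i)⁻¹ : Fˣ) : F) (a i)
  convert this using 1
  have e : g (g⁻¹ (v i)) = v i := g.apply_symm_apply _
  rw [map_sub, map_smul, e, smul_sub, smul_smul, neg_mul, Units.inv_mul, Pi.inv_apply]
  module

theorem tri_pow {g : V ≃ₗ[F] V} {t : Fin n → Fˣ} (a : Tri v g t) (m : ℕ) :
    Tri v (g ^ m) (t ^ m) := by
  induction m with
  | zero => rw [pow_zero, pow_zero]; exact tri_one
  | succ m ih => rw [pow_succ, pow_succ]; exact tri_mul ih a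

end

variable {F V : Type} [Field F] [Fintype F] [AddCommGroup V] [Module F V] {S : Un F V}
  {v : Fin S.n → V}

theorem fr_co (hv : S.Fr v) (i j : Fin S.n) : S.B (v i.rev) (v j) = if j = i then 1 else 0 := by
  rw [hv, Fin.rev_rev]

theorem fr_sum (hv : S.Fr v) (c : Fin S.n → F) (j : Fin S.n) :
    S.B (v j.rev) (∑ i, c i • v i) = c j := by
  simp [map_sum, fr_co hv]

theorem fr_indep (hv : S.Fr v) : LinearIndependent F v :=
  Fintype.linearIndependent_iff.2 fun c h j => by rw [← fr_sum hv c j, h, map_zero]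

theorem fr_isom (hv : S.Fr v) {g : V ≃ₗ[F] V} (hg : g ∈ isom S.B) : S.Fr fun i => g (v i) :=
  fun i j => (hg _ _).trans (hv i j)

theorem co_of_mem (hv : S.Fr v) {i : ℕ} {x : V} (hx : x ∈ Fl F v i) {j : Fin S.n}
    (hj : i ≤ j.val) : S.B (v j.rev) x = 0 :=
  (Fl_le (W := LinearMap.ker (S.B (v j.rev)))).2 (fun k hk => by
    rw [LinearMap.mem_ker, fr_co hv, if_neg]
    rintro rfl; omega) hx

theorem tri_unique (hv : S.Fr v) {g : V ≃ₗ[F] V} {t s : Fin S.n → Fˣ} (a : Tri v g t)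
    (b : Tri v g s) : t = s := by
  funext i
  have := co_of_mem hv (sub_mem (b i) (a i)) le_rfl
  rw [sub_sub_sub_cancel_left, map_sub, map_smul, map_smul, fr_co hv, if_pos rfl, smul_eq_mul,
    smul_eq_mul, mul_one, mul_one, sub_eq_zero] at this
  exact Units.ext this

variable [FiniteDimensional F V]

theorem fr_span (hv : S.Fr v) : Submodule.span F (Set.range v) = ⊤ :=
  (fr_indep hv).span_eq_top_of_card_eq_finrank' (by rw [S.dim, Fintype.card_fin])

theorem fr_expand (hv : S.Fr v) (x : V) : x = ∑ i, S.B (v i.rev) x • v i := by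
  obtain ⟨c, rfl⟩ := (Submodule.mem_span_range_iff_exists_fun F).1
    (show x ∈ Submodule.span F (Set.range v) from fr_span hv ▸ Submodule.mem_top)
  simp only [fr_sum hv]

theorem mem_Fl_iff (hv : S.Fr v) (i : ℕ) (x : V) :
    x ∈ Fl F v i ↔ ∀ j : Fin S.n, i ≤ j.val → S.B (v j.rev) x = 0 := by
  refine ⟨fun h _ hj => co_of_mem hv h hj, fun h => ?_⟩
  rw [fr_expand hv x]
  refine Submodule.sum_mem _ fun j _ => ?_
  rcases lt_or_ge j.val i with k | k
  · exact Submodule.smul_mem _ _ (mem_Fl k)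
  · rw [h j k, zero_smul]; exact zero_mem _

theorem Fl_top (hv : S.Fr v) {i : ℕ} (hi : S.n ≤ i) : Fl F v i = ⊤ :=
  eq_top_iff.2 fun x _ => (mem_Fl_iff hv i x).2 fun j hj => by omega

theorem sub_mem_Fl (hv : S.Fr v) {i : Fin S.n} {x : V} (hx : x ∈ Fl F v (i.val + 1)) :
    x - S.B (v i.rev) x • v i ∈ Fl F v i.val :=
  (mem_Fl_iff hv _ _).2 fun j hj => by
    rw [map_sub, map_smul, fr_co hv]
    by_cases e : i = j
    · rw [if_pos e, e, smul_eq_mul, mul_one, sub_self]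
    · rw [if_neg e, smul_zero, sub_zero]
      exact co_of_mem hv hx (by have := Fin.val_ne_of_ne e; omega)

theorem tri_congr {w : Fin S.n → V} (hw : S.Fr w) (e : ∀ i, Fl F w i = Fl F v i)
    {g : V ≃ₗ[F] V} {t : Fin S.n → Fˣ} (a : Tri w g t) : Tri v g t := fun i => by
  have h := sub_mem_Fl hw (x := v i) (by rw [e]; exact mem_Fl (Nat.lt_succ_self _))
  have := add_mem (Submodule.smul_mem _ (S.B (w i.rev) (v i)) (a i))
    (sub_mem (tri_mem a h) (Submodule.smul_mem _ (t i : F) h))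
  rw [← e]
  convert this using 1
  rw [map_sub, map_smul]
  module

theorem ka : KaStmt := fun _ _ hv =>
  ⟨fr_expand hv, mem_Fl_iff hv, fr_indep hv, fun _ hg => fr_isom hv hg,
    fun _ _ _ _ => tri_mul, fun _ _ => tri_inv, fun _ _ _ => tri_unique hv,
    fun _ _ a i => ⟨tri_mem_iff a i, tri_Fl a i⟩, fun _ hw e _ _ => tri_congr hw e⟩

end Cfsg.Agent.H85.RuK
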