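import Cfsg.Agent.H74.RuDefs

/-! Project RU: the rank on non-isotropic points is at least four. -/

set_option autoImplicit false

namespace Cfsg.Agent.H85.RuN

open Cfsg Module Cfsg.Agent.H31 Cfsg.Agent.H74.Ru

theorem non : NonStmt := by
  intro F V _ _ _ _ _ S K hK ⟨a, b, r3⟩ v hv hs
  have h := S.herm
  let J : V → F × Prop := fun w => (S.B v w * S.B w v, w ∈ F ∙ v)
  have J1 : ∀ (c : F) w, c * S.σ c = 1 → J (c • w) = J w := fun c w hc => by
    have c0 : c ≠ 0 := fun e => by rw [e, zero_mul] at hc; exact zero_ne_one hc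
    refine Prod.ext ?_ (propext (Submodule.smul_mem_iff _ c0))
    change S.B v (c • w) * S.B (c • w) v = S.B v w * S.B w v
    rw [smul_left, smul_right]
    linear_combination (S.B v w * S.B w v) * hc
  have sc : ∀ k ∈ K, ∃ c, c * S.σ c = 1 ∧ k v = c • v := fun k hk => by
    obtain ⟨c, e⟩ := Submodule.mem_span_singleton.1
      (((hs hk) v).1 (Submodule.mem_span_singleton_self v))
    refine ⟨c, mul_right_cancel₀ hv ?_, e.symm⟩
    have := (hK hk).1 v v
    rw [← e, smul_left, smul_right] at this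
    linear_combination this
  have J2 : ∀ k ∈ K, ∀ w, J (k w) = J w := fun k hk w => by
    obtain ⟨c, hc, e⟩ := sc _ (K.inv_mem hk)
    refine Prod.ext ?_ (propext ((hs hk) w).symm)
    change S.B v (k w) * S.B (k w) v = S.B v w * S.B w v
    rw [isom_adj' (hK hk).1, isom_adj (hK hk).1, e, smul_left, smul_right]
    linear_combination (S.B v w * S.B w v) * hc
  have J3 : ∀ (k : S.G) (g : S.G) (k' : S.G), k ∈ K.subgroupOf S.G → k' ∈ K.subgroupOf S.G →
      J ((k * g * k' : S.G).1 v) = J (g.1 v) := fun k g k' hk hk' => by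
    obtain ⟨c, hc, e⟩ := sc _ hk'
    change J (k.1 (g.1 (k'.1 v))) = _
    rw [J2 k.1 hk, show k'.1 v = c • v from e, map_smul, J1 _ _ hc]
  have key : ∀ w, S.B w w = S.B v v → J w = J v ∨ J w = J (a.1 v) ∨ J w = J (b.1 v) :=
    fun w hw => by
      obtain ⟨g, hg, e⟩ := h.witt_one (ne_zero_of_norm hv) (ne_zero_of_norm (hw ▸ hv)) hw.symm
      obtain ⟨g', hg', -, c, hc, e'⟩ := h.exists_sisom_of_isom hg hv
      rw [← J1 c w hc, ← e, ← e']
      rcases r3 ⟨g', hg'⟩ with k | ⟨x, hx, y, hy, k⟩ | ⟨x, hx, y, hy, k⟩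
      · exact .inl (J2 _ k v)
      · exact .inr (.inl ((congrArg (fun g : S.G => J (g.1 v)) k).trans (J3 x a y hx hy)))
      · exact .inr (.inr ((congrArg (fun g : S.G => J (g.1 v)) k).trans (J3 x b y hx hy)))
  have nd := h.nondegOn_perp (nondegOn_span_singleton hv)
  have dm : 2 ≤ finrank F (perp S.B (F ∙ v)) := by
    rw [h.finrank_perp, finrank_span_singleton (ne_zero_of_norm hv), S.dim]
    have := S.hn; omega
  have ne : perp S.B (F ∙ v) ≠ ⊥ := fun e => by rw [e, finrank_bot] at dm; omega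
  have vec : ∀ (c : F) u, u ∈ perp S.B (F ∙ v) → S.B u u = (1 - c * S.σ c) * S.B v v →
      S.B (c • v + u) (c • v + u) = S.B v v ∧
        (J (c • v + u)).1 = c * S.σ c * (S.B v v * S.B v v) := fun c u hu e => by
    have e1 := mem_perp_span_singleton.1 hu
    have e2 := h.toIsHermSymm.flip_zero e1
    constructor
    · simp only [map_add, LinearMap.add_apply, smul_left, smul_right, e1, e2, e]; ring
    · change S.B v (c • v + u) * S.B (c • v + u) v = _
      simp only [map_add, LinearMap.add_apply, smul_left, smul_right, e1, e2]; ring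
  have fx : ∀ c : F, S.σ ((1 - c * S.σ c) * S.B v v) = (1 - c * S.σ c) * S.B v v := fun c => by
    rw [map_mul, map_sub, map_one, h.inv.norm_fixed, h.toIsHermSymm.norm_fixed]
  obtain ⟨m, hm, m0, m1⟩ := exists_fixed_ne S.hF S.hσ (by have := S.hq; omega)
  obtain ⟨c, rfl⟩ := h.inv.exists_norm_eq hm
  obtain ⟨u0, hu0, e0⟩ := h.toIsHermSymm.exists_norm_eq nd ne (fx 0)
  obtain ⟨u1, hu1, e1⟩ := h.toIsHermSymm.exists_norm_eq nd ne (fx c)
  obtain ⟨u2, hu2, n2, e2⟩ := h.exists_isotropic nd dm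
  obtain ⟨a0, b0⟩ := vec 0 u0 hu0 e0
  obtain ⟨a1, b1⟩ := vec c u1 hu1 e1
  obtain ⟨a2, b2⟩ := vec 1 u2 hu2 (by rw [e2, map_one, mul_one, sub_self, zero_mul])
  have vv := mul_ne_zero hv hv
  rw [zero_mul, zero_mul] at b0
  rw [map_one, mul_one, one_mul] at b2
  have bv : (J v).1 = S.B v v * S.B v v := rfl
  have d0 : J ((0 : F) • v + u0) ≠ J v := fun e => vv (by rw [← bv, ← e, b0])
  have d1 : J (c • v + u1) ≠ J v := fun e => m1 (mul_right_cancel₀ vv (by
    rw [← b1, e, bv, one_mul]))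
  have d2 : J ((1 : F) • v + u2) ≠ J v := fun e => by
    have : (1 : F) • v + u2 ∈ F ∙ v :=
      (congrArg Prod.snd e).mpr (Submodule.mem_span_singleton_self v)
    rw [Submodule.add_mem_iff_right _ (Submodule.smul_mem _ _
      (Submodule.mem_span_singleton_self v))] at this
    obtain ⟨l, rfl⟩ := Submodule.mem_span_singleton.1 this
    exact norm_smul_ne_zero hv (fun k => n2 (by rw [k, zero_smul])) e2
  have d01 : J ((0 : F) • v + u0) ≠ J (c • v + u1) := fun e =>
    mul_ne_zero m0 vv (by rw [← b1, ← e, b0])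
  have d02 : J ((0 : F) • v + u0) ≠ J ((1 : F) • v + u2) := fun e => vv (by rw [← b2, ← e, b0])
  have d12 : J (c • v + u1) ≠ J ((1 : F) • v + u2) := fun e => m1 (mul_right_cancel₀ vv (by
    rw [← b1, e, b2, one_mul]))
  rcases (key _ a0).resolve_left d0 with k0 | k0 <;>
    rcases (key _ a1).resolve_left d1 with k1 | k1 <;>
    rcases (key _ a2).resolve_left d2 with k2 | k2 <;>
    first
      | exact d01 (k0.trans k1.symm)
      | exact d02 (k0.trans k2.symm)
      | exact d12 (k1.trans k2.symm)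

end Cfsg.Agent.H85.RuN
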